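import Mathlib
import Cfsg.Agent.CHAR.FrobGroup
import Cfsg.Agent.CHAR.Values
import Cfsg.Agent.SOLV.Fitting
import Cfsg.Agent.FGS.FrobCS
import Cfsg.Agent.S0200

/-!
# Irreducible characters vanishing on all but two conjugacy classes (Gagola)
-/

set_option autoImplicit false
set_option linter.unusedSectionVars false
open Cfsg CL.Char
open scoped ComplexConjugate commutatorElement

namespace CL.Gag

variable {G : Type*} [Group G]

/-- `χ` is an irreducible character whose support `N` consists of two conjugacy classes. -/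
structure IsGagola (χ : G → ℂ) (N : Subgroup G) : Prop where
  irr : IsIrrCharacter G χ
  mem : ∀ g, g ∈ N ↔ χ g ≠ 0
  ne_bot : N ≠ ⊥
  isConj : ∀ x ∈ N, ∀ y ∈ N, x ≠ 1 → y ≠ 1 → IsConj x y
  ker : ∀ ψ, IsIrrCharacter G ψ → ψ ≠ χ → ∀ n ∈ N, ψ n = ψ 1
  faithful : ∀ g, χ g = χ 1 → g = 1

theorem exists_class_of_card [Finite G] {χ : G → ℂ} (hχ : IsIrrCharacter G χ)
    (h : Nat.card {C : ConjClasses G // ∃ g ∈ C.carrier, χ g ≠ 0} = 2) :
    ∃ x : G, x ≠ 1 ∧ χ x ≠ 0 ∧ ∀ g, χ g ≠ 0 → g = 1 ∨ IsConj x g := by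
  obtain ⟨⟨C, x, hx, hx0⟩, h1, h2⟩ := (Nat.card_eq_two_iff'
    (⟨ConjClasses.mk 1, 1, ConjClasses.mem_carrier_mk, hχ.one_ne_zero⟩ :
      {C : ConjClasses G // ∃ g ∈ C.carrier, χ g ≠ 0})).mp h
  rw [ConjClasses.mem_carrier_iff_mk_eq] at hx
  subst hx
  refine ⟨x, fun e => h1 (by simp [e]), hx0, fun g hg => ?_⟩
  by_cases e : g = 1
  · exact Or.inl e
  · have := h2 ⟨ConjClasses.mk g, g, ConjClasses.mem_carrier_mk, hg⟩ (by
      simpa [ConjClasses.mk_eq_mk_iff_isConj] using e)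
    exact Or.inr (ConjClasses.mk_eq_mk_iff_isConj.mp (congrArg Subtype.val this)).symm

theorem sum_eq_of_support [Fintype G] {f : G → ℂ} (hf : IsClassFunction G f) {x : G} (hx : x ≠ 1)
    (h : ∀ g, f g ≠ 0 → g = 1 ∨ IsConj x g) :
    ∑ g, f g = f 1 + Nat.card {y : G // IsConj x y} * f x := by
  classical
  rw [← sum_ite_isConj hf x, ← Finset.sum_ite_eq_of_mem Finset.univ (1 : G) f (by simp),
    ← Finset.sum_add_distrib]
  refine Finset.sum_congr rfl fun g _ => ?_
  by_cases h1 : 1 = g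
  · subst h1
    simp [hx]
  · by_cases h2 : IsConj x g
    · rw [if_neg h1, if_pos h2, zero_add]
    · rw [if_neg h1, if_neg h2, add_zero]
      by_contra h3
      rcases h g h3 with h4 | h4
      · exact h1 h4.symm
      · exact h2 h4

theorem exists_isGagola [Finite G] (hG : 2 < Nat.card G) {χ : G → ℂ} (hχ : IsIrrCharacter G χ)
    (h : Nat.card {C : ConjClasses G // ∃ g ∈ C.carrier, χ g ≠ 0} = 2) :
    ∃ N : Subgroup G, N.Normal ∧ IsGagola χ N := by
  classical
  have := Fintype.ofFinite G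
  obtain ⟨x, hx1, hx0, hx⟩ := exists_class_of_card hχ h
  set c := Nat.card {y : G // IsConj x y} with hc
  have hc0 : (c : ℂ) ≠ 0 := by
    have : Nonempty {y : G // IsConj x y} := ⟨⟨x, IsConj.refl x⟩⟩
    exact Nat.cast_ne_zero.mpr Nat.card_pos.ne'
  have key : ∀ ψ, IsIrrCharacter G ψ → ψ ≠ χ → ψ 1 * χ 1 + c * (ψ x * conj (χ x)) = 0 := by
    intro ψ hψ hne
    have h1 := card_mul_classInner ψ χ
    rw [hψ.inner_of_ne hχ hne, mul_zero,
      sum_eq_of_support (f := fun g => ψ g * conj (χ g))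
        (hψ.isClassFunction.mul hχ.isClassFunction.conj) hx1
        (fun g hg => hx g (by rintro h0; simp [h0] at hg)), hχ.isCharacter.conj_one] at h1
    exact h1.symm
  have hne1 : (fun _ => 1) ≠ χ := by
    rintro rfl
    have h1 := sum_eq_of_support (f := fun _ : G => (1 : ℂ)) (isClassFunction_const 1) hx1 hx
    rw [Finset.sum_const, Finset.card_univ, nsmul_eq_mul, mul_one, mul_one, ← hc,
      ← Nat.card_eq_fintype_card] at h1
    have h2 : Nat.card G = 1 + c := by exact_mod_cast h1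
    have h3 : c ∣ 1 + c := h2 ▸ Dvd.intro _ (card_conj_mul_card_centralizer x)
    have := Nat.le_of_dvd one_pos ((Nat.dvd_add_left dvd_rfl).mp h3)
    omega
  have k1 := key _ isIrrCharacter_one hne1
  have k2 : ∀ ψ, IsIrrCharacter G ψ → ψ ≠ χ → ψ x = ψ 1 := fun ψ hψ hne => by
    have h1 := key ψ hψ hne
    have h2 : (ψ 1 - ψ x) * χ 1 = 0 := by linear_combination h1 - ψ x * k1
    exact (sub_eq_zero.mp ((mul_eq_zero.mp h2).resolve_right hχ.one_ne_zero)).symm
  have k3 : χ x ≠ χ 1 := fun e => by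
    rw [e, hχ.isCharacter.conj_one] at k1
    have h2 : ((1 + c : ℕ) : ℂ) * χ 1 = 0 := by push_cast; linear_combination k1
    exact (mul_ne_zero (Nat.cast_ne_zero.mpr (by omega)) hχ.one_ne_zero) h2
  let N : Subgroup G := ⨅ ψ : {ψ : IrrCharacter G // (ψ : G → ℂ) ≠ χ}, charKer (ψ.1 : G → ℂ)
  have hN : ∀ g, g ∈ N ↔ ∀ ψ, IsIrrCharacter G ψ → ψ ≠ χ → ψ g = ψ 1 := fun g => by
    simp only [N, Subgroup.mem_iInf, Subtype.forall]
    exact ⟨fun h ψ h1 h2 => h1.mem_charKer.mp (h ψ h1 h2),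
      fun h ψ h1 h2 => h1.mem_charKer.mpr (h ψ h1 h2)⟩
  have hmem : ∀ g, g ∈ N ↔ χ g ≠ 0 := fun g => by
    rw [hN]
    refine ⟨fun h1 h0 => ?_, fun h1 ψ hψ hne => ?_⟩
    · have hg : g ≠ 1 := by rintro rfl; exact hχ.one_ne_zero h0
      have h2 := sum_degree_mul g
      rw [if_neg hg, ← Finset.add_sum_erase _ _ (Finset.mem_univ ⟨χ, hχ⟩)] at h2
      have h3 := sum_degree_sq (G := G)
      rw [← Finset.add_sum_erase _ _ (Finset.mem_univ ⟨χ, hχ⟩)] at h3
      have h4 : ∑ ψ ∈ (Finset.univ : Finset (IrrCharacter G)).erase ⟨χ, hχ⟩,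
          (ψ : G → ℂ) 1 * (ψ : G → ℂ) g = ((∑ ψ ∈ (Finset.univ : Finset (IrrCharacter G)).erase
            ⟨χ, hχ⟩, charDegree (ψ : G → ℂ) ^ 2 : ℕ) : ℂ) := by
        push_cast
        refine Finset.sum_congr rfl fun ψ hψ => ?_
        rw [h1 ψ ψ.2 fun e => (Finset.mem_erase.mp hψ).1 (Subtype.ext e), sq,
          ψ.2.apply_one_eq_charDegree]
      simp only [h0, mul_zero, zero_add] at h2
      rw [h4, Nat.cast_eq_zero, Finset.sum_eq_zero_iff] at h2
      have := h2 (irrOne G) (Finset.mem_erase.mpr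
        ⟨fun e => hne1 (congrArg Subtype.val e), Finset.mem_univ _⟩)
      exact (irrOne G).2.charDegree_pos.ne' (pow_eq_zero_iff two_ne_zero |>.mp this)
    · rcases hx g h1 with rfl | h2
      · rfl
      · rw [← hψ.isClassFunction.eq_of_isConj h2, k2 ψ hψ hne]
  refine ⟨N, ⟨fun n hn g => ?_⟩, hχ, hmem, fun e => hx1 ?_, fun a ha b hb ha1 hb1 => ?_,
    fun ψ hψ hne n hn => (hN n).mp hn ψ hψ hne, fun g hg => ?_⟩
  · rw [hmem] at hn ⊢
    rwa [hχ.isClassFunction n g]
  · exact Subgroup.mem_bot.mp (e ▸ (hmem x).mpr hx0)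
  · exact ((hx a ((hmem a).mp ha)).resolve_left ha1).symm.trans
      ((hx b ((hmem b).mp hb)).resolve_left hb1)
  · refine (hx g (hg ▸ hχ.one_ne_zero)).resolve_right fun h2 => k3 ?_
    rw [hχ.isClassFunction.eq_of_isConj h2, hg]

theorem isGagola_of_mem [Finite G] (hG : 2 < Nat.card G) {χ : G → ℂ} (hχ : IsIrrCharacter G χ)
    (h : Nat.card {C : ConjClasses G // ∃ g ∈ C.carrier, χ g ≠ 0} = 2) {N : Subgroup G}
    (hN : ∀ g, g ∈ N ↔ χ g ≠ 0) : IsGagola χ N := by
  obtain ⟨M, -, hM⟩ := exists_isGagola hG hχ h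
  rwa [show N = M from Subgroup.ext fun g => (hN g).trans (hM.mem g).symm]

namespace IsGagola

variable [Finite G] {χ : G → ℂ} {N : Subgroup G}

theorem exists_ne_one (h : IsGagola χ N) : ∃ x ∈ N, x ≠ 1 :=
  (Subgroup.nontrivial_iff_exists_ne_one N).mp ((Subgroup.nontrivial_iff_ne_bot N).mpr h.ne_bot)

theorem eq_of_faithful (h : IsGagola χ N) {ψ : G → ℂ} (hψ : IsIrrCharacter G ψ)
    (hf : ∀ g, ψ g = ψ 1 → g = 1) : ψ = χ := by
  by_contra hne
  obtain ⟨x, hx, hx1⟩ := h.exists_ne_one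
  exact hx1 (hf x (h.ker ψ hψ hne x hx))

theorem le_of_normal (h : IsGagola χ N) (K : Subgroup G) [K.Normal] (hK : K ≠ ⊥) : N ≤ K := by
  intro n hn
  rw [mem_normal_iff_irr K]
  refine fun ψ hψ hk => h.ker ψ hψ ?_ n hn
  rintro rfl
  exact hK (eq_bot_iff.mpr fun k hk' => h.faithful k (hk k hk'))

theorem isMinNormal [hN : N.Normal] (h : IsGagola χ N) : IsMinNormal N :=
  ⟨hN, h.ne_bot, fun K hK hKN => by
    by_cases e : K = ⊥
    · exact Or.inl e
    · exact Or.inr (le_antisymm hKN (h.le_of_normal K e))⟩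

theorem exists_isPGroup (h : IsGagola χ N) : ∃ p : ℕ, p.Prime ∧ IsPGroup p N := by
  obtain ⟨p, hp, hd⟩ := Nat.exists_prime_and_dvd
    (show Nat.card N ≠ 1 from fun e => h.ne_bot (Subgroup.card_eq_one.mp e))
  have := Fact.mk hp
  obtain ⟨x, hx⟩ := exists_prime_orderOf_dvd_card' p hd
  refine ⟨p, hp, fun y => ⟨1, ?_⟩⟩
  by_cases hy : y = 1
  · simp [hy]
  have hx1 : x ≠ 1 := by rintro rfl; simp at hx; exact hp.one_lt.ne hx
  obtain ⟨c, hc⟩ := isConj_iff.mp (h.isConj x x.2 y y.2 (by simpa using hx1) (by simpa using hy))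
  apply Subtype.ext
  have : (x : G) ^ p = 1 := by rw [← Subgroup.coe_pow, ← hx, pow_orderOf_eq_one]; rfl
  simp [← hc, this]

theorem eq_of_not_ker (h : IsGagola χ N) {ψ : G → ℂ} (hψ : IsIrrCharacter G ψ)
    (hk : ¬ ∀ n ∈ N, ψ n = ψ 1) : ψ = χ := by
  by_contra hne
  exact hk (h.ker ψ hψ hne)

theorem eq_zero (h : IsGagola χ N) {y : G} (hy : y ∉ N) : χ y = 0 := by
  by_contra h0
  exact hy ((h.mem y).mpr h0)

/-- The Camina property. -/
theorem isConj_mul (h : IsGagola χ N) {y n : G} (hy : y ∉ N) (hn : n ∈ N) : IsConj y (y * n) := by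
  refine isConj_of_irr_eq fun ψ hψ => ?_
  by_cases e : ψ = χ
  · rw [e, h.eq_zero hy, h.eq_zero fun h' => hy ((N.mul_mem_cancel_right hn).mp h')]
  · rw [hψ.isCharacter.apply_mul_of_ker (h.ker ψ hψ e n hn)]

theorem card_centralizer [N.Normal] (h : IsGagola χ N) {y : G} (hy : y ∉ N) :
    Nat.card (Subgroup.centralizer ({y} : Set G)) =
      Nat.card (Subgroup.centralizer ({(y : G ⧸ N)} : Set (G ⧸ N))) := by
  classical
  have h1 := column_conj (IsConj.refl y)
  have h2 := column_conj (IsConj.refl (y : G ⧸ N))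
  rw [← sum_irr_ker N (fun ψ => ψ y * conj (ψ y)), Finset.sum_filter_of_ne, h1] at h2
  · exact_mod_cast h2
  · intro ψ _ h0
    by_contra hk
    rw [h.eq_of_not_ker ψ.2 hk, h.eq_zero hy] at h0
    simp at h0

theorem index_centralizer [N.Normal] (h : IsGagola χ N) {x : G} (hx : x ∈ N) (hx1 : x ≠ 1) :
    (Subgroup.centralizer ({x} : Set G)).index + 1 = Nat.card N := by
  rw [← card_conj_eq_index]
  have : {y : G | IsConj x y} = (N : Set G) \ {1} := by
    ext y
    refine ⟨fun hy => ?_, fun hy => h.isConj x hx y hy.1 hx1 hy.2⟩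
    obtain ⟨c, rfl⟩ := isConj_iff.mp hy
    exact ⟨Subgroup.Normal.conj_mem inferInstance x hx c, by simpa using hx1⟩
  change {y : G | IsConj x y}.ncard + 1 = (N : Set G).ncard
  rw [this, Set.ncard_sdiff_singleton_add_one N.one_mem]

theorem index_inertia [N.Normal] (h : IsGagola χ N) {μ : N → ℂ} (hμ : IsIrrCharacter N μ)
    (hμ1 : μ ≠ fun _ => 1) : (inertia N μ).index + 1 = Nat.card N := by
  classical
  have := Fintype.ofFinite N
  obtain ⟨p, hp, hN⟩ := h.exists_isPGroup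
  have := Fact.mk hp
  have hc := (h.isMinNormal.isElementaryAbelian_of_isPGroup hN).1
  have key : ∀ ν, IsIrrCharacter N ν → (ν ≠ fun _ => 1) →
      classInner (fun n : N => χ n) ν ≠ 0 := fun ν hν hν1 => by
    obtain ⟨ψ, hψ, h1⟩ := hν.exists_over
    rwa [h.eq_of_not_ker hψ fun hk => hν1 ?_] at h1
    have : (fun n : N => ψ n) = ψ 1 • fun _ => 1 := funext fun n => by simp [hk n n.2]
    exact (eq_of_inner_smul_ne_zero isIrrCharacter_one hν (this ▸ h1)).symm
  rw [← card_conjugates, ← card_irr_of_comm (fun a b => hc.is_comm.comm a b),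
    Nat.card_eq_fintype_card, ← Finset.card_univ,
    ← Finset.card_erase_add_one (Finset.mem_univ (irrOne N))]
  congr 1
  symm
  refine Finset.card_bij (fun ν _ => (ν : N → ℂ)) (fun ν hν => ?_)
    (fun _ _ _ _ e => Subtype.ext e) (fun φ hφ => ?_)
  · exact mem_conjugates_of_under h.irr hμ ν.2 (key μ hμ hμ1)
      (key ν ν.2 fun e => (Finset.mem_erase.mp hν).1 (Subtype.ext e))
  · refine ⟨⟨φ, irr_of_mem_conjugates hμ hφ⟩, Finset.mem_erase.mpr ⟨fun e => hμ1 ?_, by simp⟩, rfl⟩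
    obtain ⟨g, rfl⟩ := mem_conjugates.mp hφ
    exact conjN_injective g ((congrArg Subtype.val e).trans (conjN_const g 1).symm)

variable {p : ℕ} [hp : Fact p.Prime]

theorem isPGroup_centralizer (h : IsGagola χ N) (hN : IsPGroup p N) {x : G} (hx : x ∈ N)
    (hx1 : x ≠ 1) : IsPGroup p (Subgroup.centralizer ({x} : Set G)) := by
  rw [isPGroup_iff_isPiNum]
  intro q hq hd
  by_contra hqp
  have := Fact.mk hq
  obtain ⟨y, hy⟩ := exists_prime_orderOf_dvd_card' q hd
  have hcop : ∀ z ∈ N, z ^ q = 1 → z = 1 := fun z hz e => by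
    obtain ⟨k, hk⟩ := hN ⟨z, hz⟩
    rw [← orderOf_eq_one_iff]
    exact Nat.eq_one_of_dvd_coprimes (((Nat.coprime_primes hq hp.out).mpr hqp).pow_right k)
      (orderOf_dvd_of_pow_eq_one e) (orderOf_dvd_of_pow_eq_one (congrArg Subtype.val hk))
  have hyq : (y : G) ^ q = 1 := by rw [← Subgroup.coe_pow, ← hy, pow_orderOf_eq_one]; rfl
  have hyN : (y : G) ∉ N := fun h' => by
    rw [show y = 1 from Subtype.ext (hcop y h' hyq), orderOf_one] at hy
    exact hq.one_lt.ne hy
  obtain ⟨c, hc⟩ := isConj_iff.mp (h.isConj_mul hyN hx)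
  have h1 : Commute (y : G) x := Subgroup.mem_centralizer_singleton_iff.mp y.2
  have h2 : (y * x : G) ^ q = 1 := by rw [← hc, conj_pow, hyq]; simp
  rw [h1.mul_pow, hyq, one_mul] at h2
  exact hx1 (hcop x hx h2)

theorem not_dvd_of_add_one (h : IsGagola χ N) (hN : IsPGroup p N) {m : ℕ}
    (hm : m + 1 = Nat.card N) : ¬ p ∣ m := fun hd => by
  have h1 : p ∣ m + 1 := hm ▸ hN.card_eq_or_dvd.resolve_left
    fun e => h.ne_bot (Subgroup.card_eq_one.mp e)
  exact hp.out.one_lt.ne' (Nat.dvd_one.mp ((Nat.dvd_add_right hd).mp h1))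

theorem exists_sylow_centralizer [N.Normal] (h : IsGagola χ N) (hN : IsPGroup p N) {x : G}
    (hx : x ∈ N) (hx1 : x ≠ 1) : ∃ P : Sylow p G, Subgroup.centralizer ({x} : Set G) = P :=
  ⟨(h.isPGroup_centralizer hN hx hx1).toSylow
    (h.not_dvd_of_add_one hN (h.index_centralizer hx hx1)), rfl⟩

theorem exists_sylow_inertia [N.Normal] (h : IsGagola χ N) (hN : IsPGroup p N) {μ : N → ℂ}
    (hμ : IsIrrCharacter N μ) (hμ1 : μ ≠ fun _ => 1) : ∃ P : Sylow p G, inertia N μ = P := by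
  obtain ⟨x, hx, hx1⟩ := h.exists_ne_one
  have h1 := h.index_inertia hμ hμ1
  have h2 := h.index_centralizer hx hx1
  obtain ⟨k, hk⟩ := (h.isPGroup_centralizer hN hx hx1).exists_card_eq
  have h3 : Nat.card (inertia N μ) = p ^ k := by
    rw [← hk]
    refine Nat.eq_of_mul_eq_mul_right (Nat.pos_of_ne_zero (inertia N μ).index_ne_zero_of_finite) ?_
    rw [Subgroup.card_mul_index, show (inertia N μ).index =
      (Subgroup.centralizer ({x} : Set G)).index by omega, Subgroup.card_mul_index]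
  exact ⟨(IsPGroup.of_card h3).toSylow (h.not_dvd_of_add_one hN h1), rfl⟩

theorem card_le_of_commutator_mem [N.Normal] (h : IsGagola χ N) (hN : IsPGroup p N)
    (P : Sylow p G) (Z : Subgroup (P : Subgroup G)) {z : (P : Subgroup G)} (hz : (z : G) ∉ N) (hZ : ∀ g, ⁅z, g⁆ ∈ Z) :
    Nat.card N ≤ Nat.card Z := by
  have h1 := card_conj_mul_card_centralizer z
  have h2 : Nat.card {x : (P : Subgroup G) // IsConj z x} ≤ Nat.card Z := by
    refine Nat.card_le_card_of_injective (fun x => ⟨z * x.1⁻¹, ?_⟩) fun a b e => ?_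
    · obtain ⟨c, hc⟩ := isConj_iff.mp x.2
      have := hZ c
      rw [← hc]
      convert this using 1
      rw [commutatorElement_def]; group
    · exact Subtype.ext (inv_injective (mul_left_cancel (congrArg Subtype.val e)))
  have h3 : Nat.card (Subgroup.centralizer ({z} : Set (P : Subgroup G))) ∣
      Nat.card (Subgroup.centralizer ({(z : G)} : Set G)) := by
    rw [← Subgroup.card_map_of_injective (P : Subgroup G).subtype_injective]
    refine Subgroup.card_dvd_of_le ?_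
    rintro _ ⟨x, hx, rfl⟩
    exact Subgroup.mem_centralizer_singleton_iff.mpr
      (congrArg Subtype.val (Subgroup.mem_centralizer_singleton_iff.mp hx))
  rw [h.card_centralizer hz] at h3
  have h4 := Nat.mul_dvd_mul_right (h3.trans (Subgroup.card_subgroup_dvd_card _)) (Nat.card N)
  rw [← Subgroup.card_eq_card_quotient_mul_card_subgroup] at h4
  obtain ⟨a, ha⟩ := (P.isPGroup'.to_subgroup (Subgroup.centralizer ({z} : Set (P : Subgroup G)))).exists_card_eq
  obtain ⟨b, hb⟩ := hN.exists_card_eq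
  rw [ha, hb, ← pow_add] at h4
  have h5 := Nat.le_of_dvd Nat.card_pos (P.pow_dvd_card_of_pow_dvd_card h4)
  rw [pow_add, ← ha, ← hb, ← h1, mul_comm] at h5
  exact (Nat.le_of_mul_le_mul_right h5 Nat.card_pos).trans h2

theorem upperCentralSeries_succ_le [N.Normal] (h : IsGagola χ N) (hN : IsPGroup p N)
    (P : Sylow p G) {i : ℕ} (hi : Subgroup.upperCentralSeries (P : Subgroup G) i < N.subgroupOf P) :
    Subgroup.upperCentralSeries (P : Subgroup G) (i + 1) ≤ N.subgroupOf P := by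
  intro z hz
  by_contra hzN
  have h1 := h.card_le_of_commutator_mem hN P _ hzN
    (Subgroup.mem_upperCentralSeries_succ_iff.mp hz)
  have h2 := card_lt_of_lt hi
  rw [card_subgroupOf_of_le (le_sylow_of_normal hN P)] at h2
  omega

theorem exists_upperCentralSeries_eq [N.Normal] (h : IsGagola χ N) (hN : IsPGroup p N)
    (P : Sylow p G) : ∃ i, Subgroup.upperCentralSeries (P : Subgroup G) i = N.subgroupOf P := by
  by_contra hne
  push Not at hne
  have key : ∀ i, Subgroup.upperCentralSeries (P : Subgroup G) i < N.subgroupOf P := by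
    intro i
    induction i with
    | zero => exact lt_of_le_of_ne bot_le (hne 0)
    | succ i ih => exact lt_of_le_of_ne (h.upperCentralSeries_succ_le hN P ih) (hne _)
  obtain ⟨i, hi⟩ := P.isPGroup'.isNilpotent.nilpotent
  exact not_top_lt (hi ▸ key i)

theorem center_sylow_le [N.Normal] (h : IsGagola χ N) (hN : IsPGroup p N) (P : Sylow p G) :
    (Subgroup.center (P : Subgroup G)).map (P : Subgroup G).subtype ≤ N := by
  rw [Subgroup.map_le_iff_le_comap, ← Subgroup.upperCentralSeries_one]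
  refine h.upperCentralSeries_succ_le hN P (bot_lt_iff_ne_bot.mpr fun e => h.ne_bot ?_)
  rw [Subgroup.subgroupOf_eq_bot] at e
  exact e.eq_bot_of_le (le_sylow_of_normal hN P)

theorem centralizer_eq_pCore [N.Normal] (h : IsGagola χ N) (hN : IsPGroup p N) :
    Subgroup.centralizer (N : Set G) = pCore p G := by
  obtain ⟨x, hx, hx1⟩ := h.exists_ne_one
  refine le_antisymm (le_pCore ((h.isPGroup_centralizer hN hx hx1).to_le
    (Subgroup.centralizer_le (by simpa using hx))))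
    (h.isMinNormal.le_centralizer_of_isNilpotent (isPGroup_pCore p G).isNilpotent)

theorem center_sylow_eq_iff [N.Normal] (h : IsGagola χ N) (hN : IsPGroup p N) (P : Sylow p G) :
    (Subgroup.center (P : Subgroup G)).map (P : Subgroup G).subtype = N ↔ (P : Subgroup G).Normal := by
  refine ⟨fun e => ?_, fun hP => le_antisymm (h.center_sylow_le hN P) (h.le_of_normal _ ?_)⟩
  · have : (P : Subgroup G) ≤ pCore p G := by
      rw [← h.centralizer_eq_pCore hN, ← e]
      rintro g hg _ ⟨z, hz, rfl⟩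
      exact (congrArg Subtype.val (Subgroup.mem_center_iff.mp hz ⟨g, hg⟩)).symm
    rw [le_antisymm this (pCore_le_sylow P)]
    infer_instance
  · rw [Ne, Subgroup.map_eq_bot_iff_of_injective _ (P : Subgroup G).subtype_injective]
    have : Nontrivial (P : Subgroup G) := (Subgroup.nontrivial_iff_ne_bot _).mpr fun e =>
      h.ne_bot (eq_bot_iff.mpr (e ▸ le_sylow_of_normal hN P))
    exact (Subgroup.nontrivial_iff_ne_bot _).mp P.isPGroup'.center_nontrivial

theorem not_dvd_index_of_complement [N.Normal] (h : IsGagola χ N) (hN : IsPGroup p N)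
    {C : Subgroup G} (hd : N ⊓ C = ⊥) (hs : N ⊔ C = ⊤) : ¬ p ∣ N.index := fun hdvd => by
  rw [index_eq_card_of_complement hd hs] at hdvd
  obtain ⟨y, hy⟩ := exists_prime_orderOf_dvd_card' p hdvd
  have hd' : ∀ x ∈ N, x ∈ C → x = 1 := fun x h1 h2 => Subgroup.mem_bot.mp (hd ▸ ⟨h1, h2⟩)
  have hyN : (y : G) ∉ N := fun h' => by
    rw [show y = 1 from Subtype.ext (hd' y h' y.2), orderOf_one] at hy
    exact hp.out.one_lt.ne hy
  have h1 : Subgroup.centralizer ({((y : G) : G ⧸ N)} : Set (G ⧸ N)) ≤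
      (Subgroup.centralizer ({(y : G)} : Set G)).map (QuotientGroup.mk' N) := by
    intro c hc
    obtain ⟨c, rfl⟩ := (complementEquivQuot hd hs).surjective c
    refine ⟨c, Subgroup.mem_centralizer_singleton_iff.mpr ?_, rfl⟩
    have := Subgroup.mem_centralizer_singleton_iff.mp hc
    rw [← complementEquivQuot_apply hd hs, ← map_mul, ← map_mul] at this
    exact congrArg Subtype.val ((complementEquivQuot hd hs).injective this)
  have h2 := Subgroup.card_le_of_le h1
  have h3 := card_map_mk'_mul (Subgroup.centralizer ({(y : G)} : Set G)) N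
  have h4 := inf_centralizer_ne_bot_of_isPGroup hN (P := Subgroup.zpowers (y : G))
    (IsPGroup.of_card (n := 1) (by rw [Nat.card_zpowers, Subgroup.orderOf_coe, hy, pow_one]))
    (Subgroup.le_normalizer_of_normal) h.ne_bot
  rw [Subgroup.zpowers_eq_closure, Subgroup.centralizer_closure, inf_comm,
    ← Subgroup.one_lt_card_iff_ne_bot] at h4
  rw [← h.card_centralizer hyN, ← h3] at h2
  have h5 : 0 < Nat.card ((Subgroup.centralizer ({(y : G)} : Set G)).map (QuotientGroup.mk' N)) :=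
    Nat.card_pos
  nlinarith

theorem fpf (h : IsGagola χ N) (hN : IsPGroup p N) {u : G} (hu : ∀ k : ℕ, u ^ p ^ k ≠ 1) :
    ∀ k ∈ N, u * k = k * u → k = 1 := fun k hk e => by
  by_contra hk1
  obtain ⟨j, hj⟩ := h.isPGroup_centralizer hN hk hk1
    ⟨u, Subgroup.mem_centralizer_singleton_iff.mpr e⟩
  exact hu j (congrArg Subtype.val hj)

theorem not_dvd_index_of_odd [N.Normal] (h : IsGagola χ N) (hN : IsPGroup p N) (hp2 : p ≠ 2)
    (hC : Subgroup.centralizer (N : Set G) ≤ N) : ¬ p ∣ N.index := by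
  obtain ⟨x, hx, hx1⟩ := h.exists_ne_one
  have h1 := h.index_centralizer hx hx1
  obtain ⟨k, hk⟩ := hN.exists_card_eq
  have h2 : Odd (p ^ k) := (hp.out.odd_of_ne_two hp2).pow
  have h3 : 2 ∣ Nat.card G := by
    refine Dvd.dvd.trans ?_ (Subgroup.centralizer ({x} : Set G)).index_dvd_card
    obtain ⟨m, hm⟩ := h2
    omega
  obtain ⟨t, ht⟩ := exists_prime_orderOf_dvd_card' 2 h3
  have htt : t * t = 1 := by rw [← sq, ← ht, pow_orderOf_eq_one]
  have hf := h.fpf hN (u := t) fun j hj => by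
    have := orderOf_dvd_of_pow_eq_one hj
    rw [ht] at this
    exact hp2 ((Nat.prime_dvd_prime_iff_eq Nat.prime_two hp.out).mp
      (Nat.prime_two.dvd_of_dvd_pow this)).symm
  have hc := (h.isMinNormal.isElementaryAbelian_of_isPGroup hN).1
  have hcomm : ∀ a ∈ N, ∀ b ∈ N, a * b = b * a := fun a ha b hb =>
    congrArg Subtype.val (hc.is_comm.comm ⟨a, ha⟩ ⟨b, hb⟩)
  have hinv : ∀ n ∈ N, t * n * t⁻¹ = n⁻¹ := fun n hn => by
    have h4 : t * n * t⁻¹ ∈ N := Subgroup.Normal.conj_mem inferInstance n hn t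
    refine eq_inv_of_mul_eq_one_left (hf _ (mul_mem h4 hn) ?_)
    have ht' : t⁻¹ = t := inv_eq_of_mul_eq_one_left htt
    calc t * (t * n * t⁻¹ * n) = t * t * (n * (t⁻¹ * n * t⁻¹⁻¹)) * t⁻¹ := by group
      _ = t * n * t⁻¹ * n * t := by rw [htt, one_mul, hcomm _ h4 _ hn, ht', ht']
  refine h.not_dvd_index_of_complement hN (C := Subgroup.centralizer {t}) ?_ ?_
  · rw [eq_bot_iff]
    exact fun k hk => hf k hk.1 (Subgroup.mem_centralizer_singleton_iff.mp hk.2).symm
  · rw [eq_top_iff]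
    intro g _
    have h4 : g * t * g⁻¹ * t⁻¹ ∈ N := hC fun n hn => by
      have e1 := hinv n⁻¹ (inv_mem hn)
      have e2 := hinv (g⁻¹ * n⁻¹ * g) (Subgroup.Normal.conj_mem' inferInstance _ (inv_mem hn) g)
      have e3 : t⁻¹ * n = n⁻¹ * t⁻¹ := by
        have := hinv n hn
        rw [inv_eq_of_mul_eq_one_left htt] at this ⊢
        rw [← this, mul_assoc, htt, mul_one]
      calc n * (g * t * g⁻¹ * t⁻¹) = g * (g⁻¹ * n⁻¹ * g)⁻¹ * t * g⁻¹ * t⁻¹ := by group
        _ = g * t * g⁻¹ * (n⁻¹ * t⁻¹) := by rw [← e2]; group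
        _ = _ := by rw [← e3]; group
    obtain ⟨y, hy, e⟩ := exists_conj_eq_mul_of_fpf hf h4
    rw [← mul_inv_cancel_left y g]
    refine Subgroup.mul_mem_sup hy (Subgroup.mem_centralizer_singleton_iff.mpr ?_)
    calc y⁻¹ * g * t = y⁻¹ * (g * t * g⁻¹ * t⁻¹ * t) * g := by group
      _ = _ := by rw [← e]; group

theorem not_two_dvd_index [N.Normal] (h : IsGagola χ N) (hN : IsPGroup 2 N)
    (hC : pCore 2 G ≤ N) : ¬ 2 ∣ N.index := fun hd => by
  obtain ⟨y, hy⟩ := exists_prime_orderOf_dvd_card' (G := G ⧸ N) 2 hd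
  have hy1 : y ≠ 1 := by rintro rfl; simp at hy
  obtain ⟨u, hu1, hu, e⟩ := Cfsg.Agent.S0200.result y hy fun M hM hM2 hyM => by
    obtain ⟨y, rfl⟩ := QuotientGroup.mk_surjective y
    have : (y : G ⧸ N) ∈ pCore 2 (G ⧸ N) := le_pCore hM2 hyM
    exact hy1 ((QuotientGroup.eq_one_iff _).mpr (hC (comap_mk'_pCore N hN ▸ this)))
  obtain ⟨y, rfl⟩ := QuotientGroup.mk_surjective y
  obtain ⟨u, rfl⟩ := QuotientGroup.mk_surjective u
  have hf := h.fpf hN (u := u⁻¹) fun j hj => hu1 (by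
    rw [inv_pow, inv_eq_one] at hj
    rw [← orderOf_eq_one_iff]
    refine Nat.eq_one_of_dvd_coprimes ((Nat.coprime_two_right.mpr hu).pow_right j) dvd_rfl
      (orderOf_dvd_of_pow_eq_one ?_)
    rw [← QuotientGroup.mk_pow, hj, QuotientGroup.mk_one])
  obtain ⟨w, hw, e'⟩ := exists_conj_eq_mul_of_fpf hf (c := y * u * y⁻¹ * u) (by
    rw [← QuotientGroup.eq_one_iff]
    simp [e])
  rw [mul_inv_cancel_right] at e'
  have h1 : w⁻¹ * y * u * (w⁻¹ * y)⁻¹ = u⁻¹ := by
    calc _ = w⁻¹ * (y * u * y⁻¹) * w := by group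
      _ = _ := by rw [← e']; group
  have h2 : ((w⁻¹ * y : G) : G ⧸ N) = y := by
    rw [QuotientGroup.mk_mul, (QuotientGroup.eq_one_iff _).mpr (inv_mem hw), one_mul]
  generalize w⁻¹ * y = v at h1 h2
  have hvN : v ∉ N := fun h' => hy1 (h2 ▸ (QuotientGroup.eq_one_iff _).mpr h')
  have h3 : v * v = 1 := by
    refine hf _ ?_ ?_
    · rw [← QuotientGroup.eq_one_iff, QuotientGroup.mk_mul, h2, ← sq, ← hy, pow_orderOf_eq_one]
    · have h4 : v * u⁻¹ * v⁻¹ = u := by rw [← conj_inv, h1, inv_inv]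
      calc u⁻¹ * (v * v) = v * (v * u⁻¹ * v⁻¹) * v⁻¹ * (v * v) := by rw [h4, h1]
        _ = _ := by group
  refine hvN (hC (h.centralizer_eq_pCore hN ▸ fun n hn => ?_))
  obtain ⟨c, hc⟩ := isConj_iff.mp (h.isConj_mul hvN hn)
  have h4 : v * n * (v * n) = 1 := by rw [← hc, conj_mul, h3]; simp
  have h5 : n * n = 1 := by rw [← sq]; exact (h.isMinNormal.isElementaryAbelian_of_isPGroup hN).2 n hn
  calc n * v = v * v * (n * v) * (n * n) := by rw [h3, h5]; simp
    _ = v * (v * n * (v * n)) * n := by group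
    _ = _ := by rw [h4, mul_one]

theorem eq_pCore_iff [N.Normal] (hG : 2 < Nat.card G) (h : IsGagola χ N) (hN : IsPGroup p N) :
    N = pCore p G ↔ ∃ H : Subgroup G, IsFrobeniusComplement H ∧ frobeniusKernel H = (N : Set G) ∧
      Nat.card H + 1 = Nat.card N := by
  refine ⟨fun e => ?_, fun ⟨H, h1, h2, h3⟩ => ?_⟩
  · have h1 : ¬ p ∣ N.index := by
      by_cases hp2 : p = 2
      · subst hp2
        exact h.not_two_dvd_index hN e.ge
      · exact h.not_dvd_index_of_odd hN hp2 (h.centralizer_eq_pCore hN ▸ e.ge)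
    have hc := (h.isMinNormal.isElementaryAbelian_of_isPGroup hN).1
    have h2 : ∀ x ∈ N, x ≠ 1 → Subgroup.centralizer ({x} : Set G) = N := fun x hx hx1 =>
      (hN.toSylow h1).is_maximal' (h.isPGroup_centralizer hN hx hx1) fun a ha =>
        Subgroup.mem_centralizer_singleton_iff.mpr
          (congrArg Subtype.val (hc.is_comm.comm ⟨a, ha⟩ ⟨x, hx⟩))
    obtain ⟨k, hk⟩ := hN.exists_card_eq
    obtain ⟨H, hH⟩ := Subgroup.exists_right_complement'_of_coprime (N := N)
      (hk ▸ ((Nat.Prime.coprime_iff_not_dvd hp.out).mpr h1).pow_left k)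
    obtain ⟨x, hx, hx1⟩ := h.exists_ne_one
    have h3 := h.index_centralizer hx hx1
    rw [h2 x hx hx1, hH.symm.index_eq_card] at h3
    have h4 := hH.card_mul_card
    obtain ⟨h5, h6⟩ := CL.CS.frobeniusKernel_eq_of_fpf hH h.ne_bot (by
      rintro rfl
      rw [Subgroup.card_bot] at h3 h4
      omega) fun y hy hy1 => eq_bot_iff.mpr fun z hz => by
        by_contra hz1
        refine hy1 (Subgroup.disjoint_def.mp hH.disjoint (h2 z hz.1 hz1 ▸ ?_) hy)
        exact Subgroup.mem_centralizer_singleton_iff.mpr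
          (Subgroup.mem_centralizer_singleton_iff.mp hz.2).symm
    exact ⟨H, h5, h6, h3⟩
  · have h4 := (CL.CS.kernel_spec h1 h2).2.1.symm.index_eq_card
    exact @sylow_eq_pCore_of_normal _ _ _ (hN.toSylow (h4 ▸ h.not_dvd_of_add_one hN h3))
      (inferInstanceAs N.Normal)

end IsGagola

end CL.Gag
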