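import Mathlib
import Cfsg.Agent.ORD.Winter
import Cfsg.Agent.CHAR.PowCongr
import Cfsg.Agent.CHAR.FTSylow
import Cfsg.Agent.SOLV.Coprime
import Cfsg.Agent.ODD.BG3.Lift

/-!
# Schur's bound for the `p`-part of a `p`-rational linear group
-/

set_option autoImplicit false
set_option linter.unusedSectionVars false
open Cfsg CL.Char
open scoped ComplexConjugate commutatorElement

namespace CL.Ord

universe u
variable {G : Type*} [Group G] {p : ℕ}

theorem neg_degree_le_of_rat [Finite G] (hp : p.Prime) {χ : G → ℂ} (hχ : IsCharacter G χ) {g : G}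
    (hg : PElt p g) (hpow : ∀ k : ℕ, k.Coprime p → χ (g ^ k) = χ g) {a : ℤ} (ha : χ g = a) :
    -(charDegree χ : ℤ) ≤ (p - 1) * a := by
  classical
  have := Fintype.ofFinite G
  obtain ⟨k, hk⟩ := hg
  obtain ⟨j, -, hj⟩ := (Nat.dvd_prime_pow hp).mp (orderOf_dvd_of_pow_eq_one hk)
  have hp1 : (1 : ℤ) ≤ p := by exact_mod_cast hp.one_le
  rcases j with _ | j
  · rw [pow_zero, orderOf_eq_one_iff] at hj
    rw [hj, hχ.apply_one_eq_charDegree] at ha
    have : (charDegree χ : ℤ) = a := by exact_mod_cast ha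
    rw [← this]
    have : (0 : ℤ) ≤ (p - 1) * (charDegree χ : ℤ) := mul_nonneg (by omega) (by positivity)
    have : (0 : ℤ) ≤ charDegree χ := by positivity
    omega
  obtain ⟨c, hc⟩ := (hχ.res (Subgroup.zpowers g)).exists_nat_inner isCharacter_one
  have e1 := card_mul_classInner (fun h : Subgroup.zpowers g => χ h) (fun _ => 1)
  rw [hc] at e1
  simp only [map_one, mul_one] at e1
  obtain ⟨S, hS⟩ : ∃ S, S = Finset.univ.filter (· ∈ Subgroup.zpowers g) := ⟨_, rfl⟩
  obtain ⟨T, hT⟩ : ∃ T, T = Finset.univ.filter (· ∈ Subgroup.zpowers (g ^ p)) := ⟨_, rfl⟩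
  have hTS : T ⊆ S := by
    intro x hx
    simp only [hS, hT, Finset.mem_filter, Finset.mem_univ, true_and] at hx ⊢
    exact Subgroup.zpowers_le.mpr (Subgroup.npow_mem_zpowers g p) hx
  have hSc : S.card = p ^ (j + 1) := by
    rw [hS, ← Fintype.card_subtype, ← Nat.card_eq_fintype_card, ← hj, ← Nat.card_zpowers]
  have hTc : T.card = p ^ j := by
    rw [hT, ← Fintype.card_subtype, ← Nat.card_eq_fintype_card]
    refine (Nat.card_zpowers _).trans ?_
    rw [orderOf_pow_of_dvd hp.ne_zero (hj ▸ dvd_pow_self p (Nat.succ_ne_zero j)), hj, pow_succ,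
      Nat.mul_div_cancel _ hp.pos]
  have e2 : ∑ x ∈ S, χ x = Nat.card (Subgroup.zpowers g) * c := by
    rw [e1]
    exact Finset.sum_subtype _ (by simp [hS]) _
  have e3 : ∀ x ∈ S \ T, χ x = a := by
    intro x hx
    simp only [hS, hT, Finset.mem_sdiff, Finset.mem_filter, Finset.mem_univ, true_and] at hx
    obtain ⟨i, rfl⟩ := mem_powers_iff_mem_zpowers.2 hx.1
    rw [← ha]
    refine hpow i (Nat.coprime_comm.1 (hp.coprime_iff_not_dvd.2 ?_))
    rintro ⟨l, rfl⟩
    exact hx.2 (by simp only [pow_mul]; exact Subgroup.npow_mem_zpowers _ _)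
  rw [← Finset.sum_sdiff hTS, Finset.sum_congr rfl e3, Finset.sum_const,
    Finset.card_sdiff_of_subset hTS, hSc, hTc] at e2
  have e4 := congrArg Complex.re e2
  have e5 : (∑ x ∈ T, χ x).re ≤ p ^ j * charDegree χ := by
    rw [Complex.re_sum]
    refine (Finset.sum_le_card_nsmul _ _ _ fun x _ => hχ.re_le x).trans ?_
    rw [hTc]; simp
  have e6 : (0 : ℝ) ≤ ((Nat.card (Subgroup.zpowers g) : ℂ) * c).re := by
    rw [← Nat.cast_mul, Complex.natCast_re]; positivity
  rw [Complex.add_re, nsmul_eq_mul, Nat.cast_sub (Nat.pow_le_pow_right hp.pos (Nat.le_succ j))]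
    at e4
  have e7 : ((((p ^ (j + 1) : ℕ) : ℂ) - ((p ^ j : ℕ) : ℂ)) * (a : ℂ)).re =
      (p : ℝ) ^ j * ((p - 1) * a) := by
    have : ((((p ^ (j + 1) : ℕ) : ℂ) - ((p ^ j : ℕ) : ℂ)) * (a : ℂ)) =
        (((p : ℝ) ^ j * ((p - 1) * a) : ℝ) : ℂ) := by push_cast; ring
    rw [this, Complex.ofReal_re]
  rw [e7] at e4
  have hpos : (0 : ℝ) < (p : ℝ) ^ j := pow_pos (by exact_mod_cast hp.pos) j
  have : -(charDegree χ : ℝ) ≤ (p - 1) * a := by
    apply le_of_mul_le_mul_left _ hpos
    linarith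
  exact_mod_cast this

/-- Schur's function -/
def schurB (p n : ℕ) : ℕ := ∑ i ∈ Finset.range (n + 1), n / ((p - 1) * p ^ i)

theorem factorization_le_schurB (hp : p.Prime) (n : ℕ) :
    (p ^ (n / (p - 1)) * (n / (p - 1)).factorial).factorization p ≤ schurB p n := by
  obtain ⟨m, hm⟩ : ∃ m, m = n / (p - 1) := ⟨_, rfl⟩
  have hmn : m ≤ n := hm ▸ Nat.div_le_self _ _
  rw [← hm, Nat.factorization_mul (pow_pos hp.pos _).ne' (Nat.factorial_ne_zero _),
    Finsupp.add_apply, Nat.factorization_pow_self hp,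
    Nat.factorization_factorial hp (b := n + 1)
      (lt_of_le_of_lt ((Nat.log_le_self p m).trans hmn) (Nat.lt_succ_self n)), schurB,
    Finset.range_eq_Ico, Finset.sum_eq_sum_Ico_succ_bot (Nat.succ_pos n)]
  simp only [← Nat.div_div_eq_div_mul, ← hm, pow_zero, Nat.div_one, zero_add, le_refl]

theorem index_charKer_dvd [Finite G] [hp : Fact p.Prime] (hG : IsPGroup p G) {χ : G → ℂ}
    (hχ : IsCharacter G χ) (hpow : ∀ (g : G) (k : ℕ), k.Coprime p → χ (g ^ k) = χ g) {n : ℕ}
    (hn : charDegree χ ≤ n) :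
    (charKer χ).index ∣ p ^ (n / (p - 1)) * (n / (p - 1)).factorial := by
  classical
  have := Fintype.ofFinite G
  obtain ⟨m, hm⟩ : ∃ m, m = n / (p - 1) := ⟨_, rfl⟩
  rw [← hm]
  obtain ⟨ψ, hψ⟩ : ∃ ψ : G → ℂ, ψ = ∏ y ∈ Finset.Icc 1 m,
    (χ - (((charDegree χ : ℤ) - p * y : ℤ) : ℂ) • fun _ => 1) := ⟨_, rfl⟩
  have hgen : IsGeneralizedCharacter G ψ := by
    rw [hψ]
    exact Finset.prod_induction _ (IsGeneralizedCharacter G) (fun _ _ ha hb => ha.mul hb) isGen_one
      fun y _ => hχ.isGen.sub (isGen_one.intCast_smul _)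
  have hval : ∀ g, ψ g = ∏ y ∈ Finset.Icc 1 m, (χ g - (charDegree χ - p * y)) := by
    intro g
    rw [hψ, Finset.prod_apply]
    simp
  have h1 : ∀ g ∈ charKer χ, ψ g = p ^ m * m.factorial := by
    intro g hg
    rw [hval, apply_eq_of_mem_charKer hg, hχ.apply_one_eq_charDegree]
    simp only [sub_sub_cancel]
    rw [Finset.prod_mul_distrib, Finset.prod_const, Nat.card_Icc, ← Nat.cast_prod,
      ← Finset.Ico_add_one_right_eq_Icc, Finset.prod_Ico_id_eq_factorial]
    simp
  have h0 : ∀ g ∉ charKer χ, ψ g = 0 := by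
    intro g hg
    obtain ⟨k, hk⟩ := hG g
    obtain ⟨a, ha⟩ := hχ.isGen.exists_int_of_pow (pow_pos hp.out.pos k).ne' hk fun j hj => by
      rcases k with _ | k
      · simp only [pow_zero, pow_one] at hk
        rw [hk, one_pow]
      · exact hpow g j (Nat.Coprime.coprime_dvd_right (dvd_pow_self p (Nat.succ_ne_zero k)) hj)
    have hmod := hχ.isGen.int_modEq_one hp.out hk ha
      (n := charDegree χ) (by simpa using hχ.apply_one_eq_charDegree)
    obtain ⟨y, hy⟩ := hmod.dvd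
    have hlow := neg_degree_le_of_rat hp.out hχ ⟨k, hk⟩ (hpow g) ha
    have hle : a ≤ charDegree χ := by
      have := hχ.re_le g
      rw [ha, Complex.intCast_re] at this
      exact_mod_cast this
    have hne : a ≠ charDegree χ := fun e => hg (hχ.mem_charKer.mpr (by
      rw [ha, e, hχ.apply_one_eq_charDegree]; simp))
    have hp2 : (2 : ℤ) ≤ p := by exact_mod_cast hp.out.two_le
    have hy0 : 0 < y := by
      by_contra h
      have : (p : ℤ) * y ≤ 0 := mul_nonpos_of_nonneg_of_nonpos (by omega) (by omega)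
      omega
    obtain ⟨y, rfl⟩ := Int.eq_ofNat_of_zero_le hy0.le
    have hym : y ≤ m := by
      rw [hm, Nat.le_div_iff_mul_le (by have := hp.out.two_le; omega)]
      have h2 : (p : ℤ) * ((p - 1) * y) ≤ p * charDegree χ := by
        have : a = charDegree χ - p * y := by omega
        rw [this] at hlow
        nlinarith
      have h3 : ((p : ℤ) - 1) * y ≤ charDegree χ := le_of_mul_le_mul_left h2 (by omega)
      have h4 : ((y * (p - 1) : ℕ) : ℤ) = (p - 1) * y := by
        push_cast [hp.out.one_le]; ring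
      omega
    rw [hval]
    refine Finset.prod_eq_zero (i := y) (Finset.mem_Icc.mpr ⟨by exact_mod_cast hy0, hym⟩) ?_
    rw [ha]
    have : (a : ℂ) = ((charDegree χ - p * y : ℤ) : ℂ) := by congr 1; omega
    rw [this]
    push_cast
    ring
  obtain ⟨z, hz⟩ := hgen.exists_int_inner isGen_one
  have e := card_mul_classInner ψ (fun _ => 1)
  rw [hz] at e
  simp only [map_one, mul_one] at e
  rw [← Finset.sum_filter_add_sum_filter_not _ (· ∈ charKer χ),
    Finset.sum_congr rfl fun g hg => h1 g (Finset.mem_filter.mp hg).2,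
    Finset.sum_eq_zero fun g hg => h0 g (Finset.mem_filter.mp hg).2, add_zero, Finset.sum_const,
    ← Fintype.card_subtype, ← Nat.card_eq_fintype_card, ← (charKer χ).card_mul_index,
    nsmul_eq_mul] at e
  have hpos : (Nat.card (charKer χ) : ℂ) ≠ 0 := card_ne_zero _
  push_cast at e
  rw [mul_assoc] at e
  have e2 := mul_left_cancel₀ hpos e
  have e3 : ((charKer χ).index : ℤ) * z = ((p ^ m * m.factorial : ℕ) : ℤ) := by exact_mod_cast e2
  exact Int.natCast_dvd_natCast.mp ⟨z, e3.symm⟩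

theorem factorization_relIndex_charKer_le [Finite G] [hp : Fact p.Prime] {P : Subgroup G}
    (hP : IsPGroup p P) {χ : G → ℂ} (hχ : IsCharacter G χ)
    (hpow : ∀ g ∈ P, ∀ k : ℕ, k.Coprime p → χ (g ^ k) = χ g) {n : ℕ} (hn : charDegree χ ≤ n) :
    ((charKer χ).relIndex P).factorization p ≤ schurB p n := by
  have h := index_charKer_dvd hP (hχ.res P) (fun g k hk => hpow g g.2 k hk) hn
  rw [hχ.charKer_res] at h
  refine le_trans ?_ (factorization_le_schurB hp.out n)
  exact (Nat.factorization_le_iff_dvd Subgroup.index_ne_zero_of_finite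
    (mul_ne_zero (pow_pos hp.out.pos _).ne' (Nat.factorial_ne_zero _))).mpr h p

theorem schur_bound [Finite G] [hp : Fact p.Prime] {χ : G → ℂ} (hχ : IsCharacter G χ)
    (hk : charKer χ = ⊥) {r : ℕ} (hr : 0 < r) (hpr : ¬ p ∣ r)
    (h : ∀ g : G, χ g ∈ IntermediateField.adjoin ℚ
      ({Complex.exp (2 * Real.pi * Complex.I / r)} : Set ℂ)) :
    (Nat.card G).factorization p ≤ schurB p (charDegree χ) := by
  obtain ⟨P⟩ : Nonempty (Sylow p G) := inferInstance
  have := factorization_relIndex_charKer_le P.isPGroup' hχ (fun g hg k hk => ?_) le_rfl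
  · rwa [hk, Subgroup.relIndex_bot_left, P.card_eq_multiplicity,
      Nat.factorization_pow_self hp.out] at this
  obtain ⟨a, ha⟩ := pElt_of_mem P.isPGroup' hg
  obtain ⟨σ, -, -, -, -, -, h1, h2⟩ := exists_ringEquiv_pow_pow (a := p ^ a) (b := r) (k := k)
    (l := 1) (pow_pos hp.out.pos a).ne' hr.ne'
    (((Nat.Prime.coprime_iff_not_dvd hp.out).mpr hpr).pow_left a) (hk.pow_right a)
    (Nat.coprime_one_left r)
  rw [← hχ.gal_apply (σ := (σ : ℂ →+* ℂ)) h1 ha]
  refine apply_eq_of_mem_adjoin _ ?_ (h g)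
  rintro _ rfl
  exact (h2 _ (Complex.isPrimitiveRoot_exp r hr.ne').pow_eq_one).trans (pow_one _)

theorem detOrder_gal [Finite G] {χ : G → ℂ} (hχ : IsCharacter G χ) (σ : ℂ →+* ℂ) :
    detOrder (fun g => σ (χ g)) ∣ detOrder χ := by
  rw [detOrder_dvd_iff]
  intro g
  rw [hχ.detChar_gal, ← map_pow, detChar_pow_detOrder, map_one]

/-- A `p`-rational substitute for a character of a group with a normal `p`-complement. -/
theorem exists_pRational [Finite G] [hp : Fact p.Prime] {K : Subgroup G} [K.Normal]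
    (hK : (Nat.card K).Coprime p) {a : ℕ} (hi : K.index = p ^ a) {χ : G → ℂ}
    (hχ : IsCharacter G χ) : ∃ ψ, IsCharacter G ψ ∧ charDegree ψ ≤ charDegree χ ∧
      (∀ g, PElt p g → ∀ k : ℕ, k.Coprime p → ψ (g ^ k) = ψ g) ∧
      ∀ x ∈ K, x ∈ charKer ψ → x ∈ charKer χ := by
  have := Fintype.ofFinite G
  have := Fintype.ofFinite K
  refine hχ.induction_on (P := fun χ => ∃ ψ, IsCharacter G ψ ∧ charDegree ψ ≤ charDegree χ ∧
      (∀ g, PElt p g → ∀ k : ℕ, k.Coprime p → ψ (g ^ k) = ψ g) ∧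
      ∀ x ∈ K, x ∈ charKer ψ → x ∈ charKer χ)
    ⟨0, isCharacter_zero, le_rfl, fun _ _ _ _ => rfl, fun _ _ h => h⟩ (fun χ hχ => ?_) ?_
  swap
  · rintro a b ha hb ⟨ψ, h1, h2, h3, h4⟩ ⟨φ, k1, k2, k3, k4⟩
    refine ⟨ψ + φ, h1.add k1, ?_, fun g hg k hk => ?_, fun x hx h => ?_⟩
    · rw [charDegree_add h1 k1, charDegree_add ha hb]; omega
    · simp only [Pi.add_apply, h3 g hg k hk, k3 g hg k hk]
    · rw [h1.charKer_add k1] at h
      rw [ha.charKer_add hb]
      exact ⟨h4 x hx h.1, k4 x hx h.2⟩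
  obtain ⟨θ, hθ, hne⟩ := hχ.exists_under_res K
  obtain ⟨T, hT⟩ : ∃ T, T = inertia K θ := ⟨_, rfl⟩
  have hKT : K ≤ T := hT ▸ le_inertia hθ.isClassFunction
  have hcop : (K.subgroupOf T).index.Coprime (Nat.card (K.subgroupOf T)) := by
    rw [CL.card_subgroupOf_of_le hKT]
    refine Nat.Coprime.coprime_dvd_left (Subgroup.relIndex_dvd_index_of_normal K T) ?_
    rw [hi]
    exact hK.symm.pow_left a
  obtain ⟨η, h1, h2, h3⟩ := exists_ext_of_coprime_card (K.subgroupOf T) (hθ.subOf hKT)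
    (inertia_eq_top_iff.mp (inertia_subOf_eq_top hKT hT.le)) hcop
  have hres : (fun n : K => η ⟨n, hKT n.2⟩) = θ := funext fun n => h2 ⟨⟨n, hKT n.2⟩, n.2⟩
  have hne' : classInner (fun n : K => η ⟨n, hKT n.2⟩) θ ≠ 0 := by
    rw [hres, hθ.inner_self]; exact one_ne_zero
  have hψ := clifford_ind_irr hKT hθ hT.ge h1 hne'
  have hin := clifford_ind_inner hKT hθ hT.ge h1 hne'
  rw [hres, hθ.inner_self] at hin
  have c1 := clifford hψ hθ (by rw [hin]; exact one_ne_zero)
  rw [hin, one_smul] at c1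
  have c2 := clifford hχ hθ hne
  rw [← c1] at c2
  obtain ⟨e, he⟩ := (hχ.isCharacter.res K).exists_nat_inner hθ.isCharacter
  rw [he] at c2 hne
  have c3 : ∀ x ∈ K, χ x = e * indFun T η x := fun x hx => congrFun c2 ⟨x, hx⟩
  refine ⟨_, hψ.isCharacter, ?_, fun g hg k hk => ?_, fun x hx h => ?_⟩
  · have := c3 1 (one_mem _)
    rw [hχ.apply_one_eq_charDegree, hψ.apply_one_eq_charDegree] at this
    have h4 : charDegree χ = e * charDegree (indFun T η) := by exact_mod_cast this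
    rw [h4]
    exact Nat.le_mul_of_pos_left _ (Nat.pos_of_ne_zero fun h => hne (by rw [h]; simp))
  · obtain ⟨b, hb⟩ := hg
    obtain ⟨σ, -, -, -, -, -, s1, s2⟩ := exists_ringEquiv_pow_pow (a := p ^ b) (b := Nat.card K)
      (k := k) (l := 1) (pow_pos hp.out.pos b).ne' Nat.card_pos.ne' (hK.symm.pow_left b)
      (hk.pow_right b) (Nat.coprime_one_left _)
    rw [← hψ.isCharacter.gal_apply (σ := (σ : ℂ →+* ℂ)) s1 hb, ← indFun_gal]
    have hd : detOrder η ∣ Nat.card (K.subgroupOf T) := h3 ▸ detOrder_dvd_card _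
    congr 1
    refine ext_unique_of_coprime (K.subgroupOf T) (hθ.subOf hKT)
      (hθ.subOf hKT).apply_one_eq_charDegree
      (hcop.coprime_dvd_right (hθ.subOf hKT).charDegree_dvd_card) (h1.isCharacter.gal _)
      h1.isCharacter (fun n => ?_) h2
      (hcop.coprime_dvd_right ((detOrder_gal h1.isCharacter _).trans hd))
      (hcop.coprime_dvd_right hd)
    rw [h2, subOf_apply, hθ.isCharacter.gal_apply (σ := (σ : ℂ →+* ℂ)) s2 pow_card_eq_one',
      pow_one]
  · rw [hχ.mem_charKer, c3 x hx, c3 1 (one_mem _), apply_eq_of_mem_charKer h]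

theorem factorization_index_pCore_le [Finite G] [hp : Fact p.Prime] (hs : IsPSolvable p G)
    {χ : G → ℂ} (hχ : IsCharacter G χ) (hk : charKer χ = ⊥) :
    (pCore p G).index.factorization p ≤ schurB p (charDegree χ) := by
  obtain ⟨π, hπ⟩ : ∃ π : G →* G ⧸ pCore p G, π = QuotientGroup.mk' _ := ⟨_, rfl⟩
  have hsurj : Function.Surjective π := hπ ▸ QuotientGroup.mk'_surjective _
  have hker : π.ker = pCore p G := by rw [hπ, QuotientGroup.ker_mk']
  have hO := CL.isPGroup_pCore p G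
  have hC := CL.IsPSolvable.centralizer_pPrimeCore_le (CL.IsPSolvable.quotient hs (pCore p G))
    (CL.pCore_quotient_pCore p G)
  have hK := CL.coprime_card_pPrimeCore p (G ⧸ pCore p G)
  obtain ⟨K, hKe⟩ : ∃ K, K = pPrimeCore p (G ⧸ pCore p G) := ⟨_, rfl⟩
  rw [← hKe] at hC hK
  have hKn : K.Normal := hKe ▸ inferInstance
  have hbot : ∀ x ∈ K, PElt p x → x = 1 := fun x hx hx' =>
    hx'.mem_of_pow_mem (N := ⊥) ((Nat.Prime.coprime_iff_not_dvd hp.out).mp hK.symm)
      (congrArg Subtype.val (pow_card_eq_one' (x := (⟨x, hx⟩ : K))))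
  obtain ⟨o, ho⟩ := hO.exists_card_eq
  obtain ⟨ρ, hρ⟩ := CL.BG3.exists_lift_hom π hsurj (G := K)
    (by rw [hker, ho]; exact hK.symm.pow_left o) K.subtype
  obtain ⟨L, hL⟩ : ∃ L, L = ρ.range := ⟨_, rfl⟩
  have hLc : (Nat.card L).Coprime p := by
    rw [hL]
    exact hK.coprime_dvd_left (Subgroup.card_range_dvd ρ)
  have hLK : L.map π = K := by
    rw [hL]
    ext x
    constructor
    · rintro ⟨_, ⟨y, rfl⟩, rfl⟩
      rw [hρ]; exact y.2
    · intro hx
      exact ⟨_, ⟨⟨x, hx⟩, rfl⟩, hρ _⟩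
  have hN := CL.normalizer_map_of_coprime π hsurj L (by rw [hker, ho]; exact hLc.pow_right o)
    (Or.inr (by rw [hker]; have := hO.isNilpotent; infer_instance))
  rw [hLK, Subgroup.normalizer_eq_top] at hN
  obtain ⟨N, hNe⟩ : ∃ N, N = Subgroup.normalizer (L : Set G) := ⟨_, rfl⟩
  rw [← hNe] at hN
  have hs' : Function.Surjective (π.comp N.subtype) := by
    intro y
    obtain ⟨x, hx, rfl⟩ : y ∈ N.map π := hN ▸ Subgroup.mem_top y
    exact ⟨⟨x, hx⟩, rfl⟩
  obtain ⟨Q⟩ : Nonempty (Sylow p N) := inferInstance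
  obtain ⟨P, hP⟩ : ∃ P, P = (Q : Subgroup N).map N.subtype := ⟨_, rfl⟩
  have hPp : IsPGroup p P := hP ▸ Q.isPGroup'.map _
  have hPN : P ≤ Subgroup.normalizer (L : Set G) := by
    rw [hP, ← hNe]; exact Subgroup.map_subtype_le _
  have hidx : (pCore p G).relIndex P = p ^ (pCore p G).index.factorization p := by
    have := (Q.mapSurjective hs').card_eq_multiplicity
    rw [← Subgroup.index_eq_card] at this
    have e : π.ker.relIndex P = Nat.card (Q.mapSurjective hs') := by
      rw [Subgroup.relIndex_ker, hP, Subgroup.map_map]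
      rfl
    rw [hker] at e
    exact e.trans this
  obtain ⟨U, hU⟩ : ∃ U, U = L ⊔ P := ⟨_, rfl⟩
  have hLU : L ≤ U := hU ▸ le_sup_left
  have hPU : P ≤ U := hU ▸ le_sup_right
  have hn : (L.subgroupOf U).Normal := (Subgroup.normal_subgroupOf_iff_le_normalizer hLU).mpr
    (hU ▸ sup_le Subgroup.le_normalizer hPN)
  obtain ⟨a, ha⟩ : ∃ a, (L.subgroupOf U).index = p ^ a := by
    have h1 : IsPGroup p (U ⧸ L.subgroupOf U) := by
      refine hPp.of_surjective ((QuotientGroup.mk' _).comp (Subgroup.inclusion hPU)) ?_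
      intro g
      obtain ⟨g, rfl⟩ := QuotientGroup.mk_surjective g
      have hg : g ∈ ((L.subgroupOf U ⊔ P.subgroupOf U : Subgroup U) : Set U) := by
        rw [← Subgroup.subgroupOf_sup hLU hPU, ← hU, Subgroup.subgroupOf_self]; trivial
      rw [Subgroup.normal_mul] at hg
      obtain ⟨a, ha, b, hb, rfl⟩ := hg
      exact ⟨⟨b, hb⟩, by
        simp only [MonoidHom.comp_apply, QuotientGroup.mk'_apply, QuotientGroup.mk_mul,
          (QuotientGroup.eq_one_iff a).mpr ha, one_mul]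
        rfl⟩
    exact h1.exists_card_eq
  obtain ⟨ψ, h1, h2, h3, h4⟩ := exists_pRational (K := L.subgroupOf U)
    (by rwa [CL.card_subgroupOf_of_le hLU]) ha (hχ.res U)
  have h5 := factorization_relIndex_charKer_le (P := P.subgroupOf U) hPp.comap_subtype h1
    (fun g hg k hk => h3 g (pElt_of_mem hPp.comap_subtype hg) k hk) h2
  rw [charDegree_res] at h5
  refine le_trans ?_ h5
  have h6 : (pCore p G).relIndex P ∣ (charKer ψ).relIndex (P.subgroupOf U) := by
    rw [← Subgroup.relIndex_subgroupOf hPU, ← Subgroup.inf_relIndex_right (charKer ψ)]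
    refine Subgroup.relIndex_dvd_of_le_left _ fun x hx => ?_
    rw [Subgroup.mem_subgroupOf, ← hker, MonoidHom.mem_ker]
    refine hbot _ (hC ?_) ((pElt_of_mem hPp hx.2).map π)
    rw [← hLK, Subgroup.mem_centralizer_iff]
    rintro _ ⟨l, hl, rfl⟩
    have hψn := h1.charKer_normal
    have m1 : ⁅(⟨l, hLU hl⟩ : U), x⁆ ∈ charKer ψ := by
      simpa [commutatorElement_def, mul_assoc] using
        mul_mem (hψn.conj_mem x hx.1 ⟨l, hLU hl⟩) (inv_mem hx.1)
    have m2 : ⁅(⟨l, hLU hl⟩ : U), x⁆ ∈ L.subgroupOf U := by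
      simpa [commutatorElement_def, mul_assoc] using
        mul_mem (show (⟨l, hLU hl⟩ : U) ∈ L.subgroupOf U from hl)
          (hn.conj_mem _ (inv_mem (show (⟨l, hLU hl⟩ : U) ∈ L.subgroupOf U from hl)) x)
    have m3 := h4 _ m2 m1
    rw [hχ.charKer_res, hk, Subgroup.bot_subgroupOf, Subgroup.mem_bot,
      commutatorElement_eq_one_iff_mul_comm] at m3
    rw [← map_mul, ← map_mul]
    exact congrArg (fun u : U => π u) m3
  rw [hidx] at h6
  exact (hp.out.pow_dvd_iff_le_factorization Subgroup.index_ne_zero_of_finite).mp h6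

end CL.Ord
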