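import Mathlib
import Cfsg.Agent.CHAR.Gallagher
import Cfsg.Agent.CHAR.CliffordCorr
import Cfsg.Agent.CHAR.Faithful
import Cfsg.Agent.BLK.FSReal

/-!
# Linear characters versus characters over an extendible character of a perfect normal subgroup
-/

set_option autoImplicit false
set_option linter.unusedSectionVars false
open Cfsg CL.Char
open scoped ComplexConjugate commutatorElement

namespace CL.Ord

variable {G : Type*} [Group G]

theorem le_commutator_of_minNormal_nonabelian {N : Subgroup G} (hN : N.Normal)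
    (hmin : ∀ M : Subgroup G, M.Normal → M ≤ N → M = ⊥ ∨ M = N) (hna : ¬ IsMulCommutative N) :
    N ≤ commutator G := by
  rcases hmin ⁅N, N⁆ inferInstance (Subgroup.commutator_le_left N N) with h | h
  · exfalso
    apply hna
    refine ⟨⟨fun a b => Subtype.ext ?_⟩⟩
    have : ⁅(a : G), (b : G)⁆ ∈ ⁅N, N⁆ := Subgroup.commutator_mem_commutator a.2 b.2
    rw [h, Subgroup.mem_bot, commutatorElement_eq_one_iff_mul_comm] at this
    exact this
  · rw [← h]
    exact Subgroup.commutator_mono le_top le_top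

theorem card_linear_le_of_ext [Fintype G] {N : Subgroup G} [hN : N.Normal]
    (hNG : N ≤ commutator G) {φ : N → ℂ} (hφ : IsIrrCharacter N φ) {I : Subgroup G}
    (hI : inertia N φ = I) (hNI : N ≤ I) {ψ : I → ℂ} (hψ : IsIrrCharacter I ψ)
    (hext : ∀ n : N, ψ ⟨n, hNI n.2⟩ = φ n) (A : Subgroup (G →* ℂˣ)) (P : (G → ℂ) → Prop)
    (hP : ∀ lam ∈ A, IsIrrCharacter G (indFun I fun x => (lam x : ℂ) * ψ x) →
      P (indFun I fun x => (lam x : ℂ) * ψ x)) :
    Nat.card A ≤ I.index * Nat.card {χ : IrrCharacter G //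
      charDegree (χ : G → ℂ) = charDegree φ * I.index ∧ P χ} := by
  classical
  have := Fintype.ofFinite N
  let r : (G →* ℂˣ) →* (I →* ℂˣ) :=
    { toFun := fun lam => lam.comp I.subtype
      map_one' := rfl
      map_mul' := fun _ _ => rfl }
  let f : A →* (I →* ℂˣ) := r.comp A.subtype
  have h1 : Nat.card A = Nat.card f.ker * Nat.card f.range := by
    rw [← Subgroup.card_mul_index f.ker, Subgroup.index_ker]
  have h2 : Nat.card f.ker ≤ I.index := by
    have hc := card_hom_trivial_on (I ⊔ commutator G) le_sup_right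
    have : Nat.card f.ker ≤ Nat.card {lam : G →* ℂˣ // ∀ n ∈ I ⊔ commutator G, lam n = 1} := by
      refine Nat.card_le_card_of_injective (fun x => ⟨x.1.1, ?_⟩) ?_
      · have hx : ∀ y : I, (x.1.1 : G →* ℂˣ) y = 1 := fun y =>
          DFunLike.congr_fun (MonoidHom.mem_ker.mp x.2) y
        intro n hn
        have : I ⊔ commutator G ≤ (x.1.1 : G →* ℂˣ).ker :=
          sup_le (fun y hy => hx ⟨y, hy⟩) (fun y hy => hom_apply_of_mem_commutator _ hy)
        exact this hn
      · intro a b h
        exact Subtype.ext (Subtype.ext (congrArg (fun z => z.1) h))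
    rw [hc] at this
    exact this.trans (Nat.le_of_dvd (Nat.pos_of_ne_zero Subgroup.index_ne_zero_of_finite)
      (Subgroup.index_dvd_of_le le_sup_left))
  have hres : ∀ lam : G →* ℂˣ, (fun n : N => (lam (⟨n, hNI n.2⟩ : I) : ℂ) * ψ ⟨n, hNI n.2⟩) = φ := by
    intro lam
    funext n
    rw [hext, hom_apply_of_mem_commutator lam (hNG n.2)]
    simp
  have hirrI : ∀ lam : G →* ℂˣ, IsIrrCharacter I fun x => (lam x : ℂ) * ψ x := fun lam =>
    hψ.hom_mul (lam.comp I.subtype)
  have hin : ∀ lam : G →* ℂˣ, classInner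
      (fun n : N => (fun x : I => (lam x : ℂ) * ψ x) ⟨n, hNI n.2⟩) φ ≠ 0 := by
    intro lam
    simp only
    rw [hres lam, hφ.inner_self]
    exact one_ne_zero
  have hirr : ∀ lam : G →* ℂˣ, IsIrrCharacter G (indFun I fun x => (lam x : ℂ) * ψ x) :=
    fun lam => clifford_ind_irr hNI hφ hI.le (hirrI lam) (hin lam)
  have hdeg : ∀ lam : G →* ℂˣ, charDegree (indFun I fun x => (lam x : ℂ) * ψ x) =
      charDegree φ * I.index := by
    intro lam
    apply charDegree_eq_of_apply_one
    rw [indFun_one]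
    have := hext 1
    have e : (⟨((1 : N) : G), hNI (1 : N).2⟩ : I) = 1 := rfl
    rw [e] at this
    simp [this, hφ.apply_one_eq_charDegree, mul_comm]
  have hψN : IsIrrCharacter (N.subgroupOf I) (fun x => ψ x) := by
    rw [← subOf_res hNI, isIrrCharacter_subOf_iff hNI]
    have : (fun n : N => ψ ⟨n, hNI n.2⟩) = φ := funext hext
    rw [this]
    exact hφ
  have h3 : Nat.card f.range ≤ Nat.card {χ : IrrCharacter G //
      charDegree (χ : G → ℂ) = charDegree φ * I.index ∧ P χ} := by
    choose s hs using fun y : f.range => y.2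
    refine Nat.card_le_card_of_injective
      (fun y => ⟨⟨_, hirr (s y).1⟩, hdeg _, hP _ (s y).2 (hirr _)⟩) ?_
    intro a b h
    have h' : indFun I (fun x => ((s a).1 x : ℂ) * ψ x) =
        indFun I (fun x => ((s b).1 x : ℂ) * ψ x) := congrArg (fun z => z.1.1) h
    have h4 := clifford_ind_inj hNI hφ hI.le (hirrI _) (hirrI _) (hin _) (hin _) h'
    have h5 := gallagher_inj (N := N.subgroupOf I) hψ.isCharacter hψN
      (isIrrCharacter_hom ((s a).1.comp I.subtype)) (isIrrCharacter_hom ((s b).1.comp I.subtype))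
      (fun n hn => by
        simp [hom_apply_of_mem_commutator _ (hNG (Subgroup.mem_subgroupOf.mp hn))])
      (fun n hn => by
        simp [hom_apply_of_mem_commutator _ (hNG (Subgroup.mem_subgroupOf.mp hn))]) h4
    apply Subtype.ext
    rw [← hs a, ← hs b]
    exact hom_coe_injective h5
  rw [h1]
  exact Nat.mul_le_mul h2 h3

end CL.Ord
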