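import Mathlib
import Cfsg.Agent.ORD.LinCount
import Cfsg.Agent.CHAR.LinExt
import Cfsg.Agent.CHAR.FS
import Cfsg.Agent.CHAR.Faithful

/-! Strongly real characters of `N ⋊ P`. -/

set_option autoImplicit false
open Cfsg CL.Char
open scoped ComplexConjugate commutatorElement

namespace CL.Ord

variable {G : Type*} [Group G]

theorem fsInd_indFun [Fintype G] (H : Subgroup G) (θ : H → ℂ) :
    fsInd (indFun H θ) = (Nat.card H : ℂ)⁻¹ * ∑ g : G, extendByZero H θ (g * g) := by
  rw [fsInd_def]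
  simp only [indFun]
  rw [← Finset.mul_sum, Finset.sum_comm]
  have : ∀ x : G, ∑ g : G, extendByZero H θ (x⁻¹ * (g * g) * x) =
      ∑ g : G, extendByZero H θ (g * g) := by
    intro x
    refine Fintype.sum_equiv (MulAut.conj x⁻¹).toEquiv _ _ fun g => ?_
    congr 1
    simp [mul_assoc]
  simp only [this]
  rw [Finset.sum_const, Finset.card_univ, nsmul_eq_mul, ← Nat.card_eq_fintype_card]
  have := card_ne_zero G
  field_simp

theorem fsInd_ind_of_index_two [Fintype G] (H : Subgroup G) (h2 : H.index = 2) (μ : H →* ℂˣ)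
    (hμ : ∀ g, g ∉ H → ∃ h : g * g ∈ H, μ ⟨g * g, h⟩ = 1)
    (hirr : IsIrrCharacter G (indFun H fun x => (μ x : ℂ))) :
    fsInd (indFun H fun x => (μ x : ℂ)) = 1 := by
  classical
  have := Fintype.ofFinite H
  have h1 : ∑ g : G, extendByZero H (fun x => (μ x : ℂ)) (g * g) =
      ∑ x : H, ((μ ^ 2) x : ℂ) + Nat.card H := by
    rw [← Finset.sum_filter_add_sum_filter_not Finset.univ (fun g => g ∈ H)]
    congr 1
    · rw [Finset.sum_subtype (p := fun g => g ∈ H) _ (by simp)]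
      refine Finset.sum_congr rfl fun x _ => ?_
      rw [← Subgroup.coe_mul, extendByZero_coe, map_mul, MonoidHom.pow_apply, sq]
    · rw [Finset.sum_congr rfl (g := fun _ => 1) fun g hg => by
        obtain ⟨h, e⟩ := hμ g (Finset.mem_filter.mp hg).2
        rw [extendByZero_of_mem _ _ h, e, Units.val_one]]
      rw [Finset.sum_const, nsmul_eq_mul, mul_one, Nat.cast_inj]
      have a1 := Finset.card_filter_add_card_filter_not (s := Finset.univ) (fun g : G => g ∈ H)
      have a2 : (Finset.univ.filter fun g : G => g ∈ H).card = Nat.card H := by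
        rw [Nat.card_eq_fintype_card, Fintype.card_subtype]
      have a3 := H.card_mul_index
      rw [h2, Nat.card_eq_fintype_card (α := G)] at a3
      rw [Finset.card_univ] at a1
      omega
  have h3 := hirr.fsInd_trichotomy
  have hc := card_ne_zero H
  rw [fsInd_indFun, h1] at h3 ⊢
  by_cases e : μ ^ 2 = 1
  · exfalso
    simp only [e, MonoidHom.one_apply, Units.val_one, Finset.sum_const, Finset.card_univ,
      nsmul_eq_mul, mul_one, ← Nat.card_eq_fintype_card, mul_add, inv_mul_cancel₀ hc] at h3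
    norm_num at h3
  · rw [sum_hom_eq_zero e, zero_add, inv_mul_cancel₀ hc]

theorem fsInd_ind_of_inverted [Fintype G] (I : Subgroup G) (μ : I →* ℂˣ) {z : G} (hz : z ∉ I)
    (hz2 : z * z = 1) (hμ : ∀ x : I, ∃ h : z * x * z ∈ I, μ ⟨_, h⟩ = (μ x)⁻¹)
    (hirr : IsIrrCharacter G (indFun I fun x => (μ x : ℂ))) :
    fsInd (indFun I fun x => (μ x : ℂ)) = 1 := by
  classical
  have hzi : z⁻¹ = z := inv_eq_of_mul_eq_one_right hz2
  have hn : ∀ x ∈ I, z * x * z ∈ I := fun x hx => (hμ ⟨x, hx⟩).1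
  let J : Subgroup G :=
    { carrier := {g | g ∈ I ∨ g * z ∈ I}
      one_mem' := Or.inl I.one_mem
      mul_mem' := by
        rintro a b (ha | ha) (hb | hb)
        · exact Or.inl (I.mul_mem ha hb)
        · exact Or.inr (by rw [mul_assoc]; exact I.mul_mem ha hb)
        · refine Or.inr ?_
          have : a * b * z = a * z * (z * b * z) := by
            calc _ = a * (z * z) * b * z := by rw [hz2, mul_one]
              _ = _ := by group
          rw [this]
          exact I.mul_mem ha (hn b hb)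
        · refine Or.inl ?_
          have : a * b = a * z * (z * (b * z) * z) := by
            calc _ = a * (z * z) * b * (z * z) := by rw [hz2, mul_one, mul_one]
              _ = _ := by group
          rw [this]
          exact I.mul_mem ha (hn _ hb)
      inv_mem' := by
        rintro a (ha | ha)
        · exact Or.inl (I.inv_mem ha)
        · refine Or.inr ?_
          have : a⁻¹ * z = z * (a * z)⁻¹ * z := by
            rw [mul_inv_rev, hzi, ← mul_assoc, hz2, one_mul]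
          rw [this]
          exact hn _ (I.inv_mem ha) }
  have hIJ : I ≤ J := fun x hx => Or.inl hx
  have hzJ : z ∈ J := Or.inr (by rw [hz2]; exact I.one_mem)
  have := Fintype.ofFinite J
  have e := indFun_indFun I J hIJ (fun x => (μ x : ℂ))
  let μ' : I.subgroupOf J →* ℂˣ := μ.comp (Subgroup.subgroupOfEquivOfLe hIJ).toMonoidHom
  have hc : IsCharacter J (indFun (I.subgroupOf J) fun x => (μ' x : ℂ)) :=
    (isIrrCharacter_hom μ').isCharacter.ind
  have hirr' : IsIrrCharacter J (indFun (I.subgroupOf J) fun x => (μ' x : ℂ)) :=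
    hc.irr_of_ind (by erw [e]; exact hirr)
  rw [CL.Blk.fsInd_eq_one_iff hirr, ← e]
  apply IsFChar.ind
  refine (CL.Blk.fsInd_eq_one_iff hirr').mp (fsInd_ind_of_index_two _ ?_ μ' ?_ hirr')
  · rw [Subgroup.index_eq_two_iff]
    refine ⟨⟨z, hzJ⟩, fun b => ?_⟩
    simp only [Subgroup.mem_subgroupOf, Subgroup.coe_mul]
    by_cases hb : (b : G) ∈ I
    · exact Or.inr ⟨hb, fun h => hz (by simpa using I.mul_mem (I.inv_mem hb) h)⟩
    · exact Or.inl ⟨b.2.resolve_left hb, hb⟩
  · intro g hg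
    have h1 : (g : G) * z ∈ I := g.2.resolve_left hg
    obtain ⟨h2, h3⟩ := hμ ⟨_, h1⟩
    have h4 : (g : G) * g = (g : G) * z * (z * (g * z) * z) := by
      calc _ = (g : G) * (z * z) * g * (z * z) := by rw [hz2, mul_one, mul_one]
        _ = _ := by group
    have h5 : (g : G) * g ∈ I := h4 ▸ I.mul_mem h1 h2
    refine ⟨h5, ?_⟩
    change μ ⟨(g : G) * g, h5⟩ = 1
    rw [show (⟨(g : G) * g, h5⟩ : I) = ⟨_, h1⟩ * ⟨_, h2⟩ from Subtype.ext h4, map_mul, h3,
      mul_inv_cancel]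

theorem card_real_linear_le [Fintype G] :
    ∃ A : Subgroup (G →* ℂˣ), (∀ lam ∈ A, ∀ g, lam g * lam g = 1) ∧
      Nat.card {χ : IrrCharacter G // charDegree (χ : G → ℂ) = 1 ∧ fsInd (χ : G → ℂ) = 1} ≤
        Nat.card A := by
  let A : Subgroup (G →* ℂˣ) :=
    { carrier := {lam | ∀ g, lam g * lam g = 1}
      one_mem' := fun g => by simp
      mul_mem' := fun {a b} ha hb g => by
        rw [MonoidHom.mul_apply, mul_mul_mul_comm, ha g, hb g, one_mul]
      inv_mem' := fun {a} ha g => by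
        rw [MonoidHom.inv_apply, ← mul_inv, ha g, inv_one] }
  refine ⟨A, fun _ h => h, ?_⟩
  have hex : ∀ χ : {χ : IrrCharacter G // charDegree (χ : G → ℂ) = 1 ∧ fsInd (χ : G → ℂ) = 1},
      ∃ lam : A, (χ.1 : G → ℂ) = fun g => ((lam.1 g : ℂˣ) : ℂ) := by
    rintro ⟨χ, h1, h2⟩
    obtain ⟨lam, hl⟩ := χ.2.isCharacter.exists_hom (χ.2.isCharacter.charDegree_eq_one_iff.mp h1)
    refine ⟨⟨lam, fun g => ?_⟩, hl⟩
    have h3 : ∀ g, ((χ : G → ℂ) g).im = 0 := by
      by_contra hc
      push Not at hc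
      rw [χ.2.fsInd_eq_zero_of_not_real hc] at h2
      exact zero_ne_one h2
    have h4 := hom_mul_conj lam g
    have h5 := h3 g
    rw [hl] at h5
    rw [Complex.conj_eq_iff_im.mpr h5] at h4
    exact Units.ext (by simpa using h4)
  choose s hs using hex
  refine Nat.card_le_card_of_injective s fun a b hab => ?_
  apply Subtype.ext
  apply Subtype.ext
  rw [hs a, hs b, hab]

theorem exists_even_real_degree [Fintype G] (N P : Subgroup G) [hN : N.Normal] {q : ℕ}
    [hqp : Fact q.Prime] (hq : q ≠ 2) (hNel : IsElementaryAbelian q N) (hP : IsPGroup 2 P)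
    (hP1 : P ≠ ⊥) (hdisj : N ⊓ P = ⊥) (hprod : N ⊔ P = ⊤) (hN1 : N ≠ ⊥)
    (hmin : ∀ M : Subgroup G, M.Normal → M ≠ ⊥ → N ≤ M) :
    ∃ m, 2 ∣ m ∧
      Nat.card {χ : IrrCharacter G // charDegree (χ : G → ℂ) = 1 ∧ fsInd (χ : G → ℂ) = 1} ≤
      m * Nat.card {χ : IrrCharacter G // charDegree (χ : G → ℂ) = m ∧ fsInd (χ : G → ℂ) = 1} := by
  classical
  have := Fact.mk Nat.prime_two
  have hNc : ∀ a ∈ N, ∀ b ∈ N, a * b = b * a := fun a ha b hb =>
    congrArg Subtype.val (hNel.1.is_comm.comm (⟨a, ha⟩ : N) ⟨b, hb⟩)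
  have hdec : ∀ g : G, ∃ n ∈ N, ∃ t ∈ P, n * t = g := by
    intro g
    have : g ∈ N ⊔ P := hprod ▸ Subgroup.mem_top g
    rw [← SetLike.mem_coe, Subgroup.normal_mul] at this
    exact this
  have hNP : ¬ N ≤ P := fun h => hN1 (by rw [← hdisj, inf_eq_left.mpr h])
  -- a central involution of `P`
  have : Nontrivial P := (Subgroup.nontrivial_iff_ne_bot _).mpr hP1
  have := hP.center_nontrivial
  obtain ⟨z₀, hz₀⟩ : ∃ z₀ : Subgroup.center P, orderOf z₀ = 2 := by
    obtain ⟨k, hk0, hk⟩ := (hP.to_subgroup (Subgroup.center P)).nontrivial_iff_card.mp this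
    exact exists_prime_orderOf_dvd_card' 2 (hk ▸ dvd_pow_self 2 hk0.ne')
  obtain ⟨z, hzdef⟩ : ∃ z : G, z = ((z₀ : P) : G) := ⟨_, rfl⟩
  have hzP : z ∈ P := hzdef ▸ (z₀ : P).2
  have hzo : orderOf z = 2 := by rw [hzdef, Subgroup.orderOf_coe, Subgroup.orderOf_coe, hz₀]
  have hz2 : z * z = 1 := by rw [← sq, ← hzo, pow_orderOf_eq_one]
  have hzi : z⁻¹ = z := inv_eq_of_mul_eq_one_right hz2
  have hz1 : z ≠ 1 := by rintro rfl; simp at hzo
  have hzc : ∀ t ∈ P, t * z = z * t := fun t ht =>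
    hzdef ▸ congrArg Subtype.val (Subgroup.mem_center_iff.mp z₀.2 ⟨t, ht⟩)
  have hC : N ⊓ Subgroup.centralizer {z} = ⊥ := by
    by_contra hne
    have hn : (N ⊓ Subgroup.centralizer {z}).Normal := ⟨fun x hx g => by
      obtain ⟨n, hn, t, ht, rfl⟩ := hdec g
      refine ⟨hN.conj_mem _ hx.1 _, ?_⟩
      have e : n * t * x * (n * t)⁻¹ = t * x * t⁻¹ := by
        calc _ = n * (t * x * t⁻¹) * n⁻¹ := by group
          _ = _ := by rw [hNc n hn _ (hN.conj_mem _ hx.1 t)]; group
      rw [e]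
      have ht' : t ∈ Subgroup.centralizer ({z} : Set G) :=
        Subgroup.mem_centralizer_singleton_iff.mpr (hzc t ht)
      exact Subgroup.mul_mem _ (Subgroup.mul_mem _ ht' hx.2) (Subgroup.inv_mem _ ht')⟩
    have h1 := hmin _ hn hne
    have hzZ : z ∈ Subgroup.center G := Subgroup.mem_center_iff.mpr fun g => by
      obtain ⟨n, hn, t, ht, rfl⟩ := hdec g
      rw [mul_assoc, hzc t ht, ← mul_assoc, Subgroup.mem_centralizer_singleton_iff.mp (h1 hn).2,
        mul_assoc]
    have hzn : (Subgroup.zpowers z).Normal := ⟨fun x hx g => by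
      have := Subgroup.mem_center_iff.mp (Subgroup.zpowers_le.mpr hzZ hx) g
      rwa [this, mul_inv_cancel_right]⟩
    exact hNP ((hmin _ hzn (by rwa [Ne, Subgroup.zpowers_eq_bot])).trans
      (Subgroup.zpowers_le.mpr hzP))
  have hinv : ∀ n ∈ N, z * n * z = n⁻¹ := by
    intro n hn
    have h1 : z * n * z ∈ N := by simpa [hzi] using hN.conj_mem n hn z
    have : n * (z * n * z) ∈ N ⊓ Subgroup.centralizer {z} := by
      refine ⟨N.mul_mem hn h1, Subgroup.mem_centralizer_singleton_iff.mpr ?_⟩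
      calc n * (z * n * z) * z = n * z * n * (z * z) := by group
        _ = z * (z * n * z * n) := by
          rw [hz2, mul_one]
          calc n * z * n = (z * z) * n * z * n := by rw [hz2, one_mul]
            _ = _ := by group
        _ = _ := by rw [hNc _ h1 n hn]
    rw [hC, Subgroup.mem_bot] at this
    exact (eq_inv_of_mul_eq_one_right this)
  have hNG : N ≤ commutator G := by
    refine hmin _ inferInstance fun h => hNP (hmin P ⟨fun x hx g => ?_⟩ hP1)
    have : ⁅g, x⁆ = 1 := Subgroup.mem_bot.mp (h ▸ Subgroup.commutator_mem_commutator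
      (Subgroup.mem_top g) (Subgroup.mem_top x))
    rwa [commutatorElement_eq_one_iff_mul_comm.mp this, mul_inv_cancel_right]
  obtain ⟨x, hx1⟩ := (Subgroup.ne_bot_iff_exists_ne_one).mp hN1
  obtain ⟨lam, hlam⟩ := exists_hom_apply_ne_one_of_comm
    (fun a b : N => Subtype.ext (hNc _ a.2 _ b.2)) hx1
  have hlq : ∀ n : N, lam n ^ q = 1 := fun n => by
    rw [← map_pow, show n ^ q = 1 from Subtype.ext (hNel.2 _ n.2), map_one]
  have hcop : Nat.Coprime 2 q := (Nat.coprime_primes Nat.prime_two hqp.out).mpr (Ne.symm hq)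
  obtain ⟨I, hI⟩ : ∃ I, inertia N (fun n => (lam n : ℂ)) = I := ⟨_, rfl⟩
  have hNI : N ≤ I := hI ▸ le_inertia (hom_isClassFunction lam)
  have hmemI : ∀ g ∈ I, ∀ n : N, lam ⟨g * n * g⁻¹, hN.conj_mem n n.2 g⟩ = lam n := by
    intro g hg n
    rw [← hI] at hg
    exact Units.ext (mem_inertia.mp hg n)
  have hzI : z ∉ I := by
    intro h
    have h1 := hmemI z h x
    rw [show (⟨z * x * z⁻¹, hN.conj_mem x x.2 z⟩ : N) = x⁻¹ from
      Subtype.ext (show z * x * z⁻¹ = _ by rw [hzi]; exact hinv _ x.2), map_inv] at h1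
    have h2 : lam x ^ 2 = 1 := by rw [sq]; nth_rw 1 [← h1]; exact inv_mul_cancel _
    exact hlam (by simpa [hcop.gcd_eq_one] using pow_gcd_eq_one.mpr ⟨h2, hlq x⟩)
  obtain ⟨k, hk⟩ := hP.exists_card_eq
  have hNidx : N.index = 2 ^ k := by
    rw [← hk]
    exact (Subgroup.isComplement'_of_disjoint_and_mul_eq_univ (disjoint_iff.mpr hdisj)
      (by rw [← Subgroup.normal_mul, hprod]; rfl)).symm.index_eq_card
  let lam' : N.subgroupOf I →* ℂˣ := lam.comp (Subgroup.subgroupOfEquivOfLe hNI).toMonoidHom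
  have hl'q : orderOf lam' ∣ q := orderOf_dvd_of_pow_eq_one (MonoidHom.ext fun n => hlq _)
  obtain ⟨ψ, hψ, hψo⟩ := exists_hom_ext_of_coprime (N.subgroupOf I) lam'
    (fun g n => hmemI g g.2 ⟨n, n.2⟩) (by
      refine Nat.Coprime.coprime_dvd_right hl'q (Nat.Coprime.coprime_dvd_left
        (show _ ∣ 2 ^ k from hNidx ▸ Subgroup.relIndex_dvd_index_of_normal N I) ?_)
      exact hcop.pow_left k)
  have hψP : ∀ t : I, (t : G) ∈ P → ψ t = 1 := by
    intro t ht
    obtain ⟨j, hj⟩ := hP ⟨t, ht⟩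
    have h1 : ψ t ^ 2 ^ j = 1 := by
      have hj' : (t : G) ^ 2 ^ j = 1 := congrArg Subtype.val hj
      rw [← map_pow, show t ^ 2 ^ j = 1 from Subtype.ext hj', map_one]
    have h2 : ψ t ^ q = 1 := by
      have := orderOf_dvd_iff_pow_eq_one.mp (hψo ▸ hl'q)
      exact DFunLike.congr_fun this t
    simpa [(hcop.pow_left j).gcd_eq_one] using pow_gcd_eq_one.mpr ⟨h1, h2⟩
  obtain ⟨A, hA, hcard⟩ := card_real_linear_le (G := G)
  have := Fintype.ofFinite I
  have h := card_linear_le_of_ext hNG (isIrrCharacter_hom lam) hI hNI (isIrrCharacter_hom ψ)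
    (fun n => congrArg Units.val (hψ ⟨⟨n, hNI n.2⟩, n.2⟩)) A (fun χ => fsInd χ = 1)
    (fun β hβ hirr => by
      refine fsInd_ind_of_inverted I (β.comp I.subtype * ψ) hzI hz2 (fun y => ?_) hirr
      obtain ⟨n, hn, t, ht, e⟩ := hdec y
      have htI : t ∈ I := by
        have := I.mul_mem (I.inv_mem (hNI hn)) y.2
        rwa [← e, inv_mul_cancel_left] at this
      have e2 : z * y * z = n⁻¹ * t := by
        rw [← e, ← hinv n hn, ← mul_assoc, mul_assoc _ t, hzc t ht, ← mul_assoc]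
      have hmem : z * y * z ∈ I := e2 ▸ I.mul_mem (I.inv_mem (hNI hn)) htI
      refine ⟨hmem, ?_⟩
      have e3 : ψ ⟨_, hmem⟩ = (ψ y)⁻¹ := by
        rw [show (⟨_, hmem⟩ : I) = (⟨n, hNI hn⟩ : I)⁻¹ * ⟨t, htI⟩ from Subtype.ext e2,
          show y = ⟨n, hNI hn⟩ * ⟨t, htI⟩ from Subtype.ext e.symm, map_mul, map_mul, map_inv,
          hψP ⟨t, htI⟩ ht, mul_one, mul_one]
      rw [MonoidHom.mul_apply, MonoidHom.mul_apply, e3, mul_inv]
      congr 1
      change β (z * y * z) = (β y)⁻¹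
      rw [map_mul, map_mul, mul_right_comm, hA β hβ z, one_mul]
      exact eq_inv_of_mul_eq_one_left (hA β hβ y))
  have hd1 : charDegree (fun n : N => (lam n : ℂ)) = 1 := charDegree_eq_of_apply_one (by simp)
  rw [hd1, one_mul] at h
  refine ⟨I.index, ?_, hcard.trans h⟩
  obtain ⟨j, -, hj⟩ := (Nat.dvd_prime_pow Nat.prime_two).mp (hNidx ▸ Subgroup.index_dvd_of_le hNI)
  rcases j with _ | j
  · exact absurd (Subgroup.index_eq_one.mp hj ▸ Subgroup.mem_top z) hzI
  · rw [hj]; exact dvd_pow_self 2 j.succ_ne_zero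

theorem acd_plus_ge [Fintype G] {m : ℕ} (hm : 2 ∣ m)
    (h : Nat.card {χ : IrrCharacter G // charDegree (χ : G → ℂ) = 1 ∧ fsInd (χ : G → ℂ) = 1} ≤
      m * Nat.card {χ : IrrCharacter G // charDegree (χ : G → ℂ) = m ∧ fsInd (χ : G → ℂ) = 1})
    [Fintype {χ : IrrCharacter G // (charDegree (χ : G → ℂ) = 1 ∨ 2 ∣ charDegree (χ : G → ℂ)) ∧
      fsInd (χ : G → ℂ) = 1}] :
    4 * Nat.card {χ : IrrCharacter G // (charDegree (χ : G → ℂ) = 1 ∨ 2 ∣ charDegree (χ : G → ℂ)) ∧
      fsInd (χ : G → ℂ) = 1} ≤ 3 * ∑ χ : {χ : IrrCharacter G // (charDegree (χ : G → ℂ) = 1 ∨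
        2 ∣ charDegree (χ : G → ℂ)) ∧ fsInd (χ : G → ℂ) = 1}, charDegree (χ.1 : G → ℂ) := by
  classical
  have := Fintype.ofFinite (IrrCharacter G)
  rw [Nat.card_eq_fintype_card, Fintype.card_subtype, Nat.card_eq_fintype_card,
    Fintype.card_subtype, Finset.card_filter, Finset.card_filter, Finset.mul_sum] at h
  rw [Nat.card_eq_fintype_card, Fintype.card_subtype, Finset.card_filter,
    ← Finset.sum_subtype (Finset.univ.filter fun χ : IrrCharacter G =>
      (charDegree (χ : G → ℂ) = 1 ∨ 2 ∣ charDegree (χ : G → ℂ)) ∧ fsInd (χ : G → ℂ) = 1)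
      (by simp) (fun χ : IrrCharacter G => charDegree (χ : G → ℂ)), Finset.sum_filter,
    Finset.mul_sum, Finset.mul_sum]
  refine le_of_add_le_add_right (le_trans ?_ (add_le_add le_rfl h))
  rw [← Finset.sum_add_distrib, ← Finset.sum_add_distrib]
  refine Finset.sum_le_sum fun χ _ => ?_
  have := χ.2.charDegree_pos
  by_cases hf : fsInd (χ : G → ℂ) = 1
  · simp only [hf, and_true]
    split_ifs <;> omega
  · simp [hf]

end CL.Ord
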