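import Mathlib
import Cfsg.Agent.ORD.SymSylow

/-! Direct decompositions of Sylow `2`-subgroups of alternating groups. -/

set_option autoImplicit false

namespace CL.Ord.AltSyl

open Equiv Equiv.Perm SymSyl
open scoped Pointwise

variable {α : Type*} [Fintype α] [DecidableEq α]

theorem swap_eq {T : Subgroup (Perm α)} (hT : IsPGroup 2 T) {a b c : α} (h1 : swap a b ∈ T)
    (h2 : swap a c ∈ T) (hb : b ≠ a) (hc : c ≠ a) : b = c := by
  by_contra hne
  obtain ⟨k, hk⟩ := hT ⟨_, T.mul_mem h1 h2⟩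
  have h3 := orderOf_dvd_of_pow_eq_one (congrArg Subtype.val hk)
  rw [(isThreeCycle_swap_mul_swap_same hb.symm hc.symm hne).orderOf] at h3
  exact absurd (Nat.prime_three.dvd_of_dvd_pow h3) (by decide)

theorem exists_res (T : Sylow 2 (Perm α)) (U : Set α) (hU : ∀ g ∈ T, ∀ t, g t ∈ U ↔ t ∈ U)
    {g : Perm α} (hg : g ∈ T) : ∃ g' ∈ T, (∀ t ∈ U, g' t = g t) ∧ ∀ t ∉ U, g' t = t := by
  classical
  let R : Subgroup (Perm α) :=
    { carrier := {h | ∃ g₁ ∈ T, ∃ g₂ ∈ T, (∀ t ∈ U, h t = g₁ t) ∧ ∀ t ∉ U, h t = g₂ t}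
      one_mem' := ⟨1, T.1.one_mem, 1, T.1.one_mem, fun _ _ => rfl, fun _ _ => rfl⟩
      mul_mem' := by
        rintro h h' ⟨a, ha, b, hb, h1, h2⟩ ⟨a', ha', b', hb', h1', h2'⟩
        refine ⟨a * a', T.1.mul_mem ha ha', b * b', T.1.mul_mem hb hb', fun t ht => ?_,
          fun t ht => ?_⟩
        · rw [Perm.mul_apply, Perm.mul_apply, h1' t ht, h1 _ ((hU a' ha' t).2 ht)]
        · rw [Perm.mul_apply, Perm.mul_apply, h2' t ht, h2 _ (mt (hU b' hb' t).1 ht)]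
      inv_mem' := by
        rintro h ⟨a, ha, b, hb, h1, h2⟩
        refine ⟨a⁻¹, T.1.inv_mem ha, b⁻¹, T.1.inv_mem hb, fun t ht => ?_, fun t ht => ?_⟩
        · rw [Perm.inv_eq_iff_eq, h1 _ ((hU _ (T.1.inv_mem ha) t).2 ht)]; simp
        · rw [Perm.inv_eq_iff_eq, h2 _ (mt (hU _ (T.1.inv_mem hb) t).1 ht)]; simp }
  have hR : IsPGroup 2 R := by
    obtain ⟨N, hN⟩ := T.isPGroup'.exists_card_eq
    have hp : ∀ a ∈ T, a ^ 2 ^ N = 1 := fun a ha => by
      have := pow_card_eq_one' (x := (⟨a, ha⟩ : T.1))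
      rw [hN] at this
      exact congrArg Subtype.val this
    rintro ⟨h, a, ha, b, hb, h1, h2⟩
    refine ⟨N, Subtype.ext (Equiv.ext fun t => ?_)⟩
    change (h ^ 2 ^ N) t = t
    by_cases ht : t ∈ U
    · have : ∀ k : ℕ, (h ^ k) t = (a ^ k) t := fun k => by
        induction k with
        | zero => rfl
        | succ k ih =>
          rw [pow_succ', pow_succ', Perm.mul_apply, Perm.mul_apply, ih,
            h1 _ ((hU _ (T.1.pow_mem ha k) t).2 ht)]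
      rw [this, hp a ha]; rfl
    · have : ∀ k : ℕ, (h ^ k) t = (b ^ k) t := fun k => by
        induction k with
        | zero => rfl
        | succ k ih =>
          rw [pow_succ', pow_succ', Perm.mul_apply, Perm.mul_apply, ih,
            h2 _ (mt (hU _ (T.1.pow_mem hb k) t).1 ht)]
      rw [this, hp b hb]; rfl
  have hRT := T.is_maximal' hR fun a ha => ⟨a, ha, a, ha, fun _ _ => rfl, fun _ _ => rfl⟩
  have h1 : ∀ t ∈ U, ofSubtype (g.subtypePerm (hU g hg)) t = g t := fun t ht =>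
    ofSubtype_subtypePerm_of_mem (hU g hg) ht
  have h2 : ∀ t ∉ U, ofSubtype (g.subtypePerm (hU g hg)) t = t := fun t ht =>
    ofSubtype_subtypePerm_of_not_mem (hU g hg) ht
  exact ⟨_, hRT.le ⟨g, hg, 1, T.1.one_mem, h1, h2⟩, h1, h2⟩

/-- the data attached to a Sylow `2`-subgroup of a symmetric group -/
structure Ctx (T : Sylow 2 (Perm α)) (m y : Perm α) (B : Finset α) : Prop where
  mm : ∀ t, m (m t) = t
  comm : ∀ g ∈ T, ∀ t, g (m t) = m (g t)
  fix : ∀ a b, m a = a → m b = b → a = b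
  swp : ∀ t, swap t (m t) ∈ T
  yT : y ∈ T
  yy : ∀ t ∈ B, y (y t) = m t
  ne : ∀ t ∈ B, m t ≠ t
  inv : ∀ g ∈ T, ∀ t, g t ∈ B ↔ t ∈ B
  card : B.card = 4 * (Fintype.card α / 4)

theorem exists_ctx (T : Sylow 2 (Perm α)) : ∃ m y B, Ctx T m y B := by
  obtain ⟨m, hm, hc, hf⟩ := exists_matching T.isPGroup'
  obtain ⟨y₀, hy₀⟩ := (exists_with_cycleType_iff (α := α)
    (m := Multiset.replicate (Fintype.card α / 4) 4)).2 ⟨by simp; omega, by
      intro a ha; rw [Multiset.eq_of_mem_replicate ha]; norm_num⟩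
  have h4 : y₀ ^ 4 = 1 := by
    rw [← orderOf_dvd_iff_pow_eq_one, ← lcm_cycleType, hy₀, Multiset.lcm_dvd]
    intro a ha; rw [Multiset.eq_of_mem_replicate ha]
  have hm₀ : y₀ ^ 2 * y₀ ^ 2 = 1 := by rw [← pow_add, h4]
  have hp : IsPGroup 2 (Subgroup.zpowers y₀) := by
    obtain ⟨k, -, hk⟩ := (Nat.dvd_prime_pow Nat.prime_two (m := 2)).1 (orderOf_dvd_of_pow_eq_one h4)
    exact IsPGroup.of_card (by rw [Nat.card_zpowers, hk])
  obtain ⟨T₀, hT₀⟩ := (hp.to_sup_of_normal_right' (EE_pgroup _ hm₀) ((Subgroup.zpowers_le).2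
    (mem_normalizer_EE hm₀ (Commute.self_pow y₀ 2).eq))).exists_le_sylow
  obtain ⟨g, rfl⟩ := MulAction.exists_smul_eq (Perm α) T₀ T
  have hg : ∀ a ∈ T₀, g * a * g⁻¹ ∈ g • T₀ := fun a ha =>
    Subgroup.smul_mem_pointwise_smul a (MulAut.conj g) _ ha
  have hy : g * y₀ * g⁻¹ ∈ g • T₀ := hg _ (hT₀ (Subgroup.mem_sup_left (Subgroup.mem_zpowers y₀)))
  have hs : ∀ t, swap t (((g * y₀ * g⁻¹) ^ 2) t) ∈ g • T₀ := fun t => by
    have := hg _ (hT₀ (Subgroup.mem_sup_right (swap_mem_EE hm₀ (g⁻¹ t))))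
    rw [← swap_apply_apply] at this
    rw [conj_pow]
    simpa using this
  have hct : (g * y₀ * g⁻¹).cycleType = Multiset.replicate (Fintype.card α / 4) 4 := by
    rw [cycleType_conj, hy₀]
  obtain ⟨y, hye⟩ : ∃ y, y = g * y₀ * g⁻¹ := ⟨_, rfl⟩
  rw [← hye] at hy hs hct
  obtain ⟨T, hT⟩ : ∃ T, T = g • T₀ := ⟨_, rfl⟩
  rw [← hT] at hy hs hc ⊢
  have hord : ∀ t ∈ y.support, ∀ j : ℕ, (y ^ j) t = t → 4 ∣ j := fun t ht j hj => by
    have h1 := isCycle_cycleOf y (mem_support.1 ht)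
    have h2 : (y.cycleOf t).support.card = 4 := by
      apply Multiset.eq_of_mem_replicate (n := Fintype.card α / 4)
      rw [← hct, cycleType_def]
      exact Multiset.mem_map_of_mem _ (cycleOf_mem_cycleFactorsFinset_iff.2 ht)
    rw [← h2, ← h1.orderOf, orderOf_dvd_iff_pow_eq_one,
      h1.pow_eq_one_iff' (x := t) (by simpa using ht), cycleOf_pow_apply_self, hj]
  have hcm : ∀ g ∈ T, ∀ t, g (m t) = m (g t) := fun g hg t =>
    congrFun (congrArg DFunLike.coe (hc g hg)) t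
  have hne : ∀ t ∈ y.support, m t ≠ t := fun t ht e =>
    mem_support.1 ht (hf _ _ (by rw [← hcm y hy, e]) e)
  have hE : EE m hm ≤ T := by
    have := T.is_maximal' (T.isPGroup'.to_sup_of_normal_right' (EE_pgroup m hm)
      fun g hg => mem_normalizer_EE hm (hc g hg)) le_sup_left
    exact le_sup_right.trans this.le
  have hcard : y.support.card = 4 * (Fintype.card α / 4) := by
    rw [← sum_cycleType, hct]; simp [mul_comm]
  refine ⟨m, y, y.support, fun t => congrFun (congrArg DFunLike.coe hm) t, hcm, hf,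
    fun t => hE (swap_mem_EE hm t), hy, fun t ht => ?_, hne, ?_, hcard⟩
  · have := swap_eq T.isPGroup' (hs t) (hE (swap_mem_EE hm t))
      (fun e => absurd (hord t ht 2 e) (by decide)) (hne t ht)
    rwa [sq] at this
  · obtain ⟨C, hC⟩ := T.isPGroup'.nonempty_fixed_point_of_prime_not_dvd_card
      (Set.powersetCard α (Fintype.card α % 4)) (by
        rw [Set.powersetCard.card, Nat.card_eq_fintype_card]
        generalize Fintype.card α = n
        have h1 := Choose.choose_modEq_choose_mod_mul_choose_div_nat (n := n) (k := n % 4) (p := 2)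
        have h2 := Choose.choose_modEq_choose_mod_mul_choose_div_nat (n := n / 2) (k := n % 4 / 2)
          (p := 2)
        rw [show n % 4 % 2 = n % 2 by omega, Nat.choose_self, one_mul] at h1
        rw [show n % 4 / 2 % 2 = n / 2 % 2 by omega, Nat.choose_self, one_mul,
          show n % 4 / 2 / 2 = 0 by omega, Nat.choose_zero_right] at h2
        have := h1.trans h2
        unfold Nat.ModEq at this
        omega)
    have hC' : ∀ g ∈ T, ∀ t ∈ C.1, g t ∈ C.1 := fun g hg t ht => by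
      have : (⟨g, hg⟩ : T.1) • C.1 = C.1 := congrArg Subtype.val (hC ⟨g, hg⟩)
      rw [← this]
      exact Finset.smul_mem_smul_finset ht
    have hCc : C.1.card = Fintype.card α % 4 := C.2
    have hsub : C.1 ⊆ y.supportᶜ := fun t ht => by
      rw [Finset.mem_compl]
      intro ht'
      have h1 : Function.Injective fun j : Fin 4 => (⟨(y ^ (j : ℕ)) t, hC' _ (T.1.pow_mem hy j) t ht⟩ : C.1) := by
        intro i j e
        have e' : (y ^ (i : ℕ)) t = (y ^ (j : ℕ)) t := congrArg Subtype.val e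
        wlog hij : (i : ℕ) ≤ j generalizing i j
        · exact (this e.symm e'.symm (by omega)).symm
        obtain ⟨d, hd⟩ := Nat.exists_eq_add_of_le hij
        rw [hd, pow_add, Perm.mul_apply] at e'
        have := hord t ht' d ((y ^ (i : ℕ)).injective e').symm
        omega
      have := Fintype.card_le_of_injective _ h1
      simp only [Fintype.card_fin, Fintype.card_coe] at this
      omega
    have hCe : C.1 = y.supportᶜ := Finset.eq_of_subset_of_card_le hsub (by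
      rw [Finset.card_compl]; omega)
    intro g hg t
    rw [← not_iff_not, ← Finset.mem_compl, ← Finset.mem_compl, ← hCe]
    exact ⟨fun h => by simpa using hC' _ (T.1.inv_mem hg) _ h, hC' g hg t⟩

namespace Ctx

variable {T : Sylow 2 (Perm α)} {m y : Perm α} {B : Finset α} (c : Ctx T m y B)
include c

theorem card_compl : Bᶜ.card = Fintype.card α % 4 := by
  rw [Finset.card_compl, c.card]; omega

theorem m_mem (t : α) : m t ∈ B ↔ t ∈ B := by
  have := c.inv _ (c.swp t) t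
  rwa [swap_apply_left] at this

theorem y_ne {t : α} (ht : t ∈ B) : y t ≠ t ∧ y t ≠ m t := by
  have := c.yy t ht
  have := c.ne t ht
  have := c.comm y c.yT t
  have := c.mm t
  grind

theorem out {g : Perm α} (hg : g ∈ T) {t : α} (ht : t ∉ B) : g t = t ∨ g t = m t := by
  by_contra! h
  have h1 := c.mm t
  have h2 := c.mm (g t)
  have h3 : m t ≠ t := fun e => h.1 (c.fix _ _ (by rw [← c.comm g hg, e]) e)
  have h4 : m (g t) ≠ g t := by rw [← c.comm g hg]; exact fun e => h3 (g.injective e)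
  have : ({t, m t, g t, m (g t)} : Finset α) ⊆ Bᶜ := by
    intro u
    simp only [Finset.mem_insert, Finset.mem_singleton, Finset.mem_compl]
    rintro (rfl | rfl | rfl | rfl) <;> simp [c.m_mem, c.inv g hg, ht]
  have := Finset.card_le_card this
  rw [c.card_compl, Finset.card_insert_of_notMem (by grind), Finset.card_insert_of_notMem (by grind),
    Finset.card_pair (by grind)] at this
  omega

theorem eq_one {g : Perm α} (hg : g ∈ T) (hs : sign g = 1) (h : ∀ t ∈ B, g t = t) : g = 1 := by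
  by_contra hne
  have h1 : g.support ⊆ Bᶜ := fun t ht => Finset.mem_compl.2 fun h' => mem_support.1 ht (h t h')
  have h2 := Finset.card_le_card h1
  have h3 := two_le_card_support_of_ne_one hne
  rw [c.card_compl] at h2
  rcases (show g.support.card = 2 ∨ g.support.card = 3 by omega) with e | e
  · rw [(card_support_eq_two.1 e).sign_eq] at hs
    exact absurd hs (by decide)
  · obtain ⟨k, hk⟩ := T.isPGroup' ⟨g, hg⟩
    have h3 := orderOf_dvd_of_pow_eq_one (congrArg Subtype.val hk)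
    rw [(card_support_eq_three_iff.1 e).orderOf] at h3
    exact absurd (Nat.prime_three.dvd_of_dvd_pow h3) (by decide)

theorem sign_ee {i k : α} (hi : m i ≠ i) (hk : m k ≠ k) : sign (swap i (m i) * swap k (m k)) = 1 := by
  rw [map_mul, sign_swap hi.symm, sign_swap hk.symm]; simp

theorem exists_even {g : Perm α} (hg : g ∈ T) {k : α} (hk : m k ≠ k) :
    ∃ g' ∈ T, sign g' = 1 ∧ ∀ t, t ≠ k → t ≠ m k → g' t = g t := by
  rcases Int.units_eq_one_or (sign g) with h | h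
  · exact ⟨g, hg, h, fun _ _ _ => rfl⟩
  · refine ⟨g * swap k (m k), T.1.mul_mem hg (c.swp k), ?_, fun t h1 h2 => ?_⟩
    · rw [map_mul, h, sign_swap hk.symm]; simp
    · rw [Perm.mul_apply, swap_apply_of_ne_of_ne h1 h2]

theorem central {i j k : α} (hi : m i ≠ i) (hj : m j ≠ j) (hk : m k ≠ k)
    (hn : [i, m i, j, m j, k, m k].Nodup)
    (htr : ∀ a ∈ B, ∀ b ∈ B, ∃ g ∈ T, g a = b) {z : Perm α} (hz : z ∈ T) (hs : sign z = 1)
    (hc : ∀ g ∈ T, sign g = 1 → g * z = z * g) (h1 : z ≠ 1) : ∀ t ∈ B, z t = m t := by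
  have h2 : ∀ t u, m t ≠ t → m u ≠ u → u ≠ t → u ≠ m t →
      z t = t ∨ z t = m t ∨ z t = u ∨ z t = m u := fun t u ht hu h3 h4 => by
    have := congrFun (congrArg DFunLike.coe
      (hc _ (T.1.mul_mem (c.swp t) (c.swp u)) (c.sign_ee ht hu))) t
    have h5 := c.mm t
    have h6 := c.mm u
    have h7 := c.comm z hz t
    have h8 := c.mm (z t)
    simp only [Perm.mul_apply, swap_apply_def] at this
    have h9 : m (z t) ≠ z t := by rw [← h7]; exact fun e => ht (z.injective e)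
    grind
  have h3 : ∀ t, m t ≠ t → z t = t ∨ z t = m t := fun t ht => by
    have := h2 t i ht hi
    have := h2 t j ht hj
    have := h2 t k ht hk
    have := c.mm t
    have := c.mm i
    have := c.mm j
    have := c.mm k
    simp only [List.nodup_cons, List.mem_cons, List.not_mem_nil, not_or] at hn
    grind +splitImp
  obtain ⟨a, ha, ha'⟩ : ∃ a ∈ B, z a ≠ a := by
    by_contra! h
    exact h1 (c.eq_one hz hs h)
  intro t ht
  obtain ⟨g, hg, rfl⟩ := htr a ha t ht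
  obtain ⟨u, hu, hu1, hu2⟩ : ∃ u, m u ≠ u ∧ a ≠ u ∧ a ≠ m u := by
    simp only [List.nodup_cons, List.mem_cons, List.not_mem_nil, not_or] at hn
    by_cases h : a ≠ i ∧ a ≠ m i
    · exact ⟨i, hi, h⟩
    · exact ⟨j, hj, by grind⟩
  obtain ⟨g', hg', hs', he⟩ := c.exists_even hg hu
  rw [← he a hu1 hu2, ← Perm.mul_apply, ← hc g' hg' hs', Perm.mul_apply,
    (h3 a (c.ne a ha)).resolve_left ha', c.comm g' hg']

end Ctx

/-- a direct decomposition of the even part -/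
structure Dec (T : Sylow 2 (Perm α)) (S₁ S₂ : Subgroup (Perm α)) : Prop where
  l₁ : ∀ s ∈ S₁, s ∈ T ∧ sign s = 1
  l₂ : ∀ s ∈ S₂, s ∈ T ∧ sign s = 1
  comm : ∀ a ∈ S₁, ∀ b ∈ S₂, a * b = b * a
  disj : ∀ a ∈ S₁, a ∈ S₂ → a = 1
  gen : ∀ g ∈ T, sign g = 1 → ∃ a ∈ S₁, ∃ b ∈ S₂, g = a * b

theorem Dec.symm {T : Sylow 2 (Perm α)} {S₁ S₂ : Subgroup (Perm α)} (d : Dec T S₁ S₂) :
    Dec T S₂ S₁ :=
  ⟨d.l₂, d.l₁, fun a ha b hb => (d.comm b hb a ha).symm, fun a ha hb => d.disj a hb ha,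
    fun g hg hs => let ⟨a, ha, b, hb, e⟩ := d.gen g hg hs; ⟨b, hb, a, ha, e.trans (d.comm a ha b hb)⟩⟩

theorem Dec.exists_central {T : Sylow 2 (Perm α)} {S₁ S₂ : Subgroup (Perm α)} (d : Dec T S₁ S₂)
    (h : S₁ ≠ ⊥) : ∃ z ∈ S₁, z ≠ 1 ∧ ∀ g ∈ T, sign g = 1 → g * z = z * g := by
  have hp : IsPGroup 2 S₁ := T.isPGroup'.to_le fun s hs => (d.l₁ s hs).1
  have := (Subgroup.nontrivial_iff_ne_bot S₁).2 h
  have := hp.center_nontrivial
  obtain ⟨⟨z, hz⟩, hz1⟩ := exists_ne (1 : Subgroup.center S₁)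
  refine ⟨z, z.2, fun e => hz1 (Subtype.ext (Subtype.ext e)), fun g hg hs => ?_⟩
  obtain ⟨a, ha, b, hb, rfl⟩ := d.gen g hg hs
  have : a * z = z * a := congrArg Subtype.val (Subgroup.mem_center_iff.1 hz ⟨a, ha⟩)
  rw [mul_assoc, ← d.comm z z.2 b hb, ← mul_assoc, this, mul_assoc]

namespace Ctx

variable {T : Sylow 2 (Perm α)} {m y : Perm α} {B : Finset α} (c : Ctx T m y B)
  {S₁ S₂ : Subgroup (Perm α)} (d : Dec T S₁ S₂)
include c d

theorem not_dec_trans (hn : 6 ≤ Fintype.card α) (htr : ∀ a ∈ B, ∀ b ∈ B, ∃ g ∈ T, g a = b)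
    (h₁ : S₁ ≠ ⊥) (h₂ : S₂ ≠ ⊥) : False := by
  obtain ⟨i, hi⟩ : B.Nonempty := by rw [← Finset.card_pos, c.card]; omega
  have hj := (c.inv y c.yT i).2 hi
  obtain ⟨k, hk, hk'⟩ : ∃ k, m k ≠ k ∧ k ∉ ({i, m i, y i, m (y i)} : Finset α) := by
    obtain ⟨a, ha, b, hb, hab⟩ := Finset.one_lt_card.1
      (show 1 < ({i, m i, y i, m (y i)} : Finset α)ᶜ.card by
        rw [Finset.card_compl]
        have := Finset.card_le_four (a := i) (b := m i) (c := y i) (d := m (y i))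
        omega)
    rw [Finset.mem_compl] at ha hb
    by_cases h : m a = a
    · exact ⟨b, fun e => hab (c.fix _ _ h e), hb⟩
    · exact ⟨a, h, ha⟩
  have hn : [i, m i, y i, m (y i), k, m k].Nodup := by
    have := c.ne i hi
    have := c.ne _ hj
    have := c.y_ne hi
    have := c.mm i
    have := c.mm (y i)
    have := c.mm k
    simp only [List.nodup_cons, List.mem_cons, List.not_mem_nil, not_or, List.nodup_nil]
    grind
  obtain ⟨z₁, m₁, n₁, c₁⟩ := d.exists_central h₁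
  obtain ⟨z₂, m₂, n₂, c₂⟩ := d.symm.exists_central h₂
  have e₁ := c.central (c.ne i hi) (c.ne _ hj) hk hn htr (d.l₁ _ m₁).1 (d.l₁ _ m₁).2 c₁ n₁
  have e₂ := c.central (c.ne i hi) (c.ne _ hj) hk hn htr (d.l₂ _ m₂).1 (d.l₂ _ m₂).2 c₂ n₂
  have := c.eq_one (T.1.mul_mem (T.1.inv_mem (d.l₂ _ m₂).1) (d.l₁ _ m₁).1)
    (by rw [map_mul, map_inv, (d.l₁ _ m₁).2, (d.l₂ _ m₂).2]; simp) fun t ht => by
      rw [Perm.mul_apply, e₁ t ht, ← e₂ t ht]; simp
  rw [inv_mul_eq_one] at this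
  exact n₁ (d.disj _ m₁ (this ▸ m₂))

theorem step1' {i k : α} (hk' : ∀ g ∈ T, g i ≠ k) {s₁ s₂ : Perm α} (h₁ : s₁ ∈ S₁) (h₂ : s₂ ∈ S₂)
    (he : swap i (m i) * swap k (m k) = s₁ * s₂) (hi : m i ≠ i) (hs : s₂ i = i) {a b : Perm α}
    (ha : a ∈ S₁) (hb : b ∈ S₂) (ha' : a i ≠ i ∧ a i ≠ m i) (hb' : b i ≠ i ∧ b i ≠ m i) : False := by
  have hv : ∀ g ∈ T, g i ≠ i → g i ≠ m i → s₁ (s₂ (g i)) = g i := fun g hg e1 e2 => by
    have h3 := hk' g hg
    have h4 : g i ≠ m k := fun e => hk' _ (T.1.mul_mem (c.swp k) hg) (by simp [e])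
    rw [← Perm.mul_apply, ← he, Perm.mul_apply, swap_apply_of_ne_of_ne h3 h4,
      swap_apply_of_ne_of_ne e1 e2]
  have h5 : s₁ i = m i := by
    have h3 : i ≠ k := hk' 1 T.1.one_mem
    have h4 : i ≠ m k := fun e => hk' _ (c.swp k) (by rw [e]; simp)
    rw [← hs, ← Perm.mul_apply, ← he, Perm.mul_apply, swap_apply_of_ne_of_ne h3 h4, hs]; simp
  have cm : ∀ a ∈ S₁, ∀ b ∈ S₂, ∀ t, a (b t) = b (a t) := fun a ha b hb t =>
    congrFun (congrArg DFunLike.coe (d.comm a ha b hb)) t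
  have haT := (d.l₁ a ha).1
  have hbT := (d.l₂ b hb).1
  have e1 : s₁ (a i) = a i := by
    have := hv a haT ha'.1 ha'.2
    rwa [← cm a ha s₂ h₂, hs] at this
  have e2 : s₂ (b i) = m (b i) := by
    apply s₁.injective
    rw [hv b hbT hb'.1 hb'.2, c.comm s₁ (d.l₁ _ h₁).1, cm s₁ h₁ b hb, h5, c.comm b hbT, c.mm]
  have e3 : s₂ (a (b i)) = m (a (b i)) := by rw [← cm a ha s₂ h₂, e2, c.comm a haT]
  have e4 : s₁ (a (b i)) = a (b i) := by rw [cm a ha b hb, cm s₁ h₁ b hb, e1]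
  have e5 : m (a (b i)) ≠ a (b i) := by
    rw [← c.comm a haT, ← c.comm b hbT]
    exact fun e => hi (b.injective (a.injective e))
  have e6 := hv (a * b) (T.1.mul_mem haT hbT)
  have e7 := c.comm s₂ (d.l₂ _ h₂).1 i
  have e8 := c.comm s₁ (d.l₁ _ h₁).1 (a (b i))
  have := c.mm i
  simp only [Perm.mul_apply] at e6
  grind +splitImp

theorem step1 {i k : α} (hi : m i ≠ i) (hk : m k ≠ k) (hk' : ∀ g ∈ T, g i ≠ k) :
    (∀ a ∈ S₁, a i = i ∨ a i = m i) ∨ ∀ b ∈ S₂, b i = i ∨ b i = m i := by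
  by_contra! h
  obtain ⟨⟨a, ha, ha'⟩, b, hb, hb'⟩ := h
  obtain ⟨s₁, h₁, s₂, h₂, he⟩ := d.gen _ (T.1.mul_mem (c.swp i) (c.swp k)) (c.sign_ee hi hk)
  have h3 : i ≠ k := hk' 1 T.1.one_mem
  have h4 : i ≠ m k := fun e => hk' _ (c.swp k) (by rw [e]; simp)
  have h5 : s₁ (s₂ i) = m i := by
    rw [← Perm.mul_apply, ← he, Perm.mul_apply, swap_apply_of_ne_of_ne h3 h4]; simp
  have h6 : s₂ i = i ∨ s₂ i = m i := by
    by_contra! h
    have hT := (d.l₂ _ h₂).1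
    have e1 : s₁ (s₂ (s₂ i)) = s₂ i := by
      rw [← Perm.mul_apply, ← he, Perm.mul_apply, swap_apply_of_ne_of_ne (hk' _ hT)
        (fun e => hk' _ (T.1.mul_mem (c.swp k) hT) (by simp [e])), swap_apply_of_ne_of_ne h.1 h.2]
    rw [← Perm.mul_apply, d.comm s₁ h₁ s₂ h₂, Perm.mul_apply, h5] at e1
    exact hi (s₂.injective e1)
  rcases h6 with h6 | h6
  · exact c.step1' d hk' h₁ h₂ he hi h6 ha hb ha' hb'
  · refine c.step1' d.symm hk' h₂ h₁ (he.trans (d.comm _ h₁ _ h₂)) hi ?_ hb ha hb' ha'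
    rw [h6, c.comm _ (d.l₁ _ h₁).1] at h5
    exact m.injective h5

theorem conj_mem {a g : Perm α} (ha : a ∈ S₁) (hg : g ∈ T) (hs : sign g = 1) : g⁻¹ * a * g ∈ S₁ := by
  obtain ⟨u, hu, v, hv, rfl⟩ := d.gen g hg hs
  have : (u * v)⁻¹ * a * (u * v) = u⁻¹ * a * u := by
    rw [mul_inv_rev, mul_assoc v⁻¹, mul_assoc v⁻¹, ← mul_assoc _ u v,
      d.comm _ (S₁.mul_mem (S₁.mul_mem (S₁.inv_mem hu) ha) hu) v hv, inv_mul_cancel_left]
  rw [this]
  exact S₁.mul_mem (S₁.mul_mem (S₁.inv_mem hu) ha) hu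

theorem stab_inv {i : α} (hi : i ∈ B) (h : ∀ a ∈ S₁, a i = i ∨ a i = m i) {g : Perm α} (hg : g ∈ T) :
    ∀ a ∈ S₁, a (g i) = g i ∨ a (g i) = m (g i) := by
  intro a ha
  have hy := c.y_ne hi
  obtain ⟨g', hg', hs, he⟩ := c.exists_even hg (c.ne _ ((c.inv y c.yT i).2 hi))
  have e : g' i = g i := he i hy.1.symm fun e => hy.2 (by rw [← c.mm (y i), ← e])
  rw [← e, ← c.comm g' hg']
  refine (h _ (c.conj_mem d ha hg' hs)).imp (fun e' => ?_) fun e' => ?_ <;>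
    rwa [Perm.mul_apply, Perm.mul_apply, Perm.inv_eq_iff_eq] at e'

theorem not_both {i : α} (hi : i ∈ B) (h₁ : ∀ a ∈ S₁, a i = i ∨ a i = m i)
    (h₂ : ∀ a ∈ S₂, a i = i ∨ a i = m i) : False := by
  have hy := c.y_ne hi
  obtain ⟨g', hg', hs, he⟩ := c.exists_even c.yT (c.ne _ ((c.inv y c.yT i).2 hi))
  have e : g' i = y i := he i hy.1.symm fun e => hy.2 (by rw [← c.mm (y i), ← e])
  obtain ⟨a, ha, b, hb, rfl⟩ := d.gen g' hg' hs
  have := h₁ a ha
  have := h₂ b hb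
  have := c.comm a (d.l₁ a ha).1 i
  have := c.mm i
  rw [Perm.mul_apply] at e
  grind

theorem flip_inv {i : α} (hi : i ∈ B) (h₂ : ∀ a ∈ S₂, a i = i ∨ a i = m i) {s : Perm α}
    (hs : s ∈ S₂) {g : Perm α} (hg : g ∈ T) : s (g i) = g i ↔ s i = i := by
  have hy := c.y_ne hi
  obtain ⟨g', hg', hs', he⟩ := c.exists_even hg (c.ne _ ((c.inv y c.yT i).2 hi))
  have e : g' i = g i := he i hy.1.symm fun e => hy.2 (by rw [← c.mm (y i), ← e])
  obtain ⟨a, ha, b, hb, rfl⟩ := d.gen g' hg' hs'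
  rw [← e, Perm.mul_apply, ← Perm.mul_apply s a, ← d.comm a ha s hs, Perm.mul_apply,
    a.apply_eq_iff_eq]
  rcases h₂ b hb with h | h <;> rw [h]
  rw [c.comm s (d.l₂ s hs).1, m.apply_eq_iff_eq]

omit d in
theorem exists_sqrt (U : Set α) (hU : ∀ g ∈ T, ∀ t, g t ∈ U ↔ t ∈ U) (hUB : ∀ t ∈ U, t ∈ B) :
    ∃ w ∈ T, (∀ t ∈ U, w (w t) = m t) ∧ ∀ t ∉ U, w t = t := by
  obtain ⟨w, hw, h1, h2⟩ := exists_res T U hU c.yT
  refine ⟨w, hw, fun t ht => ?_, h2⟩
  rw [h1 t ht, h1 _ ((hU y c.yT t).2 ht), c.yy t (hUB t ht)]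

theorem one_side (hB : ∀ t ∉ B, m t = t) {i₀ k₀ : α} (hi : i₀ ∈ B) (hk : k₀ ∈ B)
    (hik : ∀ g ∈ T, g i₀ ≠ k₀) (h : ∀ i ∈ B, ∀ a ∈ S₂, a i = i ∨ a i = m i) : S₂ = ⊥ := by
  have hall : ∀ a ∈ S₂, ∀ t, a t = t ∨ a t = m t := fun a ha t => by
    by_cases ht : t ∈ B
    · exact h t ht a ha
    · exact c.out (d.l₂ a ha).1 ht
  have hsq : ∀ a ∈ S₂, a * a = 1 := fun a ha => Equiv.ext fun t => by
    rw [Perm.mul_apply]
    rcases hall a ha t with e | e
    · rw [e, e]; rfl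
    · rw [e, c.comm a (d.l₂ a ha).1, e, c.mm]; rfl
  have key : ∀ (U : Set α) (k : α), (∀ g ∈ T, ∀ t, g t ∈ U ↔ t ∈ U) → (∀ t ∈ U, t ∈ B) → k ∈ B →
      k ∉ U → ∃ z ∈ S₁, (∀ t ∈ U, z t = m t) ∧ ∀ t ∉ U, z t = t := by
    intro U k hU hUB hk hkU
    obtain ⟨w, hw, h1, h2⟩ := c.exists_sqrt U hU hUB
    have hmk : m k ∉ U := fun e => hkU (by simpa using (hU _ (c.swp k) (m k)).2 e)
    obtain ⟨w', hw', hs, h3⟩ : ∃ w' ∈ T, sign w' = 1 ∧ w' * w' = w * w := by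
      rcases Int.units_eq_one_or (sign w) with e | e
      · exact ⟨w, hw, e, rfl⟩
      · refine ⟨w * swap k (m k), T.1.mul_mem hw (c.swp k), ?_, ?_⟩
        · rw [map_mul, e, sign_swap (c.ne k hk).symm]; simp
        · rw [mul_assoc, ← mul_assoc (swap _ _), show swap k (m k) * w = w * swap k (m k) by
            rw [mul_swap_eq_swap_mul, h2 k hkU, h2 _ hmk], mul_assoc, swap_mul_self, mul_one]
    obtain ⟨a, ha, b, hb, rfl⟩ := d.gen w' hw' hs
    have : a * a = w * w := by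
      rw [← h3, mul_assoc, ← mul_assoc b, ← d.comm a ha b hb, mul_assoc, hsq b hb, mul_one]
    refine ⟨a * a, S₁.mul_mem ha ha, fun t ht => ?_, fun t ht => ?_⟩
    · rw [this, Perm.mul_apply, h1 t ht]
    · rw [this, Perm.mul_apply, h2 t ht, h2 t ht]
  rw [eq_bot_iff]
  intro s hs
  have hF : ∀ g ∈ T, ∀ t, s (g t) = g t ↔ s t = t := fun g hg t => by
    by_cases ht : t ∈ B
    · exact c.flip_inv d ht (h t ht) hs hg
    · have e : ∀ u ∉ B, s u = u := fun u hu => (hall s hs u).elim id fun e => e.trans (hB u hu)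
      exact iff_of_true (e _ (mt (c.inv g hg t).1 ht)) (e t ht)
  have hO : ∀ g ∈ T, ∀ t, (∃ u ∈ T, u i₀ = g t) ↔ ∃ u ∈ T, u i₀ = t := fun g hg t =>
    ⟨fun ⟨u, hu, e⟩ => ⟨g⁻¹ * u, T.1.mul_mem (T.1.inv_mem hg) hu, by simp [e]⟩,
      fun ⟨u, hu, e⟩ => ⟨g * u, T.1.mul_mem hg hu, by simp [e]⟩⟩
  have hFB : ∀ t, s t ≠ t → t ∈ B := fun t ht => by
    by_contra h'
    exact ht ((hall s hs t).elim id fun e => e.trans (hB t h'))
  obtain ⟨z₁, m₁, p₁, q₁⟩ := key {t | s t ≠ t ∧ ∃ u ∈ T, u i₀ = t} k₀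
    (fun g hg t => by simp only [Set.mem_ofPred_eq, Ne, hF g hg, hO g hg]) (fun t ht => hFB t ht.1) hk
    (fun ⟨_, u, hu, e⟩ => hik u hu e)
  obtain ⟨z₂, m₂, p₂, q₂⟩ := key {t | s t ≠ t ∧ ¬ ∃ u ∈ T, u i₀ = t} i₀
    (fun g hg t => by simp only [Set.mem_ofPred_eq, Ne, hF g hg, hO g hg]) (fun t ht => hFB t ht.1) hi
    (fun h => h.2 ⟨1, T.1.one_mem, rfl⟩)
  have : s = z₁ * z₂ := Equiv.ext fun t => by
    rw [Perm.mul_apply]
    by_cases h1 : s t = t
    · rw [q₂ t fun h => h.1 h1, q₁ t fun h => h.1 h1, h1]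
    · rw [(hall s hs t).resolve_left h1]
      by_cases h2 : ∃ u ∈ T, u i₀ = t
      · rw [q₂ t fun h => h.2 h2, p₁ t ⟨h1, h2⟩]
      · rw [p₂ t ⟨h1, h2⟩, q₁]
        intro h
        have := (hO _ (c.swp t) t).1 (by simpa using h.2)
        exact h2 this
  exact d.disj s (this ▸ S₁.mul_mem m₁ m₂) hs

theorem not_dec_intrans (hB : ∀ t ∉ B, m t = t) {i₀ k₀ : α} (hi : i₀ ∈ B) (hk : k₀ ∈ B)
    (hik : ∀ g ∈ T, g i₀ ≠ k₀) (h₁ : S₁ ≠ ⊥) (h₂ : S₂ ≠ ⊥) : False := by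
  have s1 : ∀ i ∈ B, (∀ a ∈ S₁, a i = i ∨ a i = m i) ∨ ∀ b ∈ S₂, b i = i ∨ b i = m i := by
    intro i hi'
    by_cases h : ∀ g ∈ T, g i ≠ k₀
    · exact c.step1 d (c.ne i hi') (c.ne _ hk) h
    · push Not at h
      obtain ⟨g, hg, e⟩ := h
      exact c.step1 d (c.ne i hi') (c.ne _ hi) fun u hu e' =>
        hik (g * u⁻¹) (T.1.mul_mem hg (T.1.inv_mem hu)) (by rw [← e', ← e]; simp)
  obtain ⟨i, hiB, hi2⟩ : ∃ i ∈ B, ∀ b ∈ S₂, b i = i ∨ b i = m i := by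
    by_contra h
    exact h₁ (c.one_side d.symm hB hi hk hik fun i hi' =>
      (s1 i hi').resolve_right fun h' => h ⟨i, hi', h'⟩)
  obtain ⟨k, hkB, hk1⟩ : ∃ i ∈ B, ∀ b ∈ S₁, b i = i ∨ b i = m i := by
    by_contra h
    exact h₂ (c.one_side d hB hi hk hik fun i hi' =>
      (s1 i hi').resolve_left fun h' => h ⟨i, hi', h'⟩)
  obtain ⟨s₁, m₁, s₂, m₂, he⟩ := d.gen _ (T.1.mul_mem (c.swp i) (c.swp k))
    (c.sign_ee (c.ne i hiB) (c.ne k hkB))
  have hk2 : ¬ ∀ b ∈ S₂, b k = k ∨ b k = m k := c.not_both d hkB hk1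
  let U : Set α := {t | t ∈ B ∧ ((∀ b ∈ S₂, b t = t ∨ b t = m t) ∧ s₂ t ≠ t ∨
    (∀ b ∈ S₁, b t = t ∨ b t = m t) ∧ s₁ t ≠ t)}
  have hU0 : ∀ g ∈ T, ∀ t ∈ U, g t ∈ U := by
    rintro g hg t ⟨ht, ⟨h, h'⟩ | ⟨h, h'⟩⟩
    · exact ⟨(c.inv g hg t).2 ht, Or.inl ⟨c.stab_inv d.symm ht h hg,
        mt (c.flip_inv d ht h m₂ hg).1 h'⟩⟩
    · exact ⟨(c.inv g hg t).2 ht, Or.inr ⟨c.stab_inv d ht h hg,
        mt (c.flip_inv d.symm ht h m₁ hg).1 h'⟩⟩
  obtain ⟨w, hw, p, q⟩ := c.exists_sqrt U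
    (fun g hg t => ⟨fun h => by simpa using hU0 _ (T.1.inv_mem hg) _ h, hU0 g hg t⟩) fun t ht => ht.1
  have hs : swap i (m i) * s₁ = w * w := Equiv.ext fun t => by
    simp only [Perm.mul_apply]
    by_cases ht : t ∈ B
    · rcases s1 t ht with h | h
      · have h' := c.not_both d ht h
        have h3 : ∀ u, u = t ∨ u = m t → swap i (m i) u = u := by
          have e1 : t ≠ i := fun e => h' (e ▸ hi2)
          have e2 : t ≠ m i := fun e => h' (by
            have := c.stab_inv d.symm hiB hi2 (c.swp i)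
            rwa [swap_apply_left, ← e] at this)
          rintro u (rfl | rfl)
          · exact swap_apply_of_ne_of_ne e1 e2
          · exact swap_apply_of_ne_of_ne (fun e => e2 (by rw [← e, c.mm]))
              (fun e => e1 (m.injective e))
        rw [h3 _ (h s₁ m₁)]
        by_cases h4 : s₁ t = t
        · have : t ∉ U := fun hU => hU.2.elim (fun e => h' e.1) fun e => e.2 h4
          rw [q t this, q t this, h4]
        · rw [p t ⟨ht, Or.inr ⟨h, h4⟩⟩, (h s₁ m₁).resolve_left h4]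
      · have h' := fun h' => c.not_both d ht h' h
        have e1 : t ≠ k := fun e => hk2 (e ▸ h)
        have e2 : t ≠ m k := fun e => h' (by
          have := c.stab_inv d hkB hk1 (c.swp k)
          rwa [swap_apply_left, ← e] at this)
        have e3 : s₁ (s₂ t) = swap i (m i) t := by
          rw [← Perm.mul_apply, ← he, Perm.mul_apply, swap_apply_of_ne_of_ne e1 e2]
        by_cases h4 : s₂ t = t
        · have : t ∉ U := fun hU => hU.2.elim (fun e => e.2 h4) fun e => h' e.1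
          rw [q t this, q t this, ← h4, e3, h4, swap_apply_self]
        · rw [p t ⟨ht, Or.inl ⟨h, h4⟩⟩]
          rw [(h s₂ m₂).resolve_left h4, c.comm _ (d.l₁ _ m₁).1] at e3
          rw [← c.mm (s₁ t), e3, c.comm _ (c.swp i), swap_apply_self]
    · have : t ∉ U := fun hU => ht hU.1
      rw [q t this, q t this, (c.out (d.l₁ _ m₁).1 ht).elim id fun e => e.trans (hB t ht)]
      exact swap_apply_of_ne_of_ne (fun e => ht (e ▸ hiB)) fun e => ht (e ▸ (c.m_mem i).2 hiB)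
  have := congrArg sign hs
  rw [map_mul, map_mul, sign_swap (c.ne i hiB).symm, (d.l₁ _ m₁).2, Int.units_mul_self] at this
  exact absurd this (by decide)

omit d in
theorem exists_dec {a : α} (ha : a ∉ B) (ha' : m a ≠ a) {i₀ k₀ : α} (hi : i₀ ∈ B) (hk : k₀ ∈ B)
    (hik : ∀ g ∈ T, g i₀ ≠ k₀) : ∃ S₁ S₂, S₁ ≠ ⊥ ∧ S₂ ≠ ⊥ ∧ Dec T S₁ S₂ := by
  let U : Set α := {t | ∃ u ∈ T, u i₀ = t}
  have hO : ∀ g ∈ T, ∀ t, g t ∈ U ↔ t ∈ U := fun g hg t =>
    ⟨fun ⟨u, hu, e⟩ => ⟨g⁻¹ * u, T.1.mul_mem (T.1.inv_mem hg) hu, by simp [e]⟩,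
      fun ⟨u, hu, e⟩ => ⟨g * u, T.1.mul_mem hg hu, by simp [e]⟩⟩
  have hUB : ∀ t ∈ U, t ∈ B := by rintro _ ⟨u, hu, rfl⟩; exact (c.inv u hu _).2 hi
  have hmU : ∀ t, m t ∈ U ↔ t ∈ U := fun t => by simpa using hO _ (c.swp t) t
  let S : Set α → Subgroup (Perm α) := fun V =>
    { carrier := {g | (g ∈ T ∧ sign g = 1) ∧ ∀ t ∈ V, g t = t}
      one_mem' := ⟨⟨T.1.one_mem, map_one _⟩, fun _ _ => rfl⟩
      mul_mem' := fun {g h} hg hh => ⟨⟨T.1.mul_mem hg.1.1 hh.1.1, by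
        rw [map_mul, hg.1.2, hh.1.2, mul_one]⟩, fun t ht => by
          rw [Perm.mul_apply, hh.2 t ht, hg.2 t ht]⟩
      inv_mem' := fun {g} hg => ⟨⟨T.1.inv_mem hg.1.1, by rw [map_inv, hg.1.2, inv_one]⟩,
        fun t ht => by rw [Perm.inv_eq_iff_eq, hg.2 t ht]⟩ }
  have hma : m a ∉ B := mt (c.m_mem a).1 ha
  have hne : ∀ (V : Set α) (i : α), i ∈ B → (∀ t ∈ V, t ∈ B ∧ t ≠ i ∧ t ≠ m i) → S V ≠ ⊥ := by
    intro V i hi hV e
    have : swap i (m i) * swap a (m a) ∈ S V :=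
      ⟨⟨T.1.mul_mem (c.swp i) (c.swp a), c.sign_ee (c.ne i hi) ha'⟩, fun t ht => by
        rw [Perm.mul_apply, swap_apply_of_ne_of_ne (ne_of_mem_of_not_mem (hV t ht).1 ha)
          (ne_of_mem_of_not_mem (hV t ht).1 hma), swap_apply_of_ne_of_ne (hV t ht).2.1 (hV t ht).2.2]⟩
    rw [e, Subgroup.mem_bot] at this
    have := congrFun (congrArg DFunLike.coe this) i
    rw [Perm.mul_apply, swap_apply_of_ne_of_ne (ne_of_mem_of_not_mem hi ha) (ne_of_mem_of_not_mem hi hma),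
      swap_apply_left] at this
    exact c.ne i hi this
  have hi₀ : i₀ ∈ U := ⟨1, T.1.one_mem, rfl⟩
  have hk₀ : k₀ ∉ U := fun ⟨u, hu, e⟩ => hik u hu e
  refine ⟨S {t | t ∈ B ∧ t ∉ U}, S U, hne _ i₀ hi fun t ht => ⟨ht.1, fun e => ht.2 (e ▸ hi₀),
    fun e => ht.2 (e ▸ (hmU _).2 hi₀)⟩, hne _ k₀ hk fun t ht => ⟨hUB t ht, fun e => hk₀ (e ▸ ht),
    fun e => hk₀ ((hmU _).1 (e ▸ ht))⟩, fun s hs => hs.1, fun s hs => hs.1, ?_, ?_, ?_⟩
  · intro g hg h hh
    ext t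
    simp only [Perm.mul_apply]
    by_cases h1 : t ∈ U
    · rw [hh.2 t h1, hh.2 _ ((hO g hg.1.1 t).2 h1)]
    · by_cases h2 : t ∈ B
      · rw [hg.2 t ⟨h2, h1⟩, hg.2 _ ⟨(c.inv h hh.1.1 t).2 h2, mt (hO h hh.1.1 t).1 h1⟩]
      · have := c.out hg.1.1 h2
        have := c.out hh.1.1 h2
        have := c.comm g hg.1.1 t
        have := c.comm h hh.1.1 t
        grind
  · intro g hg hg'
    refine c.eq_one hg.1.1 hg.1.2 fun t ht => ?_
    by_cases h1 : t ∈ U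
    exacts [hg'.2 t h1, hg.2 t ⟨ht, h1⟩]
  · intro g hg hs
    obtain ⟨g₁, h1, h2, h3⟩ := exists_res T U hO hg
    obtain ⟨g₂, h4, h5, h6⟩ := c.exists_even h1 ha'
    have h7 : ∀ t ∈ B, g₂ t = g₁ t := fun t ht =>
      h6 t (fun e => ha (e ▸ ht)) fun e => hma (e ▸ ht)
    refine ⟨g₂, ⟨⟨h4, h5⟩, fun t ht => by rw [h7 t ht.1, h3 t ht.2]⟩, g₂⁻¹ * g,
      ⟨⟨T.1.mul_mem (T.1.inv_mem h4) hg, by rw [map_mul, map_inv, h5, hs]; simp⟩, fun t ht => ?_⟩,
      by simp⟩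
    rw [Perm.mul_apply, Perm.inv_eq_iff_eq, h7 t (hUB t ht), h2 t ht]

omit d in
theorem trans_iff (hn : 4 ≤ Fintype.card α) :
    (∀ a ∈ B, ∀ b ∈ B, ∃ g ∈ T, g a = b) ↔ ∃ r, 4 * (Fintype.card α / 4) = 2 ^ r := by
  constructor
  · intro h
    obtain ⟨i, hi⟩ : B.Nonempty := by rw [← Finset.card_pos, c.card]; omega
    obtain ⟨r, hr⟩ := T.isPGroup'.card_orbit i
    refine ⟨r, ?_⟩
    rw [← hr, ← c.card, ← Nat.card_eq_finsetCard]
    apply Nat.card_congr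
    refine Equiv.subtypeEquivRight fun t => ⟨fun ht => ?_, ?_⟩
    · obtain ⟨g, hg, e⟩ := h i hi t ht
      exact ⟨⟨g, hg⟩, e⟩
    · rintro ⟨g, rfl⟩
      exact (c.inv _ g.2 i).2 hi
  · rintro ⟨r, hr⟩
    obtain ⟨x₀, hx₀⟩ := (exists_with_cycleType_iff (α := α) (m := {2 ^ r})).2
      ⟨by simp; omega, by simp; omega⟩
    have hp : IsPGroup 2 (Subgroup.zpowers x₀) :=
      IsPGroup.of_card (n := r) (by rw [Nat.card_zpowers, ← lcm_cycleType, hx₀]; simp)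
    obtain ⟨T₀, hT₀⟩ := hp.exists_le_sylow
    obtain ⟨g, hg⟩ := MulAction.exists_smul_eq (Perm α) T₀ T
    have hx : g * x₀ * g⁻¹ ∈ T := hg ▸
      Subgroup.smul_mem_pointwise_smul x₀ (MulAut.conj g) _ (hT₀ (Subgroup.mem_zpowers x₀))
    have hct : (g * x₀ * g⁻¹).cycleType = {2 ^ r} := by rw [cycleType_conj, hx₀]
    obtain ⟨x, hxe⟩ : ∃ x, x = g * x₀ * g⁻¹ := ⟨_, rfl⟩
    rw [← hxe] at hx hct
    have hcy : x.IsCycle := card_cycleType_eq_one.1 (by rw [hct]; rfl)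
    have hcard : x.support.card = 2 ^ r := by rw [← sum_cycleType, hct]; simp
    have hsub : x.support ⊆ B := fun t ht => by
      by_contra h
      have e := (c.out hx h).resolve_left (mem_support.1 ht)
      have := (hcy.pow_eq_one_iff' (n := 2) (mem_support.1 ht)).2 (by
        rw [sq, Perm.mul_apply, e, c.comm x hx, e, c.mm])
      have := Nat.le_of_dvd two_pos (orderOf_dvd_of_pow_eq_one this)
      rw [hcy.orderOf] at this
      omega
    have hB := Finset.eq_of_subset_of_card_le hsub (by rw [c.card]; omega)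
    intro a ha b hb
    rw [← hB, mem_support] at ha hb
    obtain ⟨i, hi⟩ := hcy.exists_pow_eq ha hb
    exact ⟨_, T.1.pow_mem hx i, hi⟩

end Ctx

theorem dec_iff (hn : 6 ≤ Fintype.card α) (T : Sylow 2 (Perm α)) :
    (∃ S₁ S₂, S₁ ≠ ⊥ ∧ S₂ ≠ ⊥ ∧ Dec T S₁ S₂) ↔
      ((Fintype.card α % 4 = 2 ∨ Fintype.card α % 4 = 3) ∧
        ∀ r : ℕ, 4 * (Fintype.card α / 4) ≠ 2 ^ r) := by
  obtain ⟨m, y, B, c⟩ := exists_ctx T
  have h := c.trans_iff (by omega)
  constructor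
  · rintro ⟨S₁, S₂, h₁, h₂, d⟩
    have ht : ¬ ∀ a ∈ B, ∀ b ∈ B, ∃ g ∈ T, g a = b := fun h => c.not_dec_trans d hn h h₁ h₂
    refine ⟨?_, fun r hr => ht (h.2 ⟨r, hr⟩)⟩
    push Not at ht
    obtain ⟨a, ha, b, hb, hab⟩ := ht
    by_contra h4
    refine c.not_dec_intrans d (fun t ht => by_contra fun e => ?_) ha hb hab h₁ h₂
    have := Finset.one_lt_card.2 ⟨m t, Finset.mem_compl.2 (mt (c.m_mem t).1 ht), t,
      Finset.mem_compl.2 ht, e⟩
    rw [c.card_compl] at this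
    omega
  · rintro ⟨h1, h2⟩
    have ht := mt h.1 (not_exists.2 h2)
    push Not at ht
    obtain ⟨a, ha, b, hb, hab⟩ := ht
    obtain ⟨u, hu, v, hv, huv⟩ := Finset.one_lt_card.1 (show 1 < Bᶜ.card by rw [c.card_compl]; omega)
    rw [Finset.mem_compl] at hu hv
    by_cases h : m u = u
    · exact c.exists_dec hv (fun e => huv (c.fix _ _ h e)) ha hb hab
    · exact c.exists_dec hu h ha hb hab

theorem dec_small (n : ℕ) (hn : n = 4 ∨ n = 5) (P : Sylow 2 (alternatingGroup (Fin n))) :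
    ∃ S₁ S₂ : Subgroup (alternatingGroup (Fin n)), S₁ ≠ ⊥ ∧ S₂ ≠ ⊥ ∧ S₁ ≤ P ∧ S₂ ≤ P ∧
      (∀ a ∈ S₁, ∀ b ∈ S₂, a * b = b * a) ∧ S₁ ⊓ S₂ = ⊥ ∧ S₁ ⊔ S₂ = P := by
  have hc : Nat.card P = 4 := by
    rw [Sylow.card_eq_multiplicity]
    have : Nontrivial (Fin n) := Fin.nontrivial_iff_two_le.2 (by omega)
    rw [nat_card_alternatingGroup, Nat.card_eq_fintype_card, Fintype.card_fin]
    rcases hn with rfl | rfl
    · rw [show Nat.factorial 4 / 2 = 2 ^ 2 * 3 from rfl, Nat.factorization_mul (by decide) (by decide),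
        Nat.factorization_pow]
      simp [Nat.prime_two.factorization, Nat.prime_three.factorization]
    · rw [show Nat.factorial 5 / 2 = 2 ^ 2 * 3 * 5 from rfl,
        Nat.factorization_mul (by decide) (by decide), Nat.factorization_mul (by decide) (by decide),
        Nat.factorization_pow]
      simp [Nat.prime_two.factorization, Nat.prime_three.factorization, Nat.prime_five.factorization]
  have h2 : ∀ g : P.1, g ^ 2 = 1 := by
    intro g
    have h4 : g ^ 4 = 1 := by rw [← hc]; exact pow_card_eq_one'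
    have : ∀ g : Perm (Fin n), sign g = 1 → g ^ 4 = 1 → g ^ 2 = 1 := by
      rcases hn with rfl | rfl <;> decide +kernel
    exact Subtype.ext (Subtype.ext (this g.1.1 (mem_alternatingGroup.1 g.1.2)
      (congrArg (fun x : P.1 => x.1.1) h4)))
  have hcomm : ∀ a b : P.1, a * b = b * a := fun a b => by
    have e : ∀ g : P.1, g⁻¹ = g := fun g => inv_eq_of_mul_eq_one_right (by rw [← sq, h2])
    rw [← e (a * b), mul_inv_rev, e, e]
  have : Nontrivial P.1 := Finite.one_lt_card_iff_nontrivial.1 (by omega)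
  obtain ⟨a, ha⟩ := exists_ne (1 : P.1)
  have hz : ∀ a : P.1, a ≠ 1 → Nat.card (Subgroup.zpowers a) = 2 := fun a ha => by
    rw [Nat.card_zpowers, orderOf_eq_prime (h2 a) ha]
  obtain ⟨b, hb⟩ : ∃ b, b ∉ Subgroup.zpowers a := by
    by_contra! h
    have := hz a ha
    rw [(Subgroup.eq_top_iff' _).2 h, Subgroup.card_top] at this
    omega
  have hb1 : b ≠ 1 := fun e => hb (e ▸ one_mem _)
  have hinj := P.1.subtype_injective
  refine ⟨(Subgroup.zpowers a).map P.1.subtype, (Subgroup.zpowers b).map P.1.subtype,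
    by simpa [Subgroup.map_eq_bot_iff] using ha, by simpa [Subgroup.map_eq_bot_iff] using hb1,
    Subgroup.map_subtype_le _, Subgroup.map_subtype_le _, ?_, ?_, ?_⟩
  · rintro _ ⟨u, -, rfl⟩ _ ⟨v, -, rfl⟩
    exact congrArg Subtype.val (hcomm u v)
  · rw [← Subgroup.map_inf _ _ _ hinj, Subgroup.map_eq_bot_iff_of_injective _ hinj]
    rcases (Nat.dvd_prime Nat.prime_two).1 ((hz b hb1) ▸ Subgroup.card_dvd_of_le
      (inf_le_right : Subgroup.zpowers a ⊓ Subgroup.zpowers b ≤ _)) with e | e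
    · exact Subgroup.card_eq_one.1 e
    · have := Subgroup.eq_of_le_of_card_ge (inf_le_right : Subgroup.zpowers a ⊓ Subgroup.zpowers b ≤ _)
        (by rw [e, hz b hb1])
      exact absurd (this.ge (Subgroup.mem_zpowers b)).1 hb
  · rw [← Subgroup.map_sup]
    suffices Subgroup.zpowers a ⊔ Subgroup.zpowers b = ⊤ by
      rw [this, ← MonoidHom.range_eq_map, Subgroup.range_subtype]
    have h1 : Nat.card (Subgroup.zpowers a) < Nat.card (Subgroup.zpowers a ⊔ Subgroup.zpowers b :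
        Subgroup P.1) := lt_of_not_ge fun h => hb ((Subgroup.eq_of_le_of_card_ge le_sup_left h).ge
          (Subgroup.mem_sup_right (Subgroup.mem_zpowers b)))
    have h3 := Subgroup.card_subgroup_dvd_card (Subgroup.zpowers a ⊔ Subgroup.zpowers b)
    rw [hz a ha] at h1
    apply Subgroup.eq_top_of_card_eq
    rw [hc] at h3 ⊢
    have := Nat.le_of_dvd (by decide) h3
    interval_cases (Nat.card (Subgroup.zpowers a ⊔ Subgroup.zpowers b : Subgroup P.1))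
    · exact absurd h3 (by decide)
    · rfl

theorem dec_alt (P : Sylow 2 (alternatingGroup α)) : ∃ T : Sylow 2 (Perm α),
    ((∃ S₁ S₂ : Subgroup (alternatingGroup α), S₁ ≠ ⊥ ∧ S₂ ≠ ⊥ ∧ S₁ ≤ P ∧ S₂ ≤ P ∧
      (∀ a ∈ S₁, ∀ b ∈ S₂, a * b = b * a) ∧ S₁ ⊓ S₂ = ⊥ ∧ S₁ ⊔ S₂ = P) ↔
    ∃ S₁ S₂, S₁ ≠ ⊥ ∧ S₂ ≠ ⊥ ∧ Dec T S₁ S₂) := by
  obtain ⟨T, hT⟩ := (P.isPGroup'.map (alternatingGroup α).subtype).exists_le_sylow
  have hP : T.1.subgroupOf (alternatingGroup α) = P :=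
    P.is_maximal' T.isPGroup'.comap_subtype (Subgroup.map_le_iff_le_comap.1 hT)
  have hm : ∀ g : alternatingGroup α, g ∈ P.1 ↔ g.1 ∈ T := fun g => by rw [← hP]; rfl
  have hinj := (alternatingGroup α).subtype_injective
  refine ⟨T, ?_, ?_⟩
  · rintro ⟨S₁, S₂, h₁, h₂, l₁, l₂, hc, hd, hg⟩
    refine ⟨S₁.map (Subgroup.subtype _), S₂.map (Subgroup.subtype _),
      by rwa [Ne, Subgroup.map_eq_bot_iff_of_injective _ hinj],
      by rwa [Ne, Subgroup.map_eq_bot_iff_of_injective _ hinj], ?_, ?_, ?_, ?_, ?_⟩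
    · rintro _ ⟨s, hs, rfl⟩
      exact ⟨(hm s).1 (l₁ hs), s.2⟩
    · rintro _ ⟨s, hs, rfl⟩
      exact ⟨(hm s).1 (l₂ hs), s.2⟩
    · rintro _ ⟨a, ha, rfl⟩ _ ⟨b, hb, rfl⟩
      exact congrArg Subtype.val (hc a ha b hb)
    · rintro _ ⟨a, ha, rfl⟩ ⟨b, hb, e⟩
      obtain rfl := hinj e
      exact congrArg Subtype.val (Subgroup.mem_bot.1 (hd.le ⟨ha, hb⟩))
    · intro g hg' hs
      have : (⟨g, hs⟩ : alternatingGroup α) ∈ ((S₁ ⊔ S₂ : Subgroup (alternatingGroup α)) : Set _) :=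
        hg.ge ((hm _).2 hg')
      rw [Subgroup.coe_mul_of_left_le_normalizer_right _ _ fun a ha =>
        Subgroup.centralizer_le_normalizer _ fun b hb => (hc a ha b hb).symm] at this
      obtain ⟨a, ha, b, hb, e⟩ := this
      exact ⟨a, ⟨a, ha, rfl⟩, b, ⟨b, hb, rfl⟩, (congrArg Subtype.val e).symm⟩
  · rintro ⟨S₁, S₂, h₁, h₂, d⟩
    have hne : ∀ S : Subgroup (Perm α), S ≠ ⊥ → (∀ s ∈ S, s ∈ T ∧ sign s = 1) →
        S.subgroupOf (alternatingGroup α) ≠ ⊥ := fun S h l e => h (by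
      rw [eq_bot_iff]
      intro s hs
      have : (⟨s, (l s hs).2⟩ : alternatingGroup α) ∈ S.subgroupOf _ := hs
      rw [e] at this
      exact congrArg Subtype.val (Subgroup.mem_bot.1 this))
    have l₁ : S₁.subgroupOf (alternatingGroup α) ≤ P := fun s hs => (hm s).2 (d.l₁ _ hs).1
    have l₂ : S₂.subgroupOf (alternatingGroup α) ≤ P := fun s hs => (hm s).2 (d.l₂ _ hs).1
    refine ⟨_, _, hne _ h₁ d.l₁, hne _ h₂ d.l₂, l₁, l₂, fun a ha b hb => Subtype.ext (d.comm _ ha _ hb),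
      eq_bot_iff.2 fun a ha => Subtype.ext (d.disj _ ha.1 ha.2), le_antisymm (sup_le l₁ l₂) ?_⟩
    intro g hg
    obtain ⟨a, ha, b, hb, e⟩ := d.gen g.1 ((hm g).1 hg) g.2
    have : g = ⟨a, (d.l₁ a ha).2⟩ * ⟨b, (d.l₂ b hb).2⟩ := Subtype.ext e
    rw [this]
    exact Subgroup.mul_mem_sup ha hb

end CL.Ord.AltSyl
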