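import Mathlib
import Cfsg.Agent.ORD.MGroup
import Cfsg.Agent.ORD.Winter

/-! Gagola: every solvable group embeds in `H/Z(H)` for a group `H` of central type. -/

set_option autoImplicit false
open Cfsg CL.Char
open scoped ComplexConjugate commutatorElement

namespace CL.Ord

universe u

/-- `G` embeds in `K/Z(χ)` where `χ` vanishes off `Z(χ)`. -/
def CTData (G : Type u) [Group G] : Prop :=
  ∃ (K : Type u) (_ : Group K) (_ : Finite K) (χ : K → ℂ) (X : Type u) (_ : Group X)
    (Φ : K →* X) (ι : G →* X), IsIrrCharacter K χ ∧ Function.Injective ι ∧ ι.range ≤ Φ.range ∧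
    (∀ k, χ k ≠ 0 → Φ k = 1) ∧ Φ.ker ≤ charCenter χ ∧
    (∀ r : ℕ, r.Prime → r ∣ Nat.card K → r ∣ Nat.card G) ∧
    (∀ r : ℕ, r.Prime → r ∣ Nat.card G → ∃ z, Φ z = 1 ∧ χ z ≠ χ 1 ∧ χ (z ^ r) = χ 1) ∧
    ∃ m : ℕ, Squarefree m ∧ ∀ z, Φ z = 1 → χ (z ^ m) = χ 1

theorem wr_conj_left {M Q : Type*} [Group M] [Group Q] (x b : M ≀ᵣ Q) (hb : b.right = 1) (q : Q) :
    (x * b * x⁻¹).left q = x.left q * b.left (x.right⁻¹ * q) * (x.left q)⁻¹ := by
  simp [hb]

theorem wr_pow_left {M Q : Type*} [Group M] [Group Q] (b : M ≀ᵣ Q) (hb : b.right = 1) (n : ℕ)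
    (q : Q) : (b ^ n).left q = b.left q ^ n := by
  have : b = wrBase M Q b.left := by ext <;> simp [wrBase, hb]
  rw [this, ← map_pow]
  rfl

variable (K Q : Type u) [Group K] [CommGroup Q]

/-- elements of `(K × Q) ≀ Q` whose `Q`-component is an affine function -/
def ctGrp : Subgroup ((K × Q) ≀ᵣ Q) where
  carrier := {w | ∀ x y z, (w.left (x * z)).2 * (w.left y).2 = (w.left x).2 * (w.left (y * z)).2}
  one_mem' := fun _ _ _ => rfl
  mul_mem' := fun {a b} ha hb x y z => by
    simp only [RegularWreathProduct.mul_left, Pi.mul_apply, Prod.snd_mul]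
    rw [mul_mul_mul_comm, ha, ← mul_assoc a.right⁻¹, hb, mul_mul_mul_comm, mul_assoc a.right⁻¹]
  inv_mem' := fun {a} ha x y z => by
    simp only [RegularWreathProduct.inv_left, Pi.inv_apply, Prod.snd_inv]
    rw [← mul_inv, ← mul_assoc, ha, mul_inv, mul_assoc]

/-- the base group -/
abbrev ctBase : Subgroup (ctGrp K Q) :=
  (RegularWreathProduct.rightHom.comp (ctGrp K Q).subtype).ker

variable {K Q}

theorem mem_ctBase {w : ctGrp K Q} : w ∈ ctBase K Q ↔ w.1.right = 1 := Iff.rfl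

/-- projection of the base group -/
def ctPi : ctBase K Q →* (Q → K) where
  toFun b q := (b.1.1.left q).1
  map_one' := rfl
  map_mul' a b := by
    funext q
    have : a.1.1.right = 1 := a.2
    simp [this]

/-- evaluation of the affine function at `1` -/
def ctEv : ctBase K Q →* Q where
  toFun b := (b.1.1.left 1).2
  map_one' := rfl
  map_mul' a b := by
    have : a.1.1.right = 1 := a.2
    simp [this]

/-- elements with trivial affine part -/
def ctMk (k : Q → K) (r : Q) : ctGrp K Q := ⟨⟨fun q => (k q, 1), r⟩, fun _ _ _ => rfl⟩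

theorem ctPi_surjective : Function.Surjective (ctPi (K := K) (Q := Q)) :=
  fun k => ⟨⟨ctMk k 1, rfl⟩, rfl⟩

/-- the map whose kernel is the centre of the new character -/
def ctPhi {M : Type u} [Group M] (Φ : K →* M) : ctGrp K Q →* (M ≀ᵣ Q) × (Q → Q) where
  toFun w := (⟨fun q => Φ (w.1.left q).1, w.1.right⟩, fun q => (w.1.left q).2 / (w.1.left 1).2)
  map_one' := by ext <;> simp
  map_mul' a b := by
    ext q
    · simp
    · simp
    · simp only [Subgroup.coe_mul, RegularWreathProduct.mul_left, Pi.mul_apply, Prod.snd_mul,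
        mul_one]
      have := b.2 a.1.right⁻¹ 1 q
      rw [one_mul] at this
      rw [div_mul_div_comm, div_eq_div_iff_mul_eq_mul, mul_mul_mul_comm, this]
      simp only [mul_assoc, mul_comm, mul_left_comm]

theorem ctPhi_eq_one {M : Type u} [Group M] (Φ : K →* M) {w : ctGrp K Q} :
    ctPhi Φ w = 1 ↔ w.1.right = 1 ∧ (∀ q, Φ (w.1.left q).1 = 1) ∧
      ∀ q, (w.1.left q).2 = (w.1.left 1).2 := by
  constructor
  · intro h
    exact ⟨congrArg (fun x => x.1.right) h, fun q => congrArg (fun x => x.1.left q) h,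
      fun q => div_eq_one.mp (congrArg (fun x => x.2 q) h)⟩
  · rintro ⟨h1, h2, h3⟩
    ext q
    · exact h2 q
    · exact h1
    · exact div_eq_one.mpr (h3 q)

theorem ctData_step {G : Type u} [Group G] [Finite G] [Finite K] [Finite Q] {M : Type u} [Group M]
    (hQ : (Nat.card Q).Prime) (hQG : Nat.card Q ∣ Nat.card G) {χ : K → ℂ}
    (hχ : IsIrrCharacter K χ) (Φ : K →* M) (hΦ : Function.Surjective Φ) (F : G →* M ≀ᵣ Q)
    (hF : Function.Injective F) (hv : ∀ k, χ k ≠ 0 → Φ k = 1) (hZ : Φ.ker ≤ charCenter χ)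
    (hK : ∀ r : ℕ, r.Prime → r ∣ Nat.card K → r ∣ Nat.card G)
    (hz : ∀ r : ℕ, r.Prime → r ∣ Nat.card G → r ≠ Nat.card Q →
      ∃ z, Φ z = 1 ∧ χ z ≠ χ 1 ∧ χ (z ^ r) = χ 1)
    {m : ℕ} (hm : Squarefree m) (hmQ : Nat.card Q ∣ m) (hmz : ∀ z, Φ z = 1 → χ (z ^ m) = χ 1) :
    CTData G := by
  classical
  have := Fintype.ofFinite Q
  have := Fintype.ofFinite (ctGrp K Q)
  have := Fact.mk hQ
  have : IsCyclic Q := isCyclic_of_prime_card (p := Nat.card Q) rfl
  obtain ⟨lam, hlam⟩ := exists_injective_hom_of_isCyclic (G := Q)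
  have hlam' : ∀ a b : Q, (lam a : ℂ) = lam b → a = b := fun a b h => hlam (Units.ext h)
  have h1 := hχ.one_ne_zero
  obtain ⟨θ, hθdef⟩ : ∃ θ : ctBase K Q → ℂ,
    θ = fun b => (∏ q, χ (b.1.1.left q).1) * lam (b.1.1.left 1).2 := ⟨_, rfl⟩
  have hθ : IsIrrCharacter _ θ := hθdef ▸
    ((isIrrCharacter_pi (fun _ : Q => χ) fun _ => hχ).comp_surjective ctPi
      ctPi_surjective).mul_hom (lam.comp ctEv)
  have hBn : (ctBase K Q).Normal := inferInstance
  have hconj : ∀ (x : ctGrp K Q) (b : ctBase K Q), θ ⟨x * b * x⁻¹, hBn.conj_mem b b.2 x⟩ =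
      (∏ q, χ (b.1.1.left q).1) * lam (b.1.1.left x.1.right⁻¹).2 := by
    intro x b
    rw [hθdef]
    have e : ∀ q, (x * b * x⁻¹).1.left q =
        x.1.left q * b.1.1.left (x.1.right⁻¹ * q) * (x.1.left q)⁻¹ :=
      fun q => wr_conj_left _ _ b.2 q
    simp only [e, Prod.fst_mul, Prod.fst_inv, Prod.snd_mul, Prod.snd_inv, hχ.isClassFunction _ _,
      mul_one, mul_inv_cancel_comm]
    congr 1
    exact Fintype.prod_equiv (Equiv.mulLeft x.1.right⁻¹) _ _ fun _ => rfl
  have hθ1 : θ 1 = ∏ _q : Q, χ 1 := by rw [hθdef]; simp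
  have hP1 : (∏ _q : Q, χ 1) ≠ 0 := Finset.prod_ne_zero_iff.mpr fun _ _ => h1
  have hin : inertia (ctBase K Q) θ = ctBase K Q := by
    refine le_antisymm (fun x hx => ?_) (le_inertia hθ.isClassFunction)
    let b : ctBase K Q := ⟨⟨⟨fun q => (1, q), 1⟩, fun x y z => by
      simp only [mul_comm, mul_left_comm]⟩, rfl⟩
    have := mem_inertia.mp hx b
    rw [hconj, hθdef] at this
    exact inv_eq_one.mp (hlam' _ _ (mul_left_cancel₀ hP1 this))
  have hΨ := (ind_irr_iff_inertia_eq hθ).mpr hin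
  have hidx : ((ctBase K Q).index : ℂ) ≠ 0 := Nat.cast_ne_zero.mpr Subgroup.index_ne_zero_of_finite
  have hind : ∀ b : ctBase K Q, indFun (ctBase K Q) θ b = (Nat.card (ctBase K Q) : ℂ)⁻¹ *
      ((∏ q, χ (b.1.1.left q).1) * ∑ x : ctGrp K Q, (lam (b.1.1.left x.1.right⁻¹).2 : ℂ)) := by
    intro b
    rw [indFun_coe_normal, Finset.sum_congr rfl fun x _ => hconj x b, ← Finset.mul_sum]
  -- values on the centre
  have hval : ∀ w : ctGrp K Q, w.1.right = 1 → (∀ q, (w.1.left q).2 = (w.1.left 1).2) →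
      indFun (ctBase K Q) θ w =
        (ctBase K Q).index * ((∏ q, χ (w.1.left q).1) * lam (w.1.left 1).2) := by
    intro w hw hc
    refine (hind ⟨w, hw⟩).trans ?_
    simp only [hc]
    rw [Finset.sum_const, Finset.card_univ, ← Nat.card_eq_fintype_card, nsmul_eq_mul,
      ← (ctBase K Q).card_mul_index]
    have := card_ne_zero (ctBase K Q)
    push_cast
    field_simp
  have hval1 : indFun (ctBase K Q) θ 1 = (ctBase K Q).index * ∏ _q : Q, χ 1 := by
    rw [indFun_one, hθ1]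
  have hpow : ∀ (w : ctGrp K Q) (n : ℕ), w.1.right = 1 → (∀ q, (w.1.left q).2 = (w.1.left 1).2) →
      (∀ q, χ ((w.1.left q).1 ^ n) = χ 1) → (w.1.left 1).2 ^ n = 1 →
      indFun (ctBase K Q) θ (w ^ n) = indFun (ctBase K Q) θ 1 := by
    intro w n hw hc h2 h3
    have e : ∀ q, (w ^ n).1.left q = w.1.left q ^ n := fun q => wr_pow_left _ hw n q
    rw [hval (w ^ n) ((ctBase K Q).pow_mem hw n) (fun q => by
      rw [e, e, Prod.pow_snd, Prod.pow_snd, hc]), hval1]
    simp only [e, Prod.pow_fst, Prod.pow_snd, h2, h3, map_one, Units.val_one, mul_one]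
  refine ⟨ctGrp K Q, inferInstance, inferInstance, indFun (ctBase K Q) θ, (M ≀ᵣ Q) × (Q → Q),
    inferInstance, ctPhi Φ, (MonoidHom.inl _ _).comp F, hΨ, ?_, ?_, ?_, ?_, ?_, ?_, m, hm, ?_⟩
  · exact fun a b h => hF (congrArg Prod.fst h)
  · rintro _ ⟨g, rfl⟩
    choose s hs using hΦ
    refine ⟨ctMk (fun q => s ((F g).left q)) (F g).right, ?_⟩
    ext q
    · exact hs _
    · rfl
    · simp [ctPhi, ctMk]
  · intro w hw
    have hwB : w ∈ ctBase K Q := by
      by_contra h
      exact hw (indFun_eq_zero_of_normal _ _ h)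
    have h2 := right_ne_zero_of_mul (fun h => hw ((hind ⟨w, hwB⟩).trans h))
    refine (ctPhi_eq_one Φ).mpr ⟨hwB, fun q => hv _
      (Finset.prod_ne_zero_iff.mp (left_ne_zero_of_mul h2) q (Finset.mem_univ q)), fun t => ?_⟩
    have h3 := right_ne_zero_of_mul h2
    have h4 : (∑ x : ctGrp K Q, (lam (w.1.left x.1.right⁻¹).2 : ℂ)) * lam (w.1.left 1).2 =
        (∑ x : ctGrp K Q, (lam (w.1.left x.1.right⁻¹).2 : ℂ)) * lam (w.1.left t).2 := by
      conv_lhs => rw [← Equiv.sum_comp (Equiv.mulRight (ctMk 1 t⁻¹))]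
      rw [Finset.sum_mul, Finset.sum_mul]
      refine Finset.sum_congr rfl fun x _ => ?_
      rw [← Units.val_mul, ← Units.val_mul, ← map_mul, ← map_mul]
      congr 2
      have := w.2 x.1.right⁻¹ 1 t
      rw [one_mul] at this
      rw [← this]
      simp [ctMk, mul_comm]
    exact (hlam' _ _ (mul_left_cancel₀ h3 h4)).symm
  · intro w hw
    obtain ⟨h2, h3, h4⟩ := (ctPhi_eq_one Φ).mp hw
    rw [hΨ.isCharacter.mem_charCenter', hval w h2 h4, hval1, norm_mul, norm_mul, norm_mul,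
      norm_hom, mul_one, norm_prod, norm_prod]
    congr 1
    exact Finset.prod_congr rfl fun q _ => norm_apply_of_mem_charCenter (hZ (h3 q))
  · intro r hr hd
    have h2 := hd.trans (ctGrp K Q).card_subgroup_dvd_card
    rw [RegularWreathProduct.card, Nat.card_prod] at h2
    rcases hr.dvd_mul.mp h2 with h | h
    · rcases hr.dvd_mul.mp (hr.dvd_of_dvd_pow h) with h | h
      · exact hK r hr h
      · exact h.trans hQG
    · exact h.trans hQG
  · intro r hr hd
    by_cases e : r = Nat.card Q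
    · have : Nontrivial Q := Finite.one_lt_card_iff_nontrivial.mp hQ.one_lt
      obtain ⟨t, ht⟩ := exists_ne (1 : Q)
      let w : ctGrp K Q := ⟨⟨fun _ => (1, t), 1⟩, fun _ _ _ => rfl⟩
      refine ⟨w, (ctPhi_eq_one Φ).mpr ⟨rfl, fun _ => map_one Φ, fun _ => rfl⟩, ?_,
        hpow w r rfl (fun _ => rfl) (fun _ => by simp [w]) (by rw [e]; exact pow_card_eq_one')⟩
      rw [hval w rfl (fun _ => rfl), hval1]
      intro h
      have h2 := mul_left_cancel₀ hidx h
      rw [mul_eq_left₀ hP1] at h2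
      exact ht (hlam' _ _ (h2.trans (by simp)))
    · obtain ⟨z, hz1, hz2, hz3⟩ := hz r hr hd e
      refine ⟨ctMk (Pi.mulSingle 1 z) 1, (ctPhi_eq_one Φ).mpr ⟨rfl, fun q => ?_, fun _ => rfl⟩, ?_,
        hpow _ r rfl (fun _ => rfl) (fun q => ?_) (one_pow _)⟩
      · by_cases hq : q = 1
        · subst hq; simpa [ctMk] using hz1
        · simp [ctMk, hq]
      · rw [hval _ rfl (fun _ => rfl), hval1]
        intro h
        have h2 := mul_left_cancel₀ hidx h
        rw [← Finset.mul_prod_erase _ _ (Finset.mem_univ (1 : Q)),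
          ← Finset.mul_prod_erase _ _ (Finset.mem_univ (1 : Q))] at h2
        have h3 : ∏ q ∈ Finset.univ.erase (1 : Q), χ ((ctMk (Pi.mulSingle 1 z) (1 : Q)).1.left q).1 =
            ∏ _q ∈ Finset.univ.erase (1 : Q), χ 1 :=
          Finset.prod_congr rfl fun q hq => by simp [ctMk, Finset.ne_of_mem_erase hq]
        rw [h3] at h2
        simp only [ctMk, Pi.mulSingle_eq_same, map_one, Units.val_one, mul_one] at h2
        exact hz2 (mul_right_cancel₀ (Finset.prod_ne_zero_iff.mpr fun _ _ => h1) h2)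
      · by_cases hq : q = 1
        · subst hq; simpa [ctMk] using hz3
        · simp [ctMk, hq]
  · intro w hw
    obtain ⟨h2, h3, h4⟩ := (ctPhi_eq_one Φ).mp hw
    refine hpow w m h2 h4 (fun q => hmz _ (h3 q)) ?_
    obtain ⟨c, rfl⟩ := hmQ
    rw [pow_mul, pow_card_eq_one', one_pow]

theorem ctData_of_solvable (n : ℕ) : ∀ (G : Type u) [Group G] [Finite G], Nat.card G = n →
    Group.IsSolvable G → CTData G := by
  induction n using Nat.strong_induction_on with
  | _ n ih =>
    intro G _ _ hn hs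
    rcases subsingleton_or_nontrivial G with h | h
    · refine ⟨G, inferInstance, inferInstance, 1, G, inferInstance, MonoidHom.id G, MonoidHom.id G,
        isIrrCharacter_one', Function.injective_id, le_rfl, fun _ _ => Subsingleton.elim _ _,
        fun x _ => Subsingleton.elim 1 x ▸ Subgroup.one_mem _, fun _ _ h => h, fun r hr hd => ?_,
        1, squarefree_one, fun _ _ => rfl⟩
      rw [Nat.card_of_subsingleton (1 : G), Nat.dvd_one] at hd
      exact absurd hd hr.one_lt.ne'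
    · obtain ⟨N, hN, hp⟩ := CL.exists_normal_index_prime G
      have hlt : Nat.card N < n := by
        rw [← hn, ← N.card_mul_index]
        exact lt_mul_of_one_lt_right Nat.card_pos hp.one_lt
      obtain ⟨K, _, _, χ, X, _, Φ, ι, hχ, hι, hr, hv, hZ, hK, hz, m, hm, hmz⟩ :=
        ih _ hlt N rfl inferInstance
      obtain ⟨F, hF⟩ := exists_embed_wreath N (ι.codRestrict Φ.range fun x => hr ⟨x, rfl⟩)
        (fun a b h => hι (congrArg Subtype.val h))
      obtain ⟨m', hm', h1, h2⟩ : ∃ m', Squarefree m' ∧ m ∣ m' ∧ N.index ∣ m' := by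
        by_cases hd : N.index ∣ m
        · exact ⟨m, hm, dvd_rfl, hd⟩
        · exact ⟨N.index * m, (Nat.squarefree_mul (hp.coprime_iff_not_dvd.mpr hd)).mpr
            ⟨hp.prime.squarefree, hm⟩, dvd_mul_left _ _, dvd_mul_right _ _⟩
      have := Fact.mk hp
      have hc : IsCyclic (G ⧸ N) := isCyclic_of_prime_card (p := N.index) rfl
      have hrr : ∀ k, Φ.rangeRestrict k = 1 ↔ Φ k = 1 := fun k => Subtype.ext_iff
      refine @ctData_step K (G ⧸ N) _
        { (inferInstance : Group (G ⧸ N)) with mul_comm := hc.isMulCommutative.is_comm.comm }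
        G _ _ _ _ Φ.range _ hp N.index_dvd_card χ hχ Φ.rangeRestrict Φ.rangeRestrict_surjective F hF
        (fun k hk => (hrr k).mpr (hv k hk)) (fun k hk => hZ ((hrr k).mp hk))
        (fun r hr hd => (hK r hr hd).trans N.card_subgroup_dvd_card) (fun r hr hd hne => ?_)
        m' hm' h2 (fun z hz => ?_)
      · rw [← N.card_mul_index] at hd
        rcases hr.dvd_mul.mp hd with hd | hd
        · obtain ⟨z, h3, h4⟩ := hz r hr hd
          exact ⟨z, (hrr z).mpr h3, h4⟩
        · exact absurd ((Nat.prime_dvd_prime_iff_eq hr hp).mp hd) hne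
      · obtain ⟨c, rfl⟩ := h1
        rw [pow_mul]
        exact hχ.mem_charKer.mp (Subgroup.pow_mem _ (hχ.mem_charKer.mpr (hmz z ((hrr z).mp hz))) c)

theorem CTData.exists_centralType {G : Type u} [Group G] (h : CTData G) :
    ∃ (H : Type u) (_ : Group H) (_ : Finite H) (χ : IrrCharacter H),
      (∀ h : H, (χ : H → ℂ) h = (χ : H → ℂ) 1 → h = 1) ∧
      (charDegree (χ : H → ℂ)) ^ 2 = (Subgroup.center H).index ∧
      (∃ f : G →* H ⧸ Subgroup.center H, Function.Injective f) ∧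
      (∀ p : ℕ, p.Prime → ((p ∣ Nat.card H ↔ p ∣ Nat.card G) ∧
        (p ∣ Nat.card (Subgroup.center H) ↔ p ∣ Nat.card G))) ∧
      Squarefree (Nat.card (Subgroup.center H)) := by
  obtain ⟨K, _, _, χ, X, _, Φ, ι, hχ, hι, hr, hv, hZ, hK, hz, m, hm, hmz⟩ := h
  obtain ⟨L, hL, η, hLdef, hη, hηk, e⟩ := exists_faithful_quot hχ
  have hη1 : η 1 = χ 1 := (congrFun e 1).symm
  have hcen : ∀ k : K, (k : K ⧸ L) ∈ Subgroup.center (K ⧸ L) ↔ Φ k = 1 := by
    intro k
    rw [← hη.charCenter_eq_center hηk, hη.isCharacter.mem_charCenter', hη1,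
      ← congrFun e k]
    constructor
    · intro h
      refine hv k fun h0 => hχ.one_ne_zero ?_
      rw [h0, norm_zero] at h
      exact norm_eq_zero.mp h.symm
    · exact fun h => norm_apply_of_mem_charCenter (hZ h)
  have hone : ∀ k : K, (k : K ⧸ L) = 1 ↔ χ k = χ 1 := fun k => by
    rw [QuotientGroup.eq_one_iff, hLdef, hχ.mem_charKer]
  have hZG : ∀ p : ℕ, p.Prime → p ∣ Nat.card G → p ∣ Nat.card (Subgroup.center (K ⧸ L)) := by
    intro p hp hd
    obtain ⟨z, h1, h2, h3⟩ := hz p hp hd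
    have := Fact.mk hp
    have : orderOf (z : K ⧸ L) = p := orderOf_eq_prime
      (by rw [← QuotientGroup.mk_pow, hone]; exact h3) (fun h => h2 ((hone z).mp h))
    exact this ▸ Subgroup.orderOf_dvd_natCard _ ((hcen z).mpr h1)
  have hHG : ∀ p : ℕ, p.Prime → p ∣ Nat.card (K ⧸ L) → p ∣ Nat.card G := fun p hp hd =>
    hK p hp (hd.trans (Subgroup.card_quotient_dvd_card L))
  refine ⟨K ⧸ L, inferInstance, inferInstance, ⟨η, hη⟩, hη.isCharacter.charKer_eq_bot_iff.mp hηk,
    ?_, ?_, fun p hp => ⟨⟨hHG p hp, fun hd => (hZG p hp hd).trans (Subgroup.card_subgroup_dvd_card _)⟩,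
      fun hd => hHG p hp (hd.trans (Subgroup.card_subgroup_dvd_card _)), hZG p hp⟩, ?_⟩
  · refine (hη.charDegree_sq_eq_index_iff hη.center_le_charCenter).mpr fun g hg => ?_
    obtain ⟨k, rfl⟩ := QuotientGroup.mk_surjective g
    by_contra h
    exact hg ((hcen k).mpr (hv k (by rw [e]; exact h)))
  · let ψ : K →* (K ⧸ L) ⧸ Subgroup.center (K ⧸ L) :=
      (QuotientGroup.mk' _).comp (QuotientGroup.mk' L)
    have hψ : Function.Surjective ψ :=
      (QuotientGroup.mk'_surjective _).comp (QuotientGroup.mk'_surjective L)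
    have hker : Φ.ker = ψ.ker := by
      ext k
      rw [MonoidHom.mem_ker, MonoidHom.mem_ker, ← hcen]
      exact (QuotientGroup.eq_one_iff _).symm
    let E : Φ.range ≃* (K ⧸ L) ⧸ Subgroup.center (K ⧸ L) :=
      ((QuotientGroup.quotientKerEquivRange Φ).symm.trans
        (QuotientGroup.quotientMulEquivOfEq hker)).trans
        (QuotientGroup.quotientKerEquivOfSurjective ψ hψ)
    exact ⟨E.toMonoidHom.comp (ι.codRestrict Φ.range fun x => hr ⟨x, rfl⟩),
      E.injective.comp fun a b h => hι (congrArg Subtype.val h)⟩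
  · have := hη.isCyclic_center hηk
    refine hm.squarefree_of_dvd ?_
    rw [← IsCyclic.exponent_eq_card]
    refine Monoid.exponent_dvd_of_forall_pow_eq_one fun g => Subtype.ext ?_
    obtain ⟨g, hg⟩ := g
    obtain ⟨k, rfl⟩ := QuotientGroup.mk_surjective g
    change (k : K ⧸ L) ^ m = 1
    rw [← QuotientGroup.mk_pow, hone]
    exact hmz k ((hcen k).mp hg)

end CL.Ord
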