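import Mathlib

/-! Critical groups for the spectrum of a product of minimal Frobenius groups. -/

set_option autoImplicit false

namespace CL.Ord.Crit

/-- all elements have order `1`, `p` or `q`, both primes occur, the `p`-elements form a subgroup -/
structure PQ (p q : ℕ) (F : Type*) [Group F] : Prop where
  pow : ∀ x : F, x ^ p = 1 ∨ x ^ q = 1
  exp : ∃ x : F, orderOf x = p
  exq : ∃ x : F, orderOf x = q
  mul : ∀ x y : F, x ^ p = 1 → y ^ p = 1 → (x * y) ^ p = 1

theorem eq_one_of_pows {G : Type*} [Group G] {x : G} {a b : ℕ} (h : a.Coprime b) (ha : x ^ a = 1)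
    (hb : x ^ b = 1) : x = 1 :=
  orderOf_eq_one_iff.1 (Nat.eq_one_of_dvd_coprimes h (orderOf_dvd_of_pow_eq_one ha)
    (orderOf_dvd_of_pow_eq_one hb))

@[ext] structure Aff (K : Type) [Field K] (q : ℕ) (χ : AddChar (ZMod q) K) where
  a : K
  i : ZMod q

section
variable {K : Type} [Field K] {q : ℕ} {χ : AddChar (ZMod q) K}

instance : Mul (Aff K q χ) := ⟨fun g h => ⟨g.a + χ g.i * h.a, g.i + h.i⟩⟩
instance : One (Aff K q χ) := ⟨⟨0, 0⟩⟩
instance : Inv (Aff K q χ) := ⟨fun g => ⟨-(χ (-g.i) * g.a), -g.i⟩⟩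
@[simp] theorem Aff.mul_a (g h : Aff K q χ) : (g * h).a = g.a + χ g.i * h.a := rfl
@[simp] theorem Aff.mul_i (g h : Aff K q χ) : (g * h).i = g.i + h.i := rfl
@[simp] theorem Aff.one_a : (1 : Aff K q χ).a = 0 := rfl
@[simp] theorem Aff.one_i : (1 : Aff K q χ).i = 0 := rfl
@[simp] theorem Aff.inv_a (g : Aff K q χ) : (g⁻¹).a = -(χ (-g.i) * g.a) := rfl
@[simp] theorem Aff.inv_i (g : Aff K q χ) : (g⁻¹).i = -g.i := rfl

instance : Group (Aff K q χ) := Group.ofLeftAxioms
  (fun k l m => by ext <;> simp [AddChar.map_add_eq_mul] <;> ring)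
  (fun k => by ext <;> simp)
  (fun k => by ext <;> simp)

theorem Aff.pow_i (g : Aff K q χ) (n : ℕ) : (g ^ n).i = n * g.i := by
  induction n with
  | zero => simp
  | succ n ih => rw [pow_succ, Aff.mul_i, ih]; push_cast; ring

theorem Aff.pow_a (g : Aff K q χ) (hg : g.i = 0) (n : ℕ) : (g ^ n).a = n * g.a := by
  induction n with
  | zero => simp
  | succ n ih => rw [pow_succ, Aff.mul_a, ih, Aff.pow_i, hg]; simp; ring

end

theorem exists_PQ {p q : ℕ} (hp : p.Prime) (hq : q.Prime) (hpq : p ≠ q) :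
    ∃ (F : Type) (_ : Group F) (_ : Finite F), PQ p q F := by
  have := Fact.mk hp
  have := Fact.mk hq
  have hco : p.Coprime q := (Nat.coprime_primes hp hq).2 hpq
  have hq1 : q - 1 ≠ 0 := by have := hq.two_le; omega
  have hc : q ∣ Nat.card (GaloisField p (q - 1))ˣ := by
    rw [Nat.card_units, GaloisField.card p _ hq1]
    have := Nat.ModEq.pow_totient hco
    rw [Nat.totient_prime hq] at this
    exact (Nat.modEq_iff_dvd' (Nat.one_le_pow _ _ hp.pos)).1 this.symm
  obtain ⟨z, hz⟩ := exists_prime_orderOf_dvd_card' q hc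
  have hz' : IsPrimitiveRoot (z : GaloisField p (q - 1)) q := by
    rw [IsPrimitiveRoot.coe_units_iff]
    have := IsPrimitiveRoot.orderOf z
    rwa [hz] at this
  let χ := AddChar.zmodChar q hz'.pow_eq_one
  have hχ : ∀ a, χ a = 1 → a = 0 := fun a ha => by
    have := (hz'.pow_eq_one_iff_dvd a.val).1 ha
    exact (ZMod.val_eq_zero a).1 (Nat.eq_zero_of_dvd_of_lt this (ZMod.val_lt a))
  have hpow : ∀ g : Aff _ q χ, g.i = 0 → g ^ p = 1 := fun g hg => by
    ext
    · simp [Aff.pow_a g hg]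
    · simp [Aff.pow_i, hg]
  have hpow' : ∀ g : Aff _ q χ, g ^ p = 1 → g.i = 0 := fun g hg => by
    have := congrArg Aff.i hg
    rw [Aff.pow_i, Aff.one_i, mul_eq_zero, ZMod.natCast_eq_zero_iff] at this
    exact this.resolve_left fun h => hpq ((Nat.prime_dvd_prime_iff_eq hq hp).1 h).symm
  have hq' : ∀ g : Aff _ q χ, g.i ≠ 0 → g ^ q = 1 := fun g hg => by
    have hi : (g ^ q).i = 0 := by simp [Aff.pow_i]
    have := congrArg Aff.a (Commute.self_pow g q).eq
    simp only [Aff.mul_a, hi, AddChar.map_zero_eq_one, one_mul] at this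
    ext
    · by_contra h
      refine hg (hχ _ (mul_right_cancel₀ h ?_))
      linear_combination this
    · exact hi
  refine ⟨Aff _ q χ, inferInstance, Finite.of_injective (fun g => (g.a, g.i)) ?_, ?_, ?_, ?_, ?_⟩
  · intro g h e
    simp only [Prod.mk.injEq] at e
    exact Aff.ext e.1 e.2
  · intro g
    by_cases hg : g.i = 0
    exacts [Or.inl (hpow g hg), Or.inr (hq' g hg)]
  · exact ⟨⟨1, 0⟩, orderOf_eq_prime (hpow _ rfl) fun h => one_ne_zero (congrArg Aff.a h)⟩
  · exact ⟨⟨0, 1⟩, orderOf_eq_prime (hq' _ one_ne_zero) fun h => one_ne_zero (congrArg Aff.i h)⟩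
  · intro x y hx hy
    exact hpow _ (by simp [hpow' x hx, hpow' y hy])

theorem exists_min {p q : ℕ} (hp : p.Prime) (hq : q.Prime) (hpq : p ≠ q) :
    ∃ (F : Type) (_ : Group F) (_ : Finite F), PQ p q F ∧
      ∀ (F' : Type) [Group F'] [Finite F'], PQ p q F' → Nat.card F ≤ Nat.card F' := by
  classical
  have h : ∃ n, ∃ (F : Type) (_ : Group F) (_ : Finite F), PQ p q F ∧ Nat.card F = n := by
    obtain ⟨F, _, _, h⟩ := exists_PQ hp hq hpq
    exact ⟨_, F, _, inferInstance, h, rfl⟩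
  obtain ⟨F, _, _, h1, h2⟩ := Nat.find_spec h
  exact ⟨F, _, inferInstance, h1, fun F' _ _ h' => h2 ▸ Nat.find_min' h ⟨F', _, inferInstance, h', rfl⟩⟩

theorem PQ.section {p q : ℕ} (hco : p.Coprime q) {F : Type*} [Group F] (h : PQ p q F)
    (H : Subgroup F) (N : Subgroup H) [N.Normal] (h1 : ∃ x : H ⧸ N, orderOf x = p)
    (h2 : ∃ x : H ⧸ N, orderOf x = q) : PQ p q (H ⧸ N) := by
  have hs : ∀ (x : H) (n : ℕ), (x : F) ^ n = 1 → (x : H ⧸ N) ^ n = 1 := fun x n hx => by
    rw [← QuotientGroup.mk_pow, show x ^ n = 1 from Subtype.ext hx, QuotientGroup.mk_one]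
  refine ⟨fun x => ?_, h1, h2, fun x y hx hy => ?_⟩
  · obtain ⟨x, rfl⟩ := QuotientGroup.mk_surjective x
    exact (h.pow x).imp (hs x p) (hs x q)
  · obtain ⟨x, rfl⟩ := QuotientGroup.mk_surjective x
    obtain ⟨y, rfl⟩ := QuotientGroup.mk_surjective y
    rcases h.pow x with hx' | hx'
    · rcases h.pow y with hy' | hy'
      · exact hs (x * y) p (h.mul x y hx' hy')
      · rw [eq_one_of_pows hco hy (hs y q hy'), mul_one, hx]
    · rw [eq_one_of_pows hco hx (hs x q hx'), one_mul, hy]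

theorem PQ.not_both {p q : ℕ} (hp : p.Prime) (hq : q.Prime) (hpq : p ≠ q) {F : Type*} [Group F]
    (h : PQ p q F) (h' : ∀ x y : F, x ^ q = 1 → y ^ q = 1 → (x * y) ^ q = 1) : False := by
  have hco : p.Coprime q := (Nat.coprime_primes hp hq).2 hpq
  obtain ⟨x, hx⟩ := h.exp
  obtain ⟨y, hy⟩ := h.exq
  have hx' : x ^ p = 1 := hx ▸ pow_orderOf_eq_one x
  have hy' : y ^ q = 1 := hy ▸ pow_orderOf_eq_one y
  rcases h.pow (x * y) with e | e
  · have := h.mul x⁻¹ _ (by rw [inv_pow, hx', inv_one]) e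
    rw [inv_mul_cancel_left] at this
    rw [eq_one_of_pows hco this hy', orderOf_one] at hy
    exact hq.one_lt.ne hy
  · have := h' _ y⁻¹ e (by rw [inv_pow, hy', inv_one])
    rw [mul_inv_cancel_right] at this
    rw [eq_one_of_pows hco hx' this, orderOf_one] at hx
    exact hp.one_lt.ne hx

section Prod

variable {ι : Type} [Fintype ι] [DecidableEq ι] {P Q : ι → ℕ} {F : ι → Type} [∀ j, Group (F j)]

/-- the product of the primes belonging to the other factors -/
def oth (P Q : ι → ℕ) (j : ι) : ℕ := ∏ i ∈ Finset.univ.erase j, P i * Q i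

theorem pow_oth (h : ∀ j, PQ (P j) (Q j) (F j)) (x : ∀ j, F j) (j : ι) :
    x ^ oth P Q j = Pi.mulSingle j (x j ^ oth P Q j) := by
  ext i
  by_cases hi : i = j
  · subst hi; simp
  · rw [Pi.mulSingle_eq_of_ne hi, Pi.pow_apply]
    have hd : P i * Q i ∣ oth P Q j :=
      Finset.dvd_prod_of_mem (fun i => P i * Q i) (by simp [hi])
    rcases (h i).pow (x i) with e | e
    · exact orderOf_dvd_iff_pow_eq_one.1
        ((orderOf_dvd_of_pow_eq_one e).trans ((dvd_mul_right _ _).trans hd))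
    · exact orderOf_dvd_iff_pow_eq_one.1
        ((orderOf_dvd_of_pow_eq_one e).trans ((dvd_mul_left _ _).trans hd))

theorem coprime_oth (hc : ∀ i j, i ≠ j → (P i * Q i).Coprime (P j * Q j)) (j : ι) :
    (P j * Q j).Coprime (oth P Q j) :=
  Nat.Coprime.prod_right fun i hi => hc j i (Finset.ne_of_mem_erase hi).symm

theorem range_prod (hP : ∀ j, (P j).Prime) (hQ : ∀ j, (Q j).Prime)
    (hc : ∀ i j, i ≠ j → (P i * Q i).Coprime (P j * Q j)) (h : ∀ j, PQ (P j) (Q j) (F j)) :
    Set.range (orderOf : (∀ j, F j) → ℕ) =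
      {m : ℕ | ∃ c : ι → ℕ, (∀ j, c j = 1 ∨ c j = P j ∨ c j = Q j) ∧ m = ∏ j, c j} := by
  have ho : ∀ j (x : F j), orderOf x = 1 ∨ orderOf x = P j ∨ orderOf x = Q j := by
    intro j x
    rcases (h j).pow x with e | e
    · rcases (Nat.dvd_prime (hP j)).1 (orderOf_dvd_of_pow_eq_one e) with e | e <;> simp [e]
    · rcases (Nat.dvd_prime (hQ j)).1 (orderOf_dvd_of_pow_eq_one e) with e | e <;> simp [e]
  have hd : ∀ j (x : F j), orderOf x ∣ P j * Q j := by
    intro j x
    rcases ho j x with e | e | e <;> simp [e]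
  have key : ∀ x : ∀ j, F j, orderOf x = ∏ j, orderOf (x j) := fun x => by
    rw [Pi.orderOf, Finset.lcm_eq_prod]
    intro i _ j _ hij
    exact Nat.Coprime.coprime_dvd_left (hd i _) (Nat.Coprime.coprime_dvd_right (hd j _) (hc i j hij))
  ext m
  constructor
  · rintro ⟨x, rfl⟩
    exact ⟨fun j => orderOf (x j), fun j => ho j _, key x⟩
  · rintro ⟨c, hc, rfl⟩
    have : ∀ j, ∃ x : F j, orderOf x = c j := fun j => by
      rcases hc j with e | e | e
      exacts [⟨1, by simp [e]⟩, e ▸ (h j).exp, e ▸ (h j).exq]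
    choose x hx using this
    exact ⟨x, by rw [key]; simp [hx]⟩

theorem critical [∀ j, Finite (F j)] (hP : ∀ j, (P j).Prime) (hQ : ∀ j, (Q j).Prime)
    (hPQ : ∀ j, P j ≠ Q j)
    (hc : ∀ i j, i ≠ j → (P i * Q i).Coprime (P j * Q j)) (h : ∀ j, PQ (P j) (Q j) (F j))
    (hmin : ∀ j (F' : Type) [Group F'] [Finite F'], PQ (P j) (Q j) F' → Nat.card (F j) ≤ Nat.card F')
    (H : Subgroup (∀ j, F j)) (N : Subgroup H) [N.Normal]
    (h1 : ∀ j, ∃ x : H ⧸ N, orderOf x = P j) (h2 : ∀ j, ∃ x : H ⧸ N, orderOf x = Q j) :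
    H = ⊤ ∧ N = ⊥ := by
  let Hj : ∀ j, Subgroup (F j) := fun j => H.comap (MonoidHom.mulSingle F j)
  let f : ∀ j, Hj j →* H := fun j => (MonoidHom.mulSingle F j).subgroupComap H
  let Nj : ∀ j, Subgroup (Hj j) := fun j => N.comap (f j)
  have lift : ∀ j r, r.Prime → r ∣ P j * Q j → (∃ x : H ⧸ N, orderOf x = r) →
      ∃ x : Hj j ⧸ Nj j, orderOf x = r := by
    rintro j r hr hd ⟨x, hx⟩
    obtain ⟨x, rfl⟩ := QuotientGroup.mk_surjective x
    have hm : x.1 j ^ oth P Q j ∈ Hj j := by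
      change Pi.mulSingle j _ ∈ H
      rw [← pow_oth h]; exact H.pow_mem x.2 _
    have e : f j ⟨_, hm⟩ = x ^ oth P Q j := Subtype.ext (pow_oth h x.1 j).symm
    refine ⟨(⟨_, hm⟩ : Hj j), ?_⟩
    have hinj : Function.Injective (QuotientGroup.map (Nj j) N (f j) le_rfl) := by
      rw [← MonoidHom.ker_eq_bot_iff, QuotientGroup.ker_map, Subgroup.map_eq_bot_iff,
        QuotientGroup.ker_mk']
    rw [← orderOf_injective _ hinj, QuotientGroup.map_mk, e, QuotientGroup.mk_pow,
      Nat.Coprime.orderOf_pow, hx]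
    rw [hx]
    exact Nat.Coprime.coprime_dvd_left hd (coprime_oth hc j)
  have key : ∀ j, Hj j = ⊤ ∧ Nj j = ⊥ := by
    intro j
    have := hmin j _ ((h j).section ((Nat.coprime_primes (hP j) (hQ j)).2 (hPQ j)) (Hj j) (Nj j)
      (lift j _ (hP j) (dvd_mul_right _ _) (h1 j)) (lift j _ (hQ j) (dvd_mul_left _ _) (h2 j)))
    have e1 := Subgroup.card_eq_card_quotient_mul_card_subgroup (Nj j)
    have e2 := Subgroup.card_le_card_group (Hj j)
    have e3 : 0 < Nat.card (Nj j) := Nat.card_pos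
    have e4 : 0 < Nat.card (Hj j ⧸ Nj j) := Nat.card_pos
    constructor
    · apply Subgroup.eq_top_of_le_card
      nlinarith
    · apply Subgroup.eq_bot_of_card_le
      by_contra hlt
      nlinarith
  constructor
  · rw [eq_top_iff]
    intro x _
    refine Subgroup.pi_mem_of_mulSingle_mem x fun j => ?_
    exact ((key j).1.ge (Subgroup.mem_top (x j)) : x j ∈ Hj j)
  · rw [eq_bot_iff]
    intro x hx
    rw [Subgroup.mem_bot]
    ext j
    have hm : x.1 j ^ oth P Q j ∈ Hj j := (key j).1.ge (Subgroup.mem_top _)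
    have e : f j ⟨_, hm⟩ = x ^ oth P Q j := Subtype.ext (pow_oth h x.1 j).symm
    have : (⟨_, hm⟩ : Hj j) ∈ Nj j := by
      change f j _ ∈ N
      rw [e]; exact N.pow_mem hx _
    rw [(key j).2, Subgroup.mem_bot, Subtype.ext_iff] at this
    rcases (h j).pow (x.1 j) with e | e
    · exact eq_one_of_pows (Nat.Coprime.coprime_dvd_left (dvd_mul_right _ _) (coprime_oth hc j)) e this
    · exact eq_one_of_pows (Nat.Coprime.coprime_dvd_left (dvd_mul_left _ _) (coprime_oth hc j)) e this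

theorem mul_prod (hc : ∀ i j, i ≠ j → (P i * Q i).Coprime (P j * Q j))
    (h : ∀ j, PQ (P j) (Q j) (F j)) (j : ι) (x y : ∀ j, F j) (hx : x ^ P j = 1) (hy : y ^ P j = 1) :
    (x * y) ^ P j = 1 := by
  have key : ∀ (z : ∀ j, F j), z ^ P j = 1 → ∀ i, i ≠ j → z i = 1 := by
    intro z hz i hi
    have e' : z i ^ P j = 1 := congrFun hz i
    have hco := Nat.Coprime.coprime_dvd_right (dvd_mul_right _ _) (hc i j hi)
    rcases (h i).pow (z i) with e | e
    · exact eq_one_of_pows (Nat.Coprime.coprime_dvd_left (dvd_mul_right _ _) hco) e e'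
    · exact eq_one_of_pows (Nat.Coprime.coprime_dvd_left (dvd_mul_left _ _) hco) e e'
  ext i
  by_cases hi : i = j
  · subst hi; exact (h i).mul _ _ (congrFun hx i) (congrFun hy i)
  · simp [key x hx i hi, key y hy i hi]

end Prod

theorem main (s : ℕ) (p : Fin s → Fin 2 → ℕ)
    (hp : ∀ j i, (p j i).Prime) (hinj : ∀ j i j' i', p j i = p j' i' → j = j' ∧ i = i') :
    ∃ (G : Fin (2 ^ s) → Type) (_ : ∀ a, Group (G a)) (_ : ∀ a, Fintype (G a)),
      (∀ a b, a ≠ b → ¬ Nonempty (G a ≃* G b)) ∧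
      ∀ a, Set.range (orderOf : (G a) → ℕ) = {m : ℕ | ∃ c : Fin s → ℕ, (∀ j, c j = 1 ∨ c j = p j 0 ∨ c j = p j 1) ∧ m = ∏ j, c j} ∧
      ∀ (H : Subgroup (G a)) (N : Subgroup ↥H) [N.Normal], (H ≠ ⊤ ∨ N ≠ ⊥) → Set.range (orderOf : (↥H ⧸ N) → ℕ) ≠ {m : ℕ | ∃ c : Fin s → ℕ, (∀ j, c j = 1 ∨ c j = p j 0 ∨ c j = p j 1) ∧ m = ∏ j, c j} := by
  have hne : ∀ j i, p j i ≠ p j (i + 1) := fun j i h => by
    have := (hinj _ _ _ _ h).2
    revert this; generalize i = u; revert u; decide
  choose F instF finF hF hmin using fun (j : Fin s) (i : Fin 2) =>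
    exists_min (hp j i) (hp j (i + 1)) (hne j i)
  let e : Fin (2 ^ s) → Fin s → Fin 2 := finFunctionFinEquiv.symm
  have hc : ∀ (a : Fin s → Fin 2) i j, i ≠ j →
      (p i (a i) * p i (a i + 1)).Coprime (p j (a j) * p j (a j + 1)) := by
    intro a i j hij
    have : ∀ u v, (p i u).Coprime (p j v) := fun u v =>
      (Nat.coprime_primes (hp _ _) (hp _ _)).2 fun h => hij (hinj _ _ _ _ h).1
    exact Nat.Coprime.mul_left ((this _ _).mul_right (this _ _)) ((this _ _).mul_right (this _ _))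
  refine ⟨fun a => ∀ j, F j (e a j), fun a => inferInstance, fun a => Fintype.ofFinite _, ?_, ?_⟩
  · rintro a b hab ⟨φ⟩
    obtain ⟨j, hj⟩ : ∃ j, e a j ≠ e b j := by
      by_contra! h
      exact hab (finFunctionFinEquiv.symm.injective (funext h))
    have hj' : e b j = e a j + 1 := by
      revert hj; generalize e a j = u; generalize e b j = v; revert u v; decide
    refine (hF j (e a j)).not_both (hp _ _) (hp _ _) (hne _ _) fun x y hx hy => ?_
    let ψ : F j (e a j) →* ∀ j, F j (e b j) :=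
      φ.toMonoidHom.comp (MonoidHom.mulSingle (fun j => F j (e a j)) j)
    have hψ : Function.Injective ψ := φ.injective.comp (Pi.mulSingle_injective (M := fun j => F j (e a j)) j)
    apply hψ
    rw [map_pow, map_mul, map_one, ← hj']
    refine mul_prod (hc (e b)) (fun j => hF j (e b j)) j _ _ ?_ ?_
    · rw [← map_pow, hj', hx, map_one]
    · rw [← map_pow, hj', hy, map_one]
  · intro a
    have hor : ∀ (c : Fin s → ℕ) j, (c j = 1 ∨ c j = p j (e a j) ∨ c j = p j (e a j + 1)) ↔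
        (c j = 1 ∨ c j = p j 0 ∨ c j = p j 1) := by
      intro c j
      generalize e a j = u
      fin_cases u
      · rfl
      · exact or_congr_right or_comm
    refine ⟨?_, fun H N _ hHN hr => ?_⟩
    · rw [range_prod (fun j => hp _ _) (fun j => hp _ _) (hc (e a)) (fun j => hF j (e a j))]
      simp only [hor]
    · have hmem : ∀ j i, ∃ x : H ⧸ N, orderOf x = p j i := by
        intro j i
        change p j i ∈ Set.range _
        rw [hr]
        refine ⟨Pi.mulSingle j (p j i), fun k => ?_, by simp⟩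
        by_cases hk : k = j
        · subst hk
          fin_cases i <;> simp
        · simp [hk]
      have := critical (fun j => hp _ _) (fun j => hp _ _) (fun j => hne _ _) (hc (e a))
        (fun j => hF j (e a j)) (fun j => hmin j (e a j)) H N (fun j => hmem _ _) (fun j => hmem _ _)
      tauto

end CL.Ord.Crit
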