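import Mathlib
import Cfsg.Agent.PLOC.PFrattini
import Cfsg.Agent.PLOC.DQS
import Cfsg.Agent.PLOC.PNormal
import Cfsg.Agent.SOLV.PGroupCyclicSCN
import Cfsg.Agent.SOLV.SectionAut

/-!
# The Frattini quotient of a `2`-group acting faithfully on an abelian group of odd order
-/

set_option autoImplicit false

namespace CL.Ord.FB
open Subgroup

universe u v

section Hom
variable {V : Type*} [Group V] {H : Type*} [Group H]

/-- Restriction of an action to an invariant subgroup. -/
def res (ρ : H →* MulAut V) (A : Subgroup V) (h : ∀ g, ∀ a ∈ A, ρ g a ∈ A) : H →* MulAut A :=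
  MonoidHom.mk' (fun g =>
    { toFun := fun a => ⟨ρ g a, h g a a.2⟩
      invFun := fun a => ⟨ρ g⁻¹ a, h _ a a.2⟩
      left_inv := fun a => Subtype.ext (by simp)
      right_inv := fun a => Subtype.ext (by simp)
      map_mul' := fun a b => Subtype.ext (by simp) }) fun a b => by ext c; simp

theorem res_apply (ρ : H →* MulAut V) (A : Subgroup V) (h : ∀ g, ∀ a ∈ A, ρ g a ∈ A) (g : H)
    (a : A) : (res ρ A h g a : V) = ρ g a := rfl

/-- The action on the quotient by an invariant normal subgroup. -/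
def quo (ρ : H →* MulAut V) (N : Subgroup V) [N.Normal] (h : ∀ g, ∀ a ∈ N, ρ g a ∈ N) :
    H →* MulAut (V ⧸ N) :=
  MonoidHom.mk' (fun g => MonoidHom.toMulEquiv (QuotientGroup.map N N (ρ g).toMonoidHom (h g))
    (QuotientGroup.map N N (ρ g⁻¹).toMonoidHom (h _)) (by ext a; simp) (by ext a; simp))
    fun a b => MulEquiv.ext fun c => QuotientGroup.induction_on c fun c => by simp

theorem quo_mk (ρ : H →* MulAut V) (N : Subgroup V) [N.Normal] (h : ∀ g, ∀ a ∈ N, ρ g a ∈ N)
    (g : H) (a : V) : quo ρ N h g (a : V ⧸ N) = (ρ g a : V) := rfl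

end Hom

theorem index_frattini_le {P : Type*} [Group P] [Finite P] {p : ℕ} [Fact p.Prime]
    (hP : IsPGroup p P) (K : Subgroup P) [K.Normal] :
    (frattini P).index ≤ (frattini (P ⧸ K)).index * (frattini K).index := by
  have h1 : (frattini (P ⧸ K)).index = (frattini P ⊔ K).index := by
    rw [← PG.frattini_map_eq_of_surjective hP (QuotientGroup.mk' K) (QuotientGroup.mk'_surjective K),
      index_map, QuotientGroup.ker_mk', MonoidHom.range_eq_top.2 (QuotientGroup.mk'_surjective K),
      index_top, mul_one]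
  have h2 : (frattini P).relIndex (frattini P ⊔ K) ≤ (frattini K).index := by
    rw [relIndex_sup_left]
    refine Nat.le_of_dvd (Nat.pos_of_ne_zero index_ne_zero_of_finite) (index_dvd_of_le ?_)
    exact map_le_iff_le_comap.1 (PG.frattini_map_le hP K.subtype)
  rw [← relIndex_mul_index (le_sup_left : frattini P ≤ frattini P ⊔ K), h1, mul_comm]
  exact Nat.mul_le_mul_left _ h2

theorem index_frattini_le_index_mul {P : Type*} [Group P] [Finite P] {p : ℕ} [Fact p.Prime]
    (hP : IsPGroup p P) (K : Subgroup P) [K.Normal] :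
    (frattini P).index ≤ K.index * (frattini K).index :=
  (index_frattini_le hP K).trans (Nat.mul_le_mul_right _
    (Nat.le_of_dvd Nat.card_pos (index_dvd_card _)))

theorem index_frattini_le_two {P : Type*} [Group P] [Finite P] (hP : IsPGroup 2 P) [IsCyclic P] :
    (frattini P).index ≤ 2 := by
  obtain ⟨g, hg⟩ := IsCyclic.exists_generator (α := P)
  have h1 : zpowers (g ^ 2) ≤ frattini P := zpowers_le.2 (PG.pow_mem_frattini hP g)
  refine (Nat.le_of_dvd (Nat.pos_of_ne_zero index_ne_zero_of_finite) (index_dvd_of_le h1)).trans ?_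
  have h2 := (zpowers (g ^ 2)).card_mul_index
  rw [Nat.card_zpowers, orderOf_pow' _ two_ne_zero, ← orderOf_eq_card_of_forall_mem_zpowers hg] at h2
  have h3 : (orderOf g).gcd 2 ∣ orderOf g := Nat.gcd_dvd_left _ _
  have h4 : (orderOf g).gcd 2 ≤ 2 := Nat.le_of_dvd two_pos (Nat.gcd_dvd_right _ _)
  obtain ⟨c, hc⟩ := h3
  have h5 : 0 < orderOf g := orderOf_pos g
  have h6 : 0 < (orderOf g).gcd 2 := Nat.gcd_pos_of_pos_right _ two_pos
  have h7 : orderOf g / (orderOf g).gcd 2 = c := Nat.div_eq_of_eq_mul_right h6 hc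
  rw [h7] at h2
  have h8 : 0 < c := Nat.pos_of_ne_zero fun h => by rw [h, mul_zero] at hc; omega
  have : (zpowers (g ^ 2)).index = (orderOf g).gcd 2 :=
    Nat.eq_of_mul_eq_mul_left h8 (by rw [h2, mul_comm, ← hc])
  omega

/-- A `2`-element acting trivially on an invariant subgroup and on its quotient acts trivially. -/
theorem eq_one_of_stable {V : Type*} [CommGroup V] [Finite V] (hV : Odd (Nat.card V))
    (α : MulAut V) {k : ℕ} (hα : α ^ 2 ^ k = 1) (W : Subgroup V) (h1 : ∀ w ∈ W, α w = w)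
    (h2 : ∀ v, v⁻¹ * α v ∈ W) : α = 1 := by
  ext v
  have key : ∀ n : ℕ, (α ^ n) v = v * (v⁻¹ * α v) ^ n := by
    intro n
    induction n with
    | zero => simp
    | succ n ih =>
      rw [pow_succ', MulAut.mul_apply, ih, map_mul, map_pow, h1 _ (h2 v), pow_succ']
      rw [← mul_assoc, mul_inv_cancel_left]
  have h3 := key (2 ^ k)
  rw [hα, MulAut.one_apply, left_eq_mul] at h3
  have h4 : orderOf (v⁻¹ * α v) = 1 :=
    Nat.eq_one_of_dvd_coprimes (Nat.Coprime.pow_left k (Nat.coprime_two_left.2 hV))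
      (orderOf_dvd_of_pow_eq_one h3) (orderOf_dvd_natCard _)
  rw [orderOf_eq_one_iff, inv_mul_eq_one] at h4
  exact h4.symm

theorem exists_split {V : Type u} [CommGroup V] [Finite V] (hV : Odd (Nat.card V)) {H : Type v}
    [Group H] (hH : IsPGroup 2 H) (φ : H →* MulAut V) (hφ : Function.Injective φ) (W : Subgroup V)
    (hW : ∀ g, ∀ w ∈ W, φ g w ∈ W) :
    ∃ (K : Subgroup H) (_ : K.Normal) (φ₁ : H ⧸ K →* MulAut W) (φ₂ : K →* MulAut (V ⧸ W)),
      Function.Injective φ₁ ∧ Function.Injective φ₂ := by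
  refine ⟨(res φ W hW).ker, inferInstance, QuotientGroup.kerLift _,
    (quo φ W hW).comp (res φ W hW).ker.subtype, QuotientGroup.kerLift_injective _,
    (injective_iff_map_eq_one _).2 fun g hg => Subtype.ext (hφ ?_)⟩
  obtain ⟨k, hk⟩ := hH g.1
  rw [OneMemClass.coe_one, map_one]
  refine eq_one_of_stable hV _ (k := k) (by rw [← map_pow, hk, map_one]) W (fun w hw => ?_)
    fun v => ?_
  · exact congrArg Subtype.val (DFunLike.congr_fun (MonoidHom.mem_ker.1 g.2) ⟨w, hw⟩)
  · exact QuotientGroup.eq.1 (DFunLike.congr_fun hg (v : V ⧸ W)).symm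

theorem card_le_two {V : Type u} [Group V] (hV : Nat.card V = 3) {H : Type v} [Group H]
    (φ : H →* MulAut V) (hφ : Function.Injective φ) : Nat.card H ≤ 2 := by
  have : Fact (Nat.Prime 3) := ⟨Nat.prime_three⟩
  have : Finite V := Nat.finite_of_card_ne_zero (by omega)
  have := isCyclic_of_prime_card hV
  have h1 : Nat.card (MulAut V) = 2 := by rw [IsCyclic.card_mulAut, hV]; decide
  exact h1 ▸ Nat.card_le_card_of_injective φ hφ

theorem nine_le {V : Type u} [Group V] [Finite V] (hV : Odd (Nat.card V)) {H : Type v} [Group H]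
    (φ : H →* MulAut V) (hφ : Function.Injective φ) (hH : ¬ IsMulCommutative H) :
    9 ≤ Nat.card V := by
  by_contra h
  have hc : IsCyclic V := by
    obtain ⟨k, hk⟩ := hV
    have : Nat.card V = 1 ∨ (Nat.card V).Prime := by
      rw [hk]
      have : k ≤ 3 := by omega
      interval_cases k <;> norm_num
    rcases this with h1 | h1
    · have := (Nat.card_eq_one_iff_unique.1 h1).1
      infer_instance
    · have := Fact.mk h1
      exact isCyclic_of_prime_card rfl
  refine hH ⟨⟨fun a b => hφ (hc.mulAutMulEquiv.injective ?_)⟩⟩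
  simp only [map_mul, mul_comm]

/-- Fixed points of an automorphism. -/
def fixS {V : Type u} [Group V] (α : MulAut V) : Subgroup V := α.toMonoidHom.eqLocus (MonoidHom.id V)

theorem mem_fixS {V : Type u} [Group V] {α : MulAut V} {v : V} : v ∈ fixS α ↔ α v = v := Iff.rfl

/-- A normal four-group in an irreducible `2`-group splits the module into two halves. -/
theorem exists_half {V : Type u} [CommGroup V] [Finite V] (hV : Odd (Nat.card V)) {P : Type v}
    [Group P] [Finite P] (hP : IsPGroup 2 P) (φ : P →* MulAut V) (hφ : Function.Injective φ)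
    (hirr : ∀ W : Subgroup V, (∀ a, ∀ w ∈ W, φ a w ∈ W) → W = ⊥ ∨ W = ⊤) (E : Subgroup P)
    [hEn : E.Normal] (hE : Cfsg.IsElementaryAbelian 2 E) (hc : Nat.card E = 2 ^ 2) :
    ∃ (H : Subgroup P) (W : Subgroup V), H.index = 2 ∧ (∀ g ∈ H, ∀ w ∈ W, φ g w ∈ W) ∧
      Nat.card (V ⧸ W) = Nat.card W := by
  have hEc : ∀ x ∈ E, ∀ y ∈ E, x * y = y * x := fun x hx y hy =>
    congrArg Subtype.val (hE.1.is_comm.comm (⟨x, hx⟩ : E) ⟨y, hy⟩)
  have hsq : ∀ x ∈ E, x * x = 1 := fun x hx => by rw [← pow_two, hE.2 x hx]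
  have hnc : ¬ E ≤ center P := fun h => by
    have := CL.isCyclic_map_of_irreducible φ (center P)
      (fun z hz a => by rw [← map_mul, ← map_mul, mem_center_iff.1 hz a]) hirr
    have : IsCyclic (center P) := isCyclic_of_surjective
      (equivMapOfInjective (center P) φ hφ).symm.toMonoidHom
      (equivMapOfInjective (center P) φ hφ).symm.surjective
    exact PCyc.not_isCyclic_of_elemAb Nat.prime_two hE (by omega)
      (isCyclic_of_injective (inclusion h) (inclusion_injective h))
  obtain ⟨a, haE, ha⟩ := SetLike.not_le_iff_exists.1 hnc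
  obtain ⟨z, hzE, hzc, hz1⟩ : ∃ z ∈ E, z ∈ center P ∧ z ≠ 1 := by
    have := hP.isNilpotent
    have hEb : E ≠ ⊥ := by rintro rfl; simp at hc
    obtain ⟨z, hz, hz1⟩ := (bot_or_exists_ne_one (E ⊓ center P)).resolve_left
      (PN.inf_center_ne_bot E hEb)
    exact ⟨z, hz.1, hz.2, hz1⟩
  have ha1 : a ≠ 1 := by rintro rfl; exact ha (one_mem _)
  have haz : a ≠ z := by rintro rfl; exact ha hzc
  have hall : ∀ x ∈ E, x = 1 ∨ x = z ∨ x = a ∨ x = a * z := by
    classical
    intro x hx
    by_contra hcon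
    push Not at hcon
    obtain ⟨x1, x2, x3, x4⟩ := hcon
    have haz1 : a * z ≠ 1 := fun h => haz (mul_right_cancel (h.trans (hsq z hzE).symm))
    have h5 : ({1, z, a, a * z, x} : Finset P).card = 5 := by
      rw [Finset.card_insert_of_notMem (by simp [hz1.symm, ha1.symm, haz1.symm, x1.symm]),
        Finset.card_insert_of_notMem (by simp [haz.symm, ha1, x2.symm]),
        Finset.card_insert_of_notMem (by simp [hz1, x3.symm]), Finset.card_pair x4.symm]
    have h6 : (({1, z, a, a * z, x} : Finset P) : Set P) ⊆ E := by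
      intro y hy
      simp only [Finset.coe_insert, Finset.coe_singleton, Set.mem_insert_iff,
        Set.mem_singleton_iff] at hy
      rcases hy with rfl | rfl | rfl | rfl | rfl
      exacts [E.one_mem, hzE, haE, E.mul_mem haE hzE, hx]
    have h7 := Set.ncard_le_ncard h6
    rw [Set.ncard_coe_finset, h5] at h7
    have h8 : (E : Set P).ncard = 2 ^ 2 := hc
    omega
  have hconj : ∀ g : P, g * a * g⁻¹ = a ∨ g * a * g⁻¹ = a * z := fun g => by
    rcases hall _ (hEn.conj_mem a haE g) with h | h | h | h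
    · exact absurd (by simpa using h) ha1
    · refine absurd ?_ haz
      rw [mul_inv_eq_iff_eq_mul, ← mem_center_iff.1 hzc g] at h
      exact mul_left_cancel h
    · exact Or.inl h
    · exact Or.inr h
  have hmem : ∀ g : P, g ∈ centralizer ({a} : Set P) ↔ g * a * g⁻¹ = a := fun g => by
    rw [mem_centralizer_singleton_iff, mul_inv_eq_iff_eq_mul]
  obtain ⟨g, hg⟩ : ∃ g : P, g * a * g⁻¹ = a * z := by
    by_contra h
    push Not at h
    exact ha (mem_center_iff.2 fun g =>
      mul_inv_eq_iff_eq_mul.1 ((hconj g).resolve_right (h g)))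
  have hne : a * z ≠ a := fun h => hz1 (mul_eq_left.1 h)
  have hinv : ∀ v, φ z v = v⁻¹ := by
    have hb : fixS (φ z) = ⊥ := (hirr _ fun b w hw => by
      rw [mem_fixS] at hw ⊢
      rw [← MulAut.mul_apply, ← map_mul, ← mem_center_iff.1 hzc b, map_mul, MulAut.mul_apply,
        hw]).resolve_right fun h => hz1 (hφ (by
          rw [map_one]
          exact MulEquiv.ext fun v => mem_fixS.1 (h ▸ mem_top v)))
    intro v
    have : v * φ z v ∈ fixS (φ z) := by
      rw [mem_fixS, map_mul, ← MulAut.mul_apply, ← map_mul, hsq z hzE, map_one, MulAut.one_apply,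
        mul_comm]
    rw [hb, mem_bot] at this
    exact eq_inv_of_mul_eq_one_right this
  refine ⟨centralizer {a}, fixS (φ a), ?_, fun b hb w hw => ?_, ?_⟩
  · refine index_eq_two_iff.2 ⟨g, fun b => ?_⟩
    rw [hmem, hmem]
    have e : b * g * a * (b * g)⁻¹ = b * a * b⁻¹ * z := by
      rw [show b * g * a * (b * g)⁻¹ = b * (g * a * g⁻¹) * b⁻¹ by group, hg, mul_assoc (b * a),
        mem_center_iff.1 hzc b⁻¹]
      group
    rw [e]
    rcases hconj b with h | h
    · exact Or.inr ⟨h, by rw [h]; exact hne⟩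
    · exact Or.inl ⟨by rw [h, mul_assoc, hsq z hzE, mul_one], by rw [h]; exact hne⟩
  · rw [mem_fixS] at hw ⊢
    rw [← MulAut.mul_apply, ← map_mul, ← mem_centralizer_singleton_iff.1 hb, map_mul,
      MulAut.mul_apply, hw]
  · have haa : ∀ v, φ a (φ a v) = v := fun v => by
      rw [← MulAut.mul_apply, ← map_mul, hsq a haE, map_one, MulAut.one_apply]
    have hW' : ∀ v, v ∈ fixS (φ (a * z)) ↔ φ a v = v⁻¹ := fun v => by
      rw [mem_fixS, map_mul, MulAut.mul_apply, hinv, map_inv, inv_eq_iff_eq_inv]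
    have e1 : Nat.card (fixS (φ (a * z))) = Nat.card (fixS (φ a)) := by
      refine Nat.card_congr ⟨fun v => ⟨φ g⁻¹ v, ?_⟩, fun v => ⟨φ g v, ?_⟩,
        fun v => Subtype.ext (by simp), fun v => Subtype.ext (by simp)⟩
      · have := mem_fixS.1 v.2
        rw [mem_fixS, ← MulAut.mul_apply, ← map_mul,
          show a * g⁻¹ = g⁻¹ * (a * z) by rw [← hg]; group, map_mul, MulAut.mul_apply, this]
      · have := mem_fixS.1 v.2
        rw [mem_fixS, ← MulAut.mul_apply, ← map_mul,
          show a * z * g = g * a by rw [← hg]; group, map_mul, MulAut.mul_apply, this]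
    rw [← e1]
    symm
    refine Nat.card_congr (Equiv.ofBijective (fun v => ((v : V) : V ⧸ fixS (φ a)))
      ⟨fun v w h => ?_, fun q => ?_⟩)
    · have h1 := mem_fixS.1 (QuotientGroup.eq.1 h)
      have h2 := (hW' _).1 (mul_mem (inv_mem v.2) w.2)
      rw [h1, eq_inv_iff_mul_eq_one, ← pow_two] at h2
      have h3 : orderOf ((v : V)⁻¹ * w) = 1 :=
        Nat.eq_one_of_dvd_coprimes (Nat.coprime_two_left.2 hV)
          (orderOf_dvd_of_pow_eq_one h2) (orderOf_dvd_natCard _)
      exact Subtype.ext (inv_mul_eq_one.1 (orderOf_eq_one_iff.1 h3))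
    · obtain ⟨v, rfl⟩ := QuotientGroup.mk_surjective q
      obtain ⟨w, rfl⟩ := (powCoprime (Nat.coprime_two_right.2 hV)).surjective v
      refine ⟨⟨w * (φ a w)⁻¹, (hW' _).2 ?_⟩, QuotientGroup.eq.2 ?_⟩
      · rw [map_mul, map_inv, haa, mul_inv, inv_inv, mul_comm]
      · rw [mem_fixS, powCoprime_apply]
        rw [show (w * (φ a w)⁻¹)⁻¹ * w ^ 2 = w * φ a w by
          rw [pow_two, mul_inv, inv_inv, mul_comm w⁻¹, mul_assoc, inv_mul_cancel_left, mul_comm],
          map_mul, haa, mul_comm]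

theorem main (n : ℕ) : ∀ (V : Type u) [CommGroup V] [Finite V], Nat.card V = n → Odd n →
    ∀ (P : Type v) [Group P] [Finite P], IsPGroup 2 P → ∀ φ : P →* MulAut V,
      Function.Injective φ →
      2 * (frattini P).index ≤ n + 1 ∧ (3 < n → 2 * (frattini P).index ≤ n) := by
  induction n using Nat.strong_induction_on with
  | _ n ih =>
  intro V _ _ hn hodd P _ _ hP φ hφ
  have hV : Odd (Nat.card V) := hn ▸ hodd
  have split : ∀ (H : Type v) [Group H] [Finite H], IsPGroup 2 H → ∀ ψ : H →* MulAut V,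
      Function.Injective ψ → ∀ W : Subgroup V, (∀ g, ∀ w ∈ W, ψ g w ∈ W) → W ≠ ⊥ → W ≠ ⊤ →
      ∃ a b x y : ℕ, a = Nat.card W ∧ b = Nat.card (V ⧸ W) ∧ a * b = n ∧ 3 ≤ a ∧ 3 ≤ b ∧
        (frattini H).index ≤ x * y ∧ (2 * x ≤ a + 1 ∧ (3 < a → 2 * x ≤ a)) ∧
        (2 * y ≤ b + 1 ∧ (3 < b → 2 * y ≤ b)) ∧ (a = 3 → b = 3 → Nat.card H ≤ 4) := by
    intro H _ _ hH ψ hψ W hW h1 h2
    obtain ⟨K, hK, φ₁, φ₂, i₁, i₂⟩ := exists_split hV hH ψ hψ W hW
    have e : Nat.card W * Nat.card (V ⧸ W) = n := hn ▸ W.card_mul_index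
    have o := Nat.odd_mul.1 (e ▸ hodd)
    have a1 : 3 ≤ Nat.card W := by
      have := (one_lt_card_iff_ne_bot W).2 h1
      obtain ⟨k, hk⟩ := o.1
      omega
    have a2 : 3 ≤ Nat.card (V ⧸ W) := by
      have : 1 < Nat.card (V ⧸ W) := one_lt_index_of_ne_top h2
      obtain ⟨k, hk⟩ := o.2
      omega
    refine ⟨_, _, _, _, rfl, rfl, e, a1, a2, index_frattini_le hH K,
      ih _ (by nlinarith) W rfl o.1 _ (hH.to_quotient K) φ₁ i₁,
      ih _ (by nlinarith) _ rfl o.2 _ (hH.to_subgroup K) φ₂ i₂, fun c1 c2 => ?_⟩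
    rw [← K.index_mul_card]
    exact Nat.mul_le_mul (card_le_two c1 φ₁ i₁) (card_le_two c2 φ₂ i₂)
  by_cases hirr : ∀ W : Subgroup V, (∀ a, ∀ w ∈ W, φ a w ∈ W) → W = ⊥ ∨ W = ⊤
  swap
  · push Not at hirr
    obtain ⟨W, hW, h1, h2⟩ := hirr
    obtain ⟨a, b, x, y, -, -, e, a1, a2, h3, ⟨h4, -⟩, ⟨h5, -⟩, -⟩ := split P hP φ hφ W hW h1 h2
    have : 2 * (frattini P).index ≤ n := by
      have : (2 * x) * (2 * y) ≤ (a + 1) * (b + 1) := Nat.mul_le_mul h4 h5
      nlinarith
    exact ⟨by omega, fun _ => this⟩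
  by_cases h1 : n = 1
  · have := (Nat.card_eq_one_iff_unique.1 (hn.trans h1)).1
    have : Subsingleton (MulAut V) := ⟨fun a b => MulEquiv.ext fun _ => Subsingleton.elim _ _⟩
    have := hφ.subsingleton
    have : (frattini P).index ≤ 1 := (Nat.le_of_dvd Nat.card_pos (index_dvd_card _)).trans
      (Finite.card_le_one_iff_subsingleton.2 inferInstance)
    omega
  have h3 : 3 ≤ n := by obtain ⟨k, hk⟩ := hodd; omega
  by_cases hcyc : IsCyclic P
  · have := index_frattini_le_two hP
    omega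
  have hna : ¬ IsMulCommutative P := fun hc => hcyc (by
    have := CL.isCyclic_map_of_irreducible φ ⊤
      (fun z _ a => by rw [← map_mul, ← map_mul, hc.is_comm.comm]) hirr
    exact isCyclic_of_surjective (topEquiv.toMonoidHom.comp
      (equivMapOfInjective ⊤ φ hφ).symm.toMonoidHom)
      (topEquiv.surjective.comp (equivMapOfInjective ⊤ φ hφ).symm.surjective))
  have h9 := hn ▸ nine_le hV φ hφ hna
  rcases PCyc.isCyclic_or_normal_elemAb_or_isDQS hP with h | ⟨E, hEn, hE, hc⟩ | ⟨-, m, a, b, h⟩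
  · exact absurd h hcyc
  · obtain ⟨H, W, hH, hW, hWc⟩ := exists_half hV hP φ hφ hirr E hE hc
    have := normal_of_index_eq_two hH
    have e : Nat.card W * Nat.card (V ⧸ W) = n := hn ▸ W.card_mul_index
    obtain ⟨a, b, x, y, ha, hb, e, a1, a2, h3, ⟨-, h4⟩, ⟨-, h5⟩, h6⟩ :=
      split H (hP.to_subgroup H) (φ.comp H.subtype) (hφ.comp Subtype.val_injective) W
        (fun g => hW g g.2)
        (by rintro rfl; rw [hWc, card_bot] at e; omega)
        (by rintro rfl; rw [← hWc, ← index, index_top] at e; omega)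
    have hab : b = a := by rw [ha, hb, hWc]
    have : 2 * (frattini P).index ≤ n := by
      by_cases a3 : a = 3
      · have c1 := h6 a3 (hab.trans a3)
        have c2 := H.index_mul_card
        have c3 := (frattini P).index_mul_card
        have c4 : 1 < Nat.card (frattini P) := (one_lt_card_iff_ne_bot _).2 fun h =>
          hna ((PG.frattini_eq_bot_iff hP).1 h).1
        nlinarith
      · have c1 := index_frattini_le_index_mul hP H
        have : (2 * x) * (2 * y) ≤ a * b := Nat.mul_le_mul (h4 (by omega)) (h5 (by omega))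
        rw [hH] at c1
        nlinarith
    exact ⟨by omega, fun _ => this⟩
  · have : (frattini P).index ≤ 4 := h.index_zpowers_sq ▸
      Nat.le_of_dvd (Nat.pos_of_ne_zero index_ne_zero_of_finite)
        (index_dvd_of_le (h.commutator_eq ▸ PG.commutator_le_frattini hP))
    omega

end CL.Ord.FB
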