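import Mathlib
import Cfsg.Agent.ORD.Gagola
import Cfsg.Agent.PERM.Huppert
import Cfsg.Agent.PERM.SharpThree
import Cfsg.Agent.PLOC.NPC
import Cfsg.Agent.PERM.GammaL1

/-! Solvable Gagola groups: `G/O_p(G)` has a normal `p`-complement and abelian Sylow
`p`-subgroups. -/

set_option autoImplicit false
open Cfsg CL.Char CL.RegLin
open scoped commutatorElement

namespace CL.Gag

theorem nilpotent_of_isMulCommutative (X : Type*) [Group X] [h : IsMulCommutative X] :
    Group.IsNilpotent X := by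
  let _ : CommGroup X := { (inferInstance : Group X) with mul_comm := h.is_comm.comm }
  exact CommGroup.isNilpotent

/-- An action on an elementary abelian group as a linear representation. -/
def autEnd (p : ℕ) [Fact p.Prime] {H W : Type*} [Group H] [CommGroup W]
    [Module (ZMod p) (Additive W)] (ρ : H →* MulAut W) : H →* Module.End (ZMod p) (Additive W) where
  toFun g :=
    { toFun := fun w => Additive.ofMul (ρ g w.toMul)
      map_add' := fun a b => congrArg Additive.ofMul (map_mul (ρ g) a.toMul b.toMul)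
      map_smul' := ZMod.map_smul (MonoidHom.toAdditive (ρ g).toMonoidHom) }
  map_one' := LinearMap.ext fun w => by
    change Additive.ofMul (ρ 1 w.toMul) = w
    rw [map_one]; rfl
  map_mul' a b := LinearMap.ext fun w => by
    change Additive.ofMul (ρ (a * b) w.toMul) = _
    rw [map_mul]; rfl

theorem npc_of_commutator_le {H : Type*} [Group H] [Finite H] {p : ℕ} [Fact p.Prime]
    (K : Subgroup H) [K.Normal] (hK : (Nat.card K).Coprime p) (hc : commutator H ≤ K) :
    HasNormalPComplement p H ∧ ∀ Q : Sylow p H, IsMulCommutative (Q : Subgroup H) := by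
  constructor
  · have : IsMulCommutative (H ⧸ K) := Subgroup.Normal.quotient_commutative_iff_commutator_le.mpr hc
    have := nilpotent_of_isMulCommutative (H ⧸ K)
    exact hasNPC_of_quotient_coprime K hK hasNPC_of_isNilpotent
  · intro Q
    refine ⟨⟨fun a b => Subtype.ext ?_⟩⟩
    have h1 : ⁅(a : H), (b : H)⁆ ∈ K := hc (Subgroup.commutator_mem_commutator trivial trivial)
    have h2 : ⁅(a : H), (b : H)⁆ ∈ (Q : Subgroup H) := by
      rw [commutatorElement_def]
      exact Subgroup.mul_mem _ (Subgroup.mul_mem _ (Subgroup.mul_mem _ a.2 b.2)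
        (Subgroup.inv_mem _ a.2)) (Subgroup.inv_mem _ b.2)
    obtain ⟨k, hk⟩ := Q.isPGroup'.exists_card_eq
    have h3 : K ⊓ (Q : Subgroup H) = ⊥ :=
      (Subgroup.disjoint_of_coprime_natCard (hk ▸ hK.pow_right k)).eq_bot
    have : ⁅(a : H), (b : H)⁆ = 1 := Subgroup.mem_bot.mp (h3 ▸ ⟨h1, h2⟩)
    exact commutatorElement_eq_one_iff_mul_comm.mp this

theorem coprime_of_nilpotent_normal {H : Type*} [Group H] [Finite H] {p : ℕ} [hp : Fact p.Prime]
    (h : pCore p H = ⊥) {K : Subgroup H} (hK : K ≤ fittingSubgroup H) :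
    (Nat.card K).Coprime p := by
  rw [Nat.coprime_comm, hp.out.coprime_iff_not_dvd]
  intro hd
  obtain ⟨x, hx⟩ := exists_prime_orderOf_dvd_card' p hd
  have h1 : Subgroup.zpowers (x : H) ≤ pCore p H :=
    le_pCore_of_le_fittingSubgroup ((Subgroup.zpowers_le.mpr x.2).trans hK)
      (IsPGroup.of_card (n := 1) (by rw [Nat.card_zpowers, Subgroup.orderOf_coe, hx, pow_one]))
  rw [h, le_bot_iff, Subgroup.zpowers_eq_bot] at h1
  rw [← Subgroup.orderOf_coe, h1, orderOf_one] at hx
  exact hp.out.one_lt.ne hx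

theorem dvd_sub_one_of_aut_cyclic {R : Type*} [Group R] [Finite R] [IsCyclic R] {r p : ℕ}
    [hr : Fact r.Prime] (hR : IsPGroup r R) (hp : p.Prime) (hpr : p ≠ r) {α : MulAut R}
    (hα : orderOf α = p) : p ∣ r - 1 := by
  obtain ⟨k, hk⟩ := hR.exists_card_eq
  have h1 := orderOf_dvd_natCard α
  rw [IsCyclic.card_mulAut, hk, hα] at h1
  rcases k with _ | k
  · simp only [pow_zero, Nat.totient_one, Nat.dvd_one] at h1
    exact absurd h1 hp.one_lt.ne'
  · rw [Nat.totient_prime_pow_succ hr.out] at h1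
    rcases (hp.dvd_mul).mp h1 with h | h
    · exact absurd ((Nat.prime_dvd_prime_iff_eq hp hr.out).mp (hp.dvd_of_dvd_pow h)) hpr
    · exact h

universe u

theorem lin_npc {p : ℕ} [hp : Fact p.Prime] {V : Type u} [AddCommGroup V] [Module (ZMod p) V]
    [Finite V] [Nontrivial V] {H : Type*} [Group H] [Finite H] [Group.IsSolvable H]
    (ρ : H →* Module.End (ZMod p) V) (hρ : Function.Injective ρ) (hT : Trans ρ)
    (hO : pCore p H = ⊥) (hS : ∀ g v, v ≠ 0 → ρ g v = v → ∃ k, g ^ p ^ k = 1) {a : ℕ}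
    (hcard : Nat.card H ∣ (Nat.card V - 1) * p ^ a) :
    HasNormalPComplement p H ∧ ∀ Q : Sylow p H, IsMulCommutative (Q : Subgroup H) := by
  rcases huppert hρ hT with ⟨A, hA, hAc, hirr⟩ | hV
  · have hc : ∀ a ∈ Subgroup.centralizer (A : Set H), ∀ b ∈ Subgroup.centralizer (A : Set H),
        a * b = b * a := fun a ha b hb => hρ (by rw [map_mul, map_mul]; exact comm_of_irr hirr ha hb)
    have hcm : IsMulCommutative (Subgroup.centralizer (A : Set H)) :=
      ⟨⟨fun a b => Subtype.ext (hc _ a.2 _ b.2)⟩⟩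
    refine npc_of_commutator_le (Subgroup.centralizer (A : Set H))
      (coprime_of_nilpotent_normal hO (le_fittingSubgroup (nilpotent_of_isMulCommutative _))) ?_
    obtain ⟨-, -, C, _, ψ, hC, -, hψ, -⟩ := CL.GammaL1.exists_structure ρ A (fun m hm n hn => by
      rw [← map_mul, ← map_mul, Subgroup.le_centralizer A hn m hm]) hirr
    refine le_trans ?_ (show ψ.ker ≤ _ from fun h hh m hm => hρ (by
      rw [map_mul, map_mul]; exact (hψ h hh m hm).symm))
    rw [commutator_def, Subgroup.commutator_le]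
    intro a _ b _
    rw [MonoidHom.mem_ker, map_commutatorElement, commutatorElement_eq_one_iff_mul_comm]
    exact IsCyclic.isMulCommutative.is_comm.comm _ _
  by_cases hd : p ∣ Nat.card H
  swap
  · exact npc_of_commutator_le ⊤ (by
      rw [Subgroup.card_top, Nat.coprime_comm, hp.out.coprime_iff_not_dvd]; exact hd) le_top
  obtain ⟨x, hx⟩ := exists_prime_orderOf_dvd_card' p hd
  have hF := coprime_of_nilpotent_normal hO (le_refl (fittingSubgroup H))
  have hxF : x ∉ fittingSubgroup H := fun h => by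
    have := Subgroup.orderOf_dvd_natCard _ h
    rw [hx] at this
    exact hp.out.one_lt.ne' (Nat.Coprime.eq_one_of_dvd hF.symm this)
  have hfree : Free (ρ.comp (fittingSubgroup H).subtype) := by
    intro g hg v hv
    by_contra h0
    obtain ⟨k, hk⟩ := hS g v h0 hv
    have h1 : orderOf g ∣ p ^ k := orderOf_dvd_of_pow_eq_one (Subtype.ext hk)
    exact hg (orderOf_eq_one_iff.mp (Nat.Coprime.eq_one_of_dvd
      ((hF.coprime_dvd_left (orderOf_dvd_natCard g)).pow_right k) h1))
  have hfpf := isFPF hfree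
  have hex : ∃ r : Nat.Primes, x ∉ Subgroup.centralizer (pCore (r : ℕ) H : Set H) := by
    by_contra hc
    push Not at hc
    apply hxF
    apply centralizer_fittingSubgroup_le H
    have : fittingSubgroup H ≤ Subgroup.centralizer {x} := by
      rw [fittingSubgroup_eq_iSup_pCore]
      exact iSup_le fun r y hy => Subgroup.mem_centralizer_singleton_iff.mpr (hc r y hy)
    exact fun y hy => Subgroup.mem_centralizer_singleton_iff.mp (this hy)
  obtain ⟨⟨r, hr⟩, hxr⟩ := hex
  have := Fact.mk hr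
  obtain ⟨R, hR⟩ : ∃ R, R = pCore r H := ⟨_, rfl⟩
  change x ∉ Subgroup.centralizer (pCore r H : Set H) at hxr
  rw [← hR] at hxr
  have hRn : R.Normal := by rw [hR]; infer_instance
  have hRp : IsPGroup r R := hR ▸ isPGroup_pCore r H
  have hRF : R ≤ fittingSubgroup H := hR ▸ pCore_le_fittingSubgroup r
  have hR0 : R ≠ ⊥ := by
    rintro rfl
    exact hxr (by simp [Subgroup.mem_centralizer_iff])
  have hrR : r ∣ Nat.card R := by
    obtain ⟨k, hk⟩ := hRp.exists_card_eq
    rcases k with _ | k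
    · exact absurd (Subgroup.card_eq_one.mp hk) hR0
    · rw [hk]; exact dvd_pow_self _ k.succ_ne_zero
  have hpr : p ≠ r := by
    rintro rfl
    exact hR0 (hR.trans hO)
  have hrV : r ∣ Nat.card V - 1 := by
    rcases hr.dvd_mul.mp ((hrR.trans R.card_subgroup_dvd_card).trans hcard) with h | h
    · exact h
    · exact absurd ((Nat.prime_dvd_prime_iff_eq hr hp.out).mp (hr.dvd_of_dvd_pow h)).symm hpr
  have hRfpf : CL.FC.IsFPF R := hfpf.of_injective (Subgroup.inclusion hRF)
    (Subgroup.inclusion_injective hRF)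
  have hker := CL.FC.ker_conjNormal R
  have hα : orderOf (MulAut.conjNormal x : MulAut R) = p := by
    have h1 : orderOf (MulAut.conjNormal x : MulAut R) ∣ p := hx ▸ orderOf_map_dvd _ _
    rcases (Nat.dvd_prime hp.out).mp h1 with h | h
    · exact absurd (hker ▸ (orderOf_eq_one_iff.mp h : x ∈ (MulAut.conjNormal : H →* MulAut R).ker))
        hxr
    · exact h
  have hpV : p ∣ Nat.card V := by
    rw [card_V (p := p)]
    exact dvd_pow_self _ Module.finrank_pos.ne'
  have hpe : ∀ {q n : ℕ}, q.Prime → Nat.card V = q ^ n → p = q := fun hq h =>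
    (Nat.prime_dvd_prime_iff_eq hp.out hq).mp (hp.out.dvd_of_dvd_pow (h ▸ hpV))
  have hcases : (p = 3 ∧ Nat.card V = 9) ∨ (p = 5 ∧ Nat.card V = 25) ∨ (p = 7 ∧ Nat.card V = 49) ∨
      (p = 11 ∧ Nat.card V = 121) ∨ (p = 23 ∧ Nat.card V = 529) ∨ (p = 3 ∧ Nat.card V = 81) := by
    simp only [Set.mem_insert_iff, Set.mem_singleton_iff] at hV
    rcases hV with h | h | h | h | h | h
    · exact Or.inl ⟨hpe (n := 2) (by norm_num) h, h⟩
    · exact Or.inr <| Or.inl ⟨hpe (n := 2) (by norm_num) h, h⟩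
    · exact Or.inr <| Or.inr <| Or.inl ⟨hpe (n := 2) (by norm_num) h, h⟩
    · exact Or.inr <| Or.inr <| Or.inr <| Or.inl ⟨hpe (n := 2) (by norm_num) h, h⟩
    · exact Or.inr <| Or.inr <| Or.inr <| Or.inr <| Or.inl ⟨hpe (n := 2) (by norm_num) h, h⟩
    · exact Or.inr <| Or.inr <| Or.inr <| Or.inr <| Or.inr ⟨hpe (n := 4) (by norm_num) h, h⟩
  rcases CL.Zass.isCyclic_or_quaternion_of_comm_cyclic hRp hRfpf.hcyc with hc | ⟨hr2, n, ⟨e⟩⟩
  · exfalso
    have h1 := dvd_sub_one_of_aut_cyclic hRp hp.out hpr hα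
    have h2 := hr.two_le
    have h3 : r ≤ Nat.card V - 1 := Nat.le_of_dvd (by
      have := Finite.one_lt_card (α := V); omega) hrV
    obtain ⟨m, hm⟩ := h1
    have h4 : r = p * m + 1 := by omega
    rcases hcases with ⟨h5, h6⟩ | ⟨h5, h6⟩ | ⟨h5, h6⟩ | ⟨h5, h6⟩ | ⟨h5, h6⟩ | ⟨h5, h6⟩ <;>
    · rw [h6] at hrV h3
      rw [h5] at h4
      have h7 : m ≤ 30 := by omega
      subst h4
      interval_cases m <;> first | (revert hr; norm_num; done) | (revert hrV; norm_num)
  subst hr2
  have hn : n = 1 := by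
    by_contra hn
    obtain ⟨k, hk⟩ := CL.OddAut.isPGroup_mulAut_of_equiv e (CL.Zass.isPGroup_mulAut_quaternion hn)
      (MulAut.conjNormal x)
    have := orderOf_dvd_of_pow_eq_one hk
    rw [hα] at this
    exact hpr ((Nat.prime_dvd_prime_iff_eq hp.out Nat.prime_two).mp (hp.out.dvd_of_dvd_pow this))
  subst hn
  have h24 := CL.Zass.card_mulAut_of_quaternion (Q := R) e
  have hR8 : Nat.card R = 8 := by
    rw [Nat.card_congr e.toEquiv, Nat.card_eq_fintype_card, QuaternionGroup.card]; norm_num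
  have hp24 : p ∣ 24 := h24 ▸ hα ▸ orderOf_dvd_natCard _
  have hidx : (Subgroup.centralizer (R : Set H)).index ∣ 24 := by
    rw [← hker, Subgroup.index_ker, ← h24]
    exact Subgroup.card_subgroup_dvd_card _
  rcases hcases with ⟨h5, h6⟩ | ⟨h5, h6⟩ | ⟨h5, h6⟩ | ⟨h5, h6⟩ | ⟨h5, h6⟩ | ⟨h5, h6⟩
  · -- `|V| = 9`
    subst h5
    rw [h6] at hcard
    have h7 : Nat.card (fittingSubgroup H) ∣ 8 :=
      (hF.pow_right a).dvd_of_dvd_mul_right ((Subgroup.card_subgroup_dvd_card _).trans hcard)
    have h8 : R = fittingSubgroup H :=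
      Subgroup.eq_of_le_of_card_ge hRF (hR8 ▸ Nat.le_of_dvd (by norm_num) h7)
    have h9 : Subgroup.centralizer (R : Set H) ≤ R := h8 ▸ centralizer_fittingSubgroup_le H
    have h10 : R.index ∣ 24 := (Subgroup.index_dvd_of_le h9).trans hidx
    have h11 : R.index ∣ 3 ^ a := by
      rw [← R.card_mul_index, hR8] at hcard
      exact Nat.dvd_of_mul_dvd_mul_left (by norm_num) hcard
    have h12 : R.index ∣ 3 := by
      have : (R.index).Coprime 8 := Nat.Coprime.coprime_dvd_left h11
        (Nat.Coprime.pow_left a (by norm_num))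
      exact this.dvd_of_dvd_mul_right (show R.index ∣ 3 * 8 from h10)
    have : IsCyclic (H ⧸ R) := isCyclic_of_card_dvd_prime (p := 3) h12
    exact npc_of_commutator_le R (by rw [hR8]; norm_num)
      (Subgroup.Normal.quotient_commutative_iff_commutator_le.mp inferInstance)
  · subst h5; norm_num at hp24
  · subst h5; norm_num at hp24
  · subst h5; norm_num at hp24
  · subst h5; norm_num at hp24
  · -- `|V| = 81`
    exfalso
    subst h5
    have h7 := card_sub_one_dvd hT
    rw [h6, ← (Subgroup.centralizer (R : Set H)).card_mul_index] at h7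
    have h8 : 5 ∣ Nat.card (Subgroup.centralizer (R : Set H)) := by
      rcases (Nat.Prime.dvd_mul (by norm_num)).mp ((show 5 ∣ 81 - 1 by norm_num).trans h7) with h | h
      · exact h
      · have := h.trans hidx
        norm_num at this
    have := Fact.mk (show Nat.Prime 5 by norm_num)
    obtain ⟨y, hy⟩ := exists_prime_orderOf_dvd_card' 5 h8
    have hfr : Module.finrank (ZMod 3) V = 4 := by
      have := card_V (p := 3) (V := V)
      rw [h6] at this
      exact (Nat.pow_right_injective (by norm_num : 2 ≤ 3) (show 3 ^ 4 = _ from this)).symm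
    have hirr : Irr ρ (Subgroup.zpowers (y : H)) := by
      intro W hW
      refine CL.Hup.irr_of_primitive (r := 5) (f := ρ y) ?_ ?_ ?_ ?_ W
        fun w hw => hW _ (Subgroup.mem_zpowers _) w hw
      · rw [← map_pow, ← Subgroup.coe_pow, ← hy, pow_orderOf_eq_one, Subgroup.coe_one, map_one]
      · intro h
        have : y = 1 := Subtype.ext (hρ (h.trans (map_one ρ).symm))
        rw [this, orderOf_one] at hy
        norm_num at hy
      · intro i h0 hi
        rw [hfr] at hi
        rw [Nat.card_zmod]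
        interval_cases i <;> norm_num
      · rw [Nat.card_zmod]; norm_num
    have hcen : ∀ z ∈ R, z ∈ Subgroup.centralizer (Subgroup.zpowers (y : H) : Set H) := by
      rintro z hz _ ⟨k, rfl⟩
      exact (Commute.zpow_left (show Commute (y : H) z from (y.2 z hz).symm) k).eq
    obtain ⟨s, hs, t, ht, -, -, hst⟩ := CL.FC.exists_pair_of_equiv (n := 0) e
    exact hst (hρ (by rw [map_mul, map_mul]; exact comm_of_irr hirr (hcen s hs) (hcen t ht)))

theorem aut_npc {p : ℕ} [hp : Fact p.Prime] {W : Type u} [CommGroup W] [Finite W] [Nontrivial W]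
    (hexp : ∀ w : W, w ^ p = 1) {H : Type*} [Group H] [Finite H] [Group.IsSolvable H]
    (τ : H →* MulAut W) (hτ : Function.Injective τ)
    (hT : ∀ v w : W, v ≠ 1 → w ≠ 1 → ∃ g, τ g v = w)
    (hO : pCore p H = ⊥) (hS : ∀ g v, v ≠ 1 → τ g v = v → ∃ k, g ^ p ^ k = 1) {a : ℕ}
    (hcard : Nat.card H ∣ (Nat.card W - 1) * p ^ a) :
    HasNormalPComplement p H ∧ ∀ Q : Sylow p H, IsMulCommutative (Q : Subgroup H) := by
  have _ : Module (ZMod p) (Additive W) := AddCommGroup.zmodModule fun w => by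
    rw [← ofMul_toMul w, ← ofMul_pow, hexp, ofMul_one]
  refine lin_npc (autEnd p τ) ?_ ?_ hO ?_ (a := a) hcard
  · intro g g' hg
    exact hτ (MulEquiv.ext fun w => congrArg
      (fun f : Module.End (ZMod p) (Additive W) => (f (Additive.ofMul w)).toMul) hg)
  · intro v w hv hw
    obtain ⟨g, hg⟩ := hT v.toMul w.toMul hv hw
    exact ⟨g, congrArg Additive.ofMul hg⟩
  · intro g v hv hg
    exact hS g v.toMul hv (congrArg Additive.toMul hg)

theorem IsGagola.npc_quotient {G : Type*} [Group G] [Finite G] [Group.IsSolvable G] {χ : G → ℂ}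
    {N : Subgroup G} [hNn : N.Normal] {p : ℕ} [hp : Fact p.Prime] (h : IsGagola χ N)
    (hN : IsPGroup p N) : HasNormalPComplement p (G ⧸ pCore p G) ∧
      ∀ Q : Sylow p (G ⧸ pCore p G), IsMulCommutative (Q : Subgroup (G ⧸ pCore p G)) := by
  obtain ⟨hc, hexp⟩ := h.isMinNormal.isElementaryAbelian_of_isPGroup hN
  have hker : (MulAut.conjNormal : G →* MulAut N).ker = pCore p G := by
    rw [CL.FC.ker_conjNormal, h.centralizer_eq_pCore hN]
  let τ : G ⧸ pCore p G →* MulAut N := QuotientGroup.lift _ MulAut.conjNormal hker.ge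
  have hτv : ∀ (g : G) (w : N), (τ g w : G) = g * w * g⁻¹ := fun _ _ => rfl
  have hτ : Function.Injective τ := by
    rw [injective_iff_map_eq_one]
    intro g hg
    obtain ⟨g, rfl⟩ := QuotientGroup.mk_surjective g
    rw [QuotientGroup.eq_one_iff, ← hker]
    exact hg
  have hne : ∀ w : N, w ≠ 1 → (w : G) ≠ 1 := fun w hw e => hw (Subtype.ext e)
  have : Nontrivial N := (Subgroup.nontrivial_iff_ne_bot _).mpr h.ne_bot
  obtain ⟨x, hx, hx1⟩ := h.exists_ne_one
  obtain ⟨a, ha⟩ := (h.isPGroup_centralizer hN hx hx1).exists_card_eq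
  have hT : ∀ v w : N, v ≠ 1 → w ≠ 1 → ∃ g, τ g v = w := by
    intro v w hv hw
    obtain ⟨c, hc⟩ := isConj_iff.mp (h.isConj _ v.2 _ w.2 (hne v hv) (hne w hw))
    exact ⟨c, Subtype.ext ((hτv c v).trans hc)⟩
  have hS : ∀ g v, v ≠ 1 → τ g v = v → ∃ k, g ^ p ^ k = 1 := by
    intro g v hv hg
    obtain ⟨g, rfl⟩ := QuotientGroup.mk_surjective g
    have h1 := hτv g v
    rw [hg] at h1
    obtain ⟨k, hk⟩ := h.isPGroup_centralizer hN v.2 (hne v hv)
      ⟨g, Subgroup.mem_centralizer_singleton_iff.mpr (mul_inv_eq_iff_eq_mul.mp h1.symm)⟩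
    refine ⟨k, ?_⟩
    rw [← QuotientGroup.mk_pow, show g ^ p ^ k = 1 from congrArg Subtype.val hk,
      QuotientGroup.mk_one]
  have hcard : Nat.card (G ⧸ pCore p G) ∣ (Nat.card N - 1) * p ^ a := by
    refine (Subgroup.card_quotient_dvd_card _).trans ?_
    have h1 := h.index_centralizer hx hx1
    rw [← ha, ← h1, Nat.add_sub_cancel, mul_comm, Subgroup.card_mul_index]
  have hexp' : ∀ w : N, w ^ p = 1 := fun w => Subtype.ext (hexp _ w.2)
  exact @aut_npc p hp N { (inferInstance : Group N) with mul_comm := hc.is_comm.comm } _ _ hexp'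
    _ _ _ _ τ hτ hT (pCore_quotient_pCore p G) hS a hcard

end CL.Gag
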