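import Mathlib
import Cfsg.Agent.CHAR.FS
import Cfsg.Agent.CHAR.Galois
import Cfsg.Agent.CHAR.CliffordCorr
import Cfsg.Agent.CHAR.Constit
import Cfsg.Agent.CHAR.Faithful
import Cfsg.Agent.SOLV.Fitting

/-! Isaacs: if `χ` is faithful and `χ χ^σ` is irreducible then `F(G) = Z(G)`. -/

set_option autoImplicit false
open Cfsg CL.Char
open scoped ComplexConjugate commutatorElement

namespace CL.Ord

variable {G : Type*} [Group G]

theorem inner_self_le_one_of_sub [Fintype G] {A B Ψ : G → ℂ} (hB : IsCharacter G B)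
    (hA : IsCharacter G A) (hΨ : IsCharacter G Ψ) (h1 : IsCharacter G (A - Ψ))
    (h2 : IsCharacter G (B - Ψ)) (h : classInner A B = 1) {m : ℕ} (hm : classInner Ψ Ψ = m) :
    m ≤ 1 := by
  obtain ⟨a, ha⟩ := hA.exists_nat_inner hΨ
  have e1 : m ≤ a := inner_le_of_sub h1 hΨ ha hm
  have e2 : a ≤ 1 := inner_le_of_sub h2 hA (m := 1) (by rw [hB.inner_comm hA, h]; simp)
    (by rw [hΨ.inner_comm hA, ha])
  omega

theorem apply_one_eq_one_of_sub [Fintype G] {A B Ψ : G → ℂ} (hB : IsCharacter G B)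
    (hA : IsCharacter G A) (hΨ : IsCharacter G Ψ) (h1 : IsCharacter G (A - Ψ))
    (h2 : IsCharacter G (B - Ψ)) (h : classInner A B = 1) (hA1 : classInner A 1 ≠ 0)
    (hB1 : classInner B 1 ≠ 0) (h0 : Ψ ≠ 0) : Ψ 1 = 1 := by
  obtain ⟨m, hm0, hm⟩ := hΨ.exists_pos_inner_self h0
  have hm1 := inner_self_le_one_of_sub hB hA hΨ h1 h2 h hm
  have hm' : m = 1 := by omega
  have hirr : IsIrrCharacter G Ψ := hΨ.isIrr_of_inner_self (by rw [hm, hm']; simp)
  by_cases e : Ψ = 1
  · rw [e]; rfl
  exfalso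
  have key : ∀ {C : G → ℂ}, IsCharacter G C → IsCharacter G (C - Ψ) → classInner C Ψ ≠ 0 := by
    intro C hC hC'
    obtain ⟨a, ha⟩ := hC.exists_nat_inner hΨ
    have := inner_le_of_sub hC' hΨ ha hm
    rw [ha]
    exact Nat.cast_ne_zero.mpr (by omega)
  have := inner_self_le_one_of_sub hB hA (hΨ.add isIrrCharacter_one'.isCharacter)
    (hA.sub_irr_sub_irr hirr isIrrCharacter_one' e (key hA h1) hA1)
    (hB.sub_irr_sub_irr hirr isIrrCharacter_one' e (key hB h2) hB1) h (m := 2) (by
      rw [classInner_add_left, classInner_add_right, classInner_add_right, hirr.inner_self,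
        classInner_one_one, hirr.inner_of_ne isIrrCharacter_one' e,
        isIrrCharacter_one'.inner_of_ne hirr (Ne.symm e)]
      norm_num)
  omega

theorem inner_normSq_one [Fintype G] {χ : G → ℂ} (hχ : IsIrrCharacter G χ) :
    classInner (fun g => χ g * conj (χ g)) 1 = 1 := by
  rw [← hχ.inner_self, classInner_def, classInner_def]
  simp

/-- `χ χ̄` contains the permutation character `1_T^G` when `χ` is induced from `T`. -/
theorem isCharacter_normSq_sub_ind [Fintype G] {T : Subgroup G} {ψ : T → ℂ}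
    (hψ : IsIrrCharacter T ψ) (hχ : IsIrrCharacter G (indFun T ψ)) :
    IsCharacter G ((fun g => indFun T ψ g * conj (indFun T ψ g)) - indFun T 1) := by
  classical
  have := Fintype.ofFinite T
  have h1 : IsCharacter T ((fun t : T => indFun T ψ t) - ψ) := by
    apply (hχ.isCharacter.res T).sub_irr hψ
    rw [← inner_ind_eq_inner_res hψ.isCharacter hχ.isCharacter, hχ.inner_self]
    exact one_ne_zero
  have h2 : IsCharacter T ((fun t => ψ t * conj (ψ t)) - 1) := by
    apply (hψ.isCharacter.mul hψ.isCharacter.conj).sub_irr isIrrCharacter_one'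
    have := inner_normSq_one hψ
    erw [this]
    exact one_ne_zero
  have h3 := ((h1.conj.mul hψ.isCharacter).add h2).ind
  have e := indFun_res_mul T ψ hχ.isClassFunction.conj
  convert h3 using 1
  have e2 : (fun g => indFun T ψ g * conj (indFun T ψ g)) =
      indFun T (fun h : T => conj (indFun T ψ h) * ψ h) := by
    rw [e]; funext g; simp [mul_comm]
  rw [e2, ← indFun_sub]
  congr 1
  funext t
  simp only [Pi.sub_apply, Pi.add_apply, Pi.mul_apply, map_sub, Pi.one_apply]
  ring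

theorem isCharacter_sub_trace_mul_proj {V : Type*} [AddCommGroup V] [Module ℂ V]
    [FiniteDimensional ℂ V] (ρ : Representation ℂ G V) (p : V →ₗ[ℂ] V) (hp : p * p = p)
    (hc : ∀ g, p * ρ g = ρ g * p) :
    IsCharacter G (fun g => ρ.character g - LinearMap.trace ℂ V (ρ g * p)) := by
  have := isCharacter_trace_mul_proj ρ (1 - p)
    (by rw [mul_sub, sub_mul, sub_mul, hp]; simp) (fun g => by
      rw [mul_sub, sub_mul, hc]; simp)
  convert this using 2 with g
  rw [mul_sub, map_sub, mul_one]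
  rfl

/-- The span of `ρ(E)` in `End V`: its character. -/
theorem isCharacter_conjSpan [Fintype G] {χ : G → ℂ} (hχ : IsIrrCharacter G χ) (E : Subgroup G)
    [hE : E.Normal] [Fintype E] (hZ : Subgroup.center G ≤ E)
    (hv : ∀ e ∈ E, e ∉ Subgroup.center G → χ e = 0) :
    IsCharacter G (fun g => ((Nat.card (Subgroup.center G) : ℂ) * χ 1)⁻¹ *
      ∑ e : E, χ (g * e * g⁻¹ * (e : G)⁻¹)) ∧
    IsCharacter G ((fun g => χ g * conj (χ g)) - fun g =>
      ((Nat.card (Subgroup.center G) : ℂ) * χ 1)⁻¹ * ∑ e : E, χ (g * e * g⁻¹ * (e : G)⁻¹)) := by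
  classical
  have h1 := hχ.one_ne_zero
  have hZc := hχ.center_le_charCenter
  have hcf := hχ.isClassFunction
  have hinv := hχ.apply_inv
  have hnorm := fun z hz => hχ.norm_of_mem_center (z := z) hz
  have hdeg := hχ.apply_one_eq_charDegree
  obtain ⟨n, ρ, -, rfl⟩ := hχ
  obtain ⟨c, hc⟩ : ∃ c : ℂ, c = ((Nat.card (Subgroup.center G) : ℂ) * ρ.character 1)⁻¹ := ⟨_, rfl⟩
  rw [← hc]
  have htr : ∀ g, LinearMap.trace ℂ _ (ρ g) = ρ.character g := fun _ => rfl
  let τ := Representation.linHom ρ ρ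
  have hτ : ∀ g X, τ g X = ρ g * X * ρ g⁻¹ := fun g X => rfl
  let P : Module.End ℂ (Module.End ℂ (Fin n → ℂ)) := c • ∑ e : E,
    ((LinearMap.trace ℂ _).comp (LinearMap.mulRight ℂ (ρ (e : G)⁻¹))).smulRight (ρ e)
  have hP : ∀ X, P X = c • ∑ e : E, LinearMap.trace ℂ _ (X * ρ (e : G)⁻¹) • ρ e := by
    intro X
    simp [P, LinearMap.sum_apply]
  have hone : c • ∑ e : E, ρ.character (e : G)⁻¹ • ρ e = 1 := by
    have h2 : ∀ e : E, ρ.character (e : G)⁻¹ • ρ e =
        if (e : G) ∈ Subgroup.center G then ρ.character 1 • (1 : Module.End ℂ (Fin n → ℂ))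
        else 0 := by
      intro e
      split_ifs with he
      · obtain ⟨a, ha⟩ := (mem_charCenter_character ρ).mp (hZc he)
        have ha' : ρ.character e = a * ρ.character 1 := by
          rw [← htr, ha, ← htr, map_one, map_smul, smul_eq_mul]
        have hn : ρ.character (e : G)⁻¹ * ρ.character e = ρ.character 1 * ρ.character 1 := by
          rw [hinv, mul_comm, Complex.mul_conj, Complex.normSq_eq_norm_sq, hnorm _ he, hdeg]
          push_cast; ring
        rw [ha, smul_smul]
        congr 1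
        rw [ha', ← mul_assoc] at hn
        exact mul_right_cancel₀ h1 hn
      · rw [hv _ (E.inv_mem e.2) (fun h => he (by simpa using Subgroup.inv_mem _ h)), zero_smul]
    simp only [h2]
    rw [← Finset.sum_filter, Finset.sum_const, ← Nat.cast_smul_eq_nsmul ℂ, smul_smul, smul_smul]
    have hcard : (Finset.univ.filter fun e : E => (e : G) ∈ Subgroup.center G).card =
        Nat.card (Subgroup.center G) := by
      rw [← Nat.card_congr (Subgroup.subgroupOfEquivOfLe hZ).toEquiv, Nat.card_eq_fintype_card,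
        Fintype.card_subtype]
      congr 1
      ext x
      simp [Subgroup.mem_subgroupOf]
    rw [hcard, hc, mul_assoc, inv_mul_cancel₀ (mul_ne_zero (card_ne_zero _) h1), one_smul]
  have hPf : ∀ f : E, P (ρ f) = ρ f := by
    intro f
    rw [hP, ← Equiv.sum_comp (Equiv.mulRight f)]
    have : ∀ w : E, LinearMap.trace ℂ _ (ρ f * ρ ((Equiv.mulRight f w : E) : G)⁻¹) •
        ρ ((Equiv.mulRight f w : E) : G) = (ρ.character (w : G)⁻¹ • ρ w) * ρ f := by
      intro w
      rw [← map_mul, htr, smul_mul_assoc, ← map_mul]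
      simp
    simp only [this]
    rw [← Finset.sum_mul, ← smul_mul_assoc, hone, one_mul]
  have hPP : P * P = P := by
    refine LinearMap.ext fun X => ?_
    rw [Module.End.mul_apply, hP X, map_smul, map_sum]
    simp only [map_smul, hPf]
  have hcomm : ∀ g, P * τ g = τ g * P := by
    intro g
    refine LinearMap.ext fun X => ?_
    rw [Module.End.mul_apply, Module.End.mul_apply, hP, hP, map_smul, map_sum,
      ← Equiv.sum_comp (conjEquiv E g).toEquiv]
    congr 1
    refine Finset.sum_congr rfl fun e _ => ?_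
    have he : (((conjEquiv E g).toEquiv e : E) : G) = g * e * g⁻¹ := rfl
    rw [he, map_smul, hτ, hτ]
    congr 1
    · rw [mul_assoc, mul_assoc, LinearMap.trace_mul_comm, mul_assoc, mul_assoc, ← map_mul,
        ← map_mul]
      congr 3
      group
    · rw [map_mul, map_mul]
  have htrP : ∀ g, LinearMap.trace ℂ _ (τ g * P) = c * ∑ e : E,
      ρ.character (g * e * g⁻¹ * (e : G)⁻¹) := by
    intro g
    have : τ g * P = c • ∑ e : E, ((LinearMap.trace ℂ _).comp
        (LinearMap.mulRight ℂ (ρ (e : G)⁻¹))).smulRight (τ g (ρ e)) := by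
      refine LinearMap.ext fun X => ?_
      rw [Module.End.mul_apply, hP, map_smul, map_sum]
      simp [LinearMap.sum_apply]
    rw [this, map_smul, map_sum, smul_eq_mul]
    congr 1
    refine Finset.sum_congr rfl fun e _ => ?_
    rw [LinearMap.trace_smulRight, hτ, LinearMap.comp_apply, LinearMap.mulRight_apply, ← map_mul,
      ← map_mul, ← map_mul, htr]
  constructor
  · have := isCharacter_trace_mul_proj τ P hPP hcomm
    simpa only [htrP] using this
  · have := isCharacter_sub_trace_mul_proj τ P hPP hcomm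
    convert this using 2 with g
    rw [htrP, Pi.sub_apply]
    congr 1
    have := Representation.char_linHom ρ ρ g
    rw [hinv] at this
    rw [mul_comm]
    exact this.symm

theorem sum_comm_eq [Fintype G] {χ : G → ℂ} (hχ : IsIrrCharacter G χ) (hk : charKer χ = ⊥)
    (E : Subgroup G) [hE : E.Normal] [Fintype E]
    (hv : ∀ e ∈ E, e ∉ Subgroup.center G → χ e = 0) (g : G)
    [Decidable (∀ e : E, g * e * g⁻¹ * (e : G)⁻¹ ∈ Subgroup.center G →
      g * e * g⁻¹ * (e : G)⁻¹ = 1)] :
    ∑ e : E, χ (g * e * g⁻¹ * (e : G)⁻¹) =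
      if ∀ e : E, g * e * g⁻¹ * (e : G)⁻¹ ∈ Subgroup.center G → g * e * g⁻¹ * (e : G)⁻¹ = 1 then
        Nat.card {e : E // g * e * g⁻¹ * (e : G)⁻¹ = 1} * χ 1 else 0 := by
  classical
  split_ifs with h
  · have : ∀ e : E, χ (g * e * g⁻¹ * (e : G)⁻¹) =
        if g * e * g⁻¹ * (e : G)⁻¹ = 1 then χ 1 else 0 := by
      intro e
      split_ifs with he
      · rw [he]
      · exact hv _ (E.mul_mem (hE.conj_mem _ e.2 g) (E.inv_mem e.2)) fun hz => he (h e hz)
    simp only [this]
    rw [← Finset.sum_filter, Finset.sum_const, Nat.card_eq_fintype_card, Fintype.card_subtype,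
      nsmul_eq_mul]
  · push Not at h
    obtain ⟨f, hf, hf1⟩ := h
    have hne : χ (g * f * g⁻¹ * (f : G)⁻¹) ≠ χ 1 := fun e =>
      hf1 (hχ.isCharacter.charKer_eq_bot_iff.mp hk _ e)
    have key : χ 1 * ∑ e : E, χ (g * e * g⁻¹ * (e : G)⁻¹) =
        χ (g * f * g⁻¹ * (f : G)⁻¹) * ∑ e : E, χ (g * e * g⁻¹ * (e : G)⁻¹) := by
      conv_lhs => rw [← Equiv.sum_comp (Equiv.mulRight f)]
      rw [Finset.mul_sum, Finset.mul_sum]
      refine Finset.sum_congr rfl fun e _ => ?_
      rw [← hχ.apply_center_mul hf]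
      congr 2
      have hc := Subgroup.mem_center_iff.mp hf (g * e * g⁻¹)
      calc g * ((Equiv.mulRight f e : E) : G) * g⁻¹ * ((Equiv.mulRight f e : E) : G)⁻¹
          = g * e * g⁻¹ * (g * f * g⁻¹ * (f : G)⁻¹) * (e : G)⁻¹ := by
            simp only [Equiv.coe_mulRight, Subgroup.coe_mul]; group
        _ = _ := by rw [hc]; group
    rcases mul_eq_zero.mp (show (χ (g * f * g⁻¹ * (f : G)⁻¹) - χ 1) *
      ∑ e : E, χ (g * e * g⁻¹ * (e : G)⁻¹) = 0 by rw [sub_mul, key, sub_self]) with h | h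
    · exact absurd (sub_eq_zero.mp h) hne
    · exact h

theorem vanish_of_commutator_le_center [Finite G] {χ : G → ℂ} (hχ : IsIrrCharacter G χ)
    (hk : charKer χ = ⊥) {e f : G} (h : f * e * f⁻¹ * e⁻¹ ∈ Subgroup.center G)
    (h1 : f * e * f⁻¹ * e⁻¹ ≠ 1) : χ e = 0 := by
  have hne : χ (f * e * f⁻¹ * e⁻¹) ≠ χ 1 := fun e' =>
    h1 (hχ.isCharacter.charKer_eq_bot_iff.mp hk _ e')
  have key := hχ.apply_center_mul h e
  rw [inv_mul_cancel_right, hχ.isClassFunction e f] at key
  rcases mul_eq_zero.mp (show (χ (f * e * f⁻¹ * e⁻¹) - χ 1) * χ e = 0 by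
    rw [sub_mul, key, sub_self]) with h | h
  · exact absurd (sub_eq_zero.mp h) hne
  · exact h

/-- a solvable normal subgroup not inside `Z` contains a normal `E` with `E' ≤ Z`, `E ≰ Z` -/
theorem exists_normal_commutator_le {F Z : Subgroup G} [F.Normal] [Group.IsSolvable F]
    (h : ¬ F ≤ Z) : ∃ E : Subgroup G, E.Normal ∧ E ≤ F ∧ ¬ E ≤ Z ∧ ⁅E, E⁆ ≤ Z := by
  classical
  have hn : ∀ n, ((derivedSeries F n).map F.subtype).Normal := fun n =>
    ConjAct.normal_of_characteristic_of_normal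
  have hex : ∃ n, (derivedSeries F n).map F.subtype ≤ Z := by
    obtain ⟨n, hn⟩ := Group.IsSolvable.solvable (G := F)
    exact ⟨n, by rw [hn]; simp⟩
  have h0 : Nat.find hex ≠ 0 := by
    intro e
    have := Nat.find_spec hex
    rw [e, derivedSeries_zero, ← MonoidHom.range_eq_map, Subgroup.range_subtype] at this
    exact h this
  obtain ⟨m, hm⟩ := Nat.exists_eq_succ_of_ne_zero h0
  refine ⟨_, hn m, Subgroup.map_subtype_le _, Nat.find_min hex (by omega), ?_⟩
  have := Nat.find_spec hex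
  rwa [hm, derivedSeries_succ, Subgroup.map_commutator] at this

theorem fitting_eq_center_of_mul_gal [Finite G] {χ : G → ℂ} (hχ : IsIrrCharacter G χ)
    (hk : charKer χ = ⊥) (σ : ℂ →+* ℂ)
    (hirr : IsIrrCharacter G (fun g => χ g * σ (χ g))) :
    fittingSubgroup G = Subgroup.center G := by
  classical
  have := Fintype.ofFinite G
  have hχ' := hχ.gal σ
  have hk' : charKer (fun g => σ (χ g)) = ⊥ := by rw [charKer_gal, hk]
  have hA : IsCharacter G (fun g => χ g * conj (χ g)) := hχ.isCharacter.mul hχ.isCharacter.conj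
  have hB : IsCharacter G (fun g => σ (χ g) * conj (σ (χ g))) :=
    hχ'.isCharacter.mul hχ'.isCharacter.conj
  have hAB : classInner (fun g => χ g * conj (χ g)) (fun g => σ (χ g) * conj (σ (χ g))) = 1 := by
    rw [← hirr.inner_self, classInner_def, classInner_def]
    congr 1
    refine Finset.sum_congr rfl fun g _ => ?_
    simp only [map_mul, Complex.conj_conj]
    ring
  have hA1 : classInner (fun g => χ g * conj (χ g)) 1 ≠ 0 := by
    rw [inner_normSq_one hχ]; exact one_ne_zero
  have hB1 : classInner (fun g => σ (χ g) * conj (σ (χ g))) 1 ≠ 0 := by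
    rw [inner_normSq_one hχ']; exact one_ne_zero
  -- abelian normal subgroups are central
  have hab : ∀ N : Subgroup G, N.Normal → (∀ a ∈ N, ∀ b ∈ N, a * b = b * a) →
      N ≤ Subgroup.center G := by
    intro N hN hc
    rcases homogeneous_or_induced N hχ with ⟨θ, e, hθ, he⟩ | ⟨T, ψ, -, hT, hψ, rfl⟩
    · have h1 : θ 1 = 1 := hθ.one_eq_one_of_comm fun a b => Subtype.ext (hc _ a.2 _ b.2)
      intro x hx
      rw [← hχ.charCenter_eq_center hk, hχ.isCharacter.mem_charCenter']
      have e1 := congrFun he ⟨x, hx⟩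
      have e2 := congrFun he 1
      simp only [Pi.smul_apply, smul_eq_mul, OneMemClass.coe_one] at e1 e2
      rw [e1, e2, norm_mul, norm_mul]
      congr 1
      rw [← hθ.isCharacter.mem_charCenter', hθ.charCenter_eq_top_iff.mpr h1]
      trivial
    · exfalso
      have e : (fun g => σ (indFun T ψ g)) = indFun T (fun t => σ (ψ t)) :=
        funext fun g => (indFun_gal T ψ σ g).symm
      have h2 := isCharacter_normSq_sub_ind (hψ.gal σ) (e ▸ hχ')
      rw [← e] at h2
      have h3 := apply_one_eq_one_of_sub hB hA (isIrrCharacter_one' (G := T)).isCharacter.ind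
        (isCharacter_normSq_sub_ind hψ hχ) h2 hAB hA1 hB1
        (isIrrCharacter_one' (G := T)).ind_ne_zero
      rw [indFun_one, Pi.one_apply, mul_one, Nat.cast_eq_one] at h3
      exact hT (Subgroup.index_eq_one.mp h3)
  refine le_antisymm ?_ CL.center_le_fittingSubgroup
  by_contra hF
  have := CL.isNilpotent_fittingSubgroup G
  have hFn : (fittingSubgroup G).Normal := inferInstance
  obtain ⟨E₀, hE₀, -, hE₀Z, hE₀c⟩ := exists_normal_commutator_le hF
  obtain ⟨E, hEdef⟩ : ∃ E, E = E₀ ⊔ Subgroup.center G := ⟨_, rfl⟩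
  have hE : E.Normal := by rw [hEdef]; infer_instance
  have hZE : Subgroup.center G ≤ E := hEdef ▸ le_sup_right
  have hEZ : ¬ E ≤ Subgroup.center G := fun h => hE₀Z ((hEdef ▸ le_sup_left : E₀ ≤ E).trans h)
  have hEc : ∀ a ∈ E, ∀ b ∈ E, a * b * a⁻¹ * b⁻¹ ∈ Subgroup.center G := by
    intro a ha b hb
    rw [hEdef, ← SetLike.mem_coe, Subgroup.mul_normal] at ha hb
    obtain ⟨a, ha, z, hz, rfl⟩ := ha
    obtain ⟨b, hb, w, hw, rfl⟩ := hb
    have hz' := Subgroup.mem_center_iff.mp hz
    have hw' := Subgroup.mem_center_iff.mp hw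
    have : a * z * (b * w) * (a * z)⁻¹ * (b * w)⁻¹ = a * b * a⁻¹ * b⁻¹ := by
      calc a * z * (b * w) * (a * z)⁻¹ * (b * w)⁻¹
          = a * (z * (b * w)) * z⁻¹ * a⁻¹ * w⁻¹ * b⁻¹ := by group
        _ = a * b * (w * a⁻¹) * w⁻¹ * b⁻¹ := by rw [← hz']; group
        _ = _ := by rw [← hw']; group
    simp only [this]
    exact hE₀c (Subgroup.commutator_mem_commutator ha hb)
  have hZE' : E ⊓ Subgroup.centralizer E ≤ Subgroup.center G :=
    hab _ inferInstance fun a ha b hb => (Subgroup.mem_centralizer_iff.mp hb.2 a ha.1)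
  have hv : ∀ {ξ : G → ℂ}, IsIrrCharacter G ξ → charKer ξ = ⊥ →
      ∀ e ∈ E, e ∉ Subgroup.center G → ξ e = 0 := by
    intro ξ hξ hξk e he heZ
    have : e ∉ Subgroup.centralizer (E : Set G) := fun h => heZ (hZE' ⟨he, h⟩)
    rw [Subgroup.mem_centralizer_iff] at this
    push Not at this
    obtain ⟨f, hf, hfe⟩ := this
    refine vanish_of_commutator_le_center hξ hξk (hEc f hf e he) fun h => hfe ?_
    calc f * e = f * e * f⁻¹ * e⁻¹ * (e * f) := by group
      _ = e * f := by rw [h, one_mul]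
  have := Fintype.ofFinite E
  obtain ⟨h1, h2⟩ := isCharacter_conjSpan hχ E hZE (hv hχ hk)
  obtain ⟨-, h3⟩ := isCharacter_conjSpan hχ' E hZE (hv hχ' hk')
  have e : (fun g => ((Nat.card (Subgroup.center G) : ℂ) * σ (χ 1))⁻¹ *
      ∑ e : E, σ (χ (g * e * g⁻¹ * (e : G)⁻¹))) = fun g =>
      ((Nat.card (Subgroup.center G) : ℂ) * χ 1)⁻¹ * ∑ e : E, χ (g * e * g⁻¹ * (e : G)⁻¹) := by
    funext g
    rw [sum_comm_eq hχ hk E (hv hχ hk) g, sum_comm_eq hχ' hk' E (hv hχ' hk') g,
      hχ.isCharacter.gal_one σ]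
  rw [e] at h3
  have hval : ((Nat.card (Subgroup.center G) : ℂ) * χ 1)⁻¹ *
      ∑ e : E, χ (1 * e * 1⁻¹ * (e : G)⁻¹) = (Nat.card (Subgroup.center G) : ℂ)⁻¹ * Nat.card E := by
    simp only [one_mul, inv_one, mul_one, mul_inv_cancel, Finset.sum_const, Finset.card_univ,
      nsmul_eq_mul, Nat.card_eq_fintype_card (α := E)]
    have := hχ.one_ne_zero
    field_simp
  have h4 := apply_one_eq_one_of_sub hB hA h1 h2 h3 hAB hA1 hB1 (fun h => by
    have := congrFun h 1
    rw [hval] at this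
    exact mul_ne_zero (inv_ne_zero (card_ne_zero _)) (card_ne_zero _) this)
  rw [hval, inv_mul_eq_one₀ (card_ne_zero _), Nat.cast_inj] at h4
  exact hEZ (Subgroup.eq_of_le_of_card_ge hZE h4.ge).ge

end CL.Ord
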