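import Mathlib

/-! Local fusion graphs of symmetric groups have diameter two. -/

set_option autoImplicit false

namespace CL.Ord.LocFus

open Equiv Equiv.Perm

variable {α : Type*} [Fintype α] [DecidableEq α]

theorem ins {g g' : Perm α} (hg : Odd (orderOf g)) {v a b : α} (ha : g a = a) (hb : g b = b)
    (hva : v ≠ a) (hvb : v ≠ b) (h1 : g' v = a) (h2 : g' a = b) (h3 : g' b = g v)
    (h : ∀ t, t ≠ v → t ≠ a → t ≠ b → g' t = g t) : Odd (orderOf g') := by
  have e : ∀ n : ℕ, (g ^ n) v = v ↔ Function.minimalPeriod g v ∣ n := fun n => by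
    rw [← Function.isPeriodicPt_iff_minimalPeriod_dvd, Perm.coe_pow]; rfl
  obtain ⟨L, hL⟩ : ∃ L, L = Function.minimalPeriod g v := ⟨_, rfl⟩
  rw [← hL] at e
  have hd : L ∣ orderOf g := (e _).1 (by rw [pow_orderOf_eq_one]; rfl)
  have hodd : Odd L := Odd.of_dvd_nat hg hd
  have hfix : ∀ (i : ℕ) c, g c = c → v ≠ c → (g ^ i) v ≠ c := fun i c hc hvc e' =>
    hvc ((g ^ i).injective (e'.trans (pow_apply_eq_self_of_apply_eq_self hc i).symm))
  have step : ∀ i, i < L → (g' ^ (i + 3)) v = (g ^ (i + 1)) v := by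
    intro i
    induction i with
    | zero => intro _; simp [pow_succ, h1, h2, h3]
    | succ i ih =>
      intro hi
      rw [show i + 1 + 3 = (i + 3) + 1 by ring, pow_succ', Perm.mul_apply, ih (by omega),
        pow_succ' g (i + 1), Perm.mul_apply]
      refine h _ (fun e' => ?_) (hfix _ a ha hva) (hfix _ b hb hvb)
      exact absurd (Nat.le_of_dvd (by omega) ((e _).1 e')) (by omega)
  have hL0 : 0 < L := hodd.pos
  have hv : (g' ^ (L + 2)) v = v := by
    have := step (L - 1) (by omega)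
    rwa [show L - 1 + 3 = L + 2 by omega, show L - 1 + 1 = L by omega, (e L).2 dvd_rfl] at this
  refine Odd.of_dvd_nat ((hodd.add_even even_two).mul hg) (orderOf_dvd_of_pow_eq_one ?_)
  ext t
  by_cases ht : g'.SameCycle v t
  · obtain ⟨i, -, rfl⟩ := ht.exists_pow_eq'
    rw [← Perm.mul_apply, ← pow_add, add_comm, pow_add, Perm.mul_apply, pow_mul,
      pow_apply_eq_self_of_apply_eq_self hv]
    rfl
  · have key : ∀ i : ℕ, (g' ^ i) t = (g ^ i) t := by
      intro i
      induction i with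
      | zero => rfl
      | succ i ih =>
        have h4 : ∀ c, g'.SameCycle v c → (g' ^ i) t ≠ c := fun c hc e' =>
          ht (sameCycle_pow_right.1 (e' ▸ hc))
        rw [pow_succ', pow_succ', Perm.mul_apply, Perm.mul_apply, ← ih]
        exact h _ (h4 v (SameCycle.refl _ _)) (h4 a ⟨1, by simpa using h1⟩)
          (h4 b ⟨2, by rw [zpow_two, Perm.mul_apply, h1, h2]⟩)
    rw [key, mul_comm, pow_mul, pow_orderOf_eq_one, one_pow]

theorem ins2 {g g' : Perm α} (hg : Odd (orderOf g)) {v a b w c d : α} (ha : g a = a) (hb : g b = b)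
    (hc : g c = c) (hd : g d = d) (hn : [v, a, b, w, c, d].Nodup)
    (h1 : g' v = a) (h2 : g' a = b) (h3 : g' b = g v) (h4 : g' w = c) (h5 : g' c = d)
    (h6 : g' d = g w)
    (h : ∀ t, t ≠ v → t ≠ a → t ≠ b → t ≠ w → t ≠ c → t ≠ d → g' t = g t) : Odd (orderOf g') := by
  simp only [List.nodup_cons, List.mem_cons, List.not_mem_nil, not_or] at hn
  have h0 : Odd (orderOf (g * (swap v b * swap v a))) := by
    refine ins hg (v := v) ha hb (by grind +splitImp) (by grind +splitImp) ?_ ?_ ?_ ?_ <;>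
      simp only [Perm.mul_apply, swap_apply_def] <;> grind +splitImp
  refine ins h0 (v := w) (a := c) (b := d) ?_ ?_ (by grind +splitImp) (by grind +splitImp) h4 h5 ?_ ?_ <;>
    simp only [Perm.mul_apply, swap_apply_def] <;> grind +splitImp

theorem ins4 {g g' : Perm α} (hg : Odd (orderOf g)) {v a b c d : α} (ha : g a = a) (hb : g b = b)
    (hc : g c = c) (hd : g d = d) (hn : [v, a, b, c, d].Nodup)
    (h1 : g' v = a) (h2 : g' a = b) (h3 : g' b = c) (h5 : g' c = d) (h6 : g' d = g v)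
    (h : ∀ t, t ≠ v → t ≠ a → t ≠ b → t ≠ c → t ≠ d → g' t = g t) : Odd (orderOf g') := by
  simp only [List.nodup_cons, List.mem_cons, List.not_mem_nil, not_or] at hn
  have h0 : Odd (orderOf (g * (swap v b * swap v a))) := by
    refine ins hg (v := v) ha hb (by grind +splitImp) (by grind +splitImp) ?_ ?_ ?_ ?_ <;>
      simp only [Perm.mul_apply, swap_apply_def] <;> grind +splitImp
  refine ins h0 (v := b) (a := c) (b := d) ?_ ?_ (by grind +splitImp) (by grind +splitImp) h3 h5 ?_ ?_ <;>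
    simp only [Perm.mul_apply, swap_apply_def] <;> grind +splitImp

/-- an involution or the identity -/
def Inv (x : Perm α) : Prop := ∀ t, x (x t) = t

theorem add_edge {z : Perm α} (hz : Inv z) {a b : α} (ha : z a = a) (hb : z b = b) (hab : a ≠ b) :
    ∃ z' : Perm α, Inv z' ∧ z' a = b ∧ z' b = a ∧ (∀ t, t ≠ a → t ≠ b → z' t = z t) ∧
      z'.support.card = z.support.card + 2 := by
  refine ⟨z * swap a b, fun t => ?_, by simp [hb], by simp [ha], fun t h1 h2 => ?_, ?_⟩
  · simp only [Perm.mul_apply, swap_apply_def]; grind +splitImp [Inv]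
  · simp [swap_apply_of_ne_of_ne h1 h2]
  · rw [Perm.Disjoint.card_support_mul, card_support_swap hab]
    intro t
    simp only [swap_apply_def]; grind +splitImp

theorem del_edge {z : Perm α} (hz : Inv z) {a b : α} (ha : z a = b) (hab : a ≠ b) :
    ∃ z' : Perm α, Inv z' ∧ z' a = a ∧ z' b = b ∧ (∀ t, t ≠ a → t ≠ b → z' t = z t) ∧
      z.support.card = z'.support.card + 2 := by
  have hb : z b = a := by rw [← ha, hz]
  refine ⟨z * swap a b, fun t => ?_, by simp [hb], by simp [ha], fun t h1 h2 => ?_, ?_⟩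
  · simp only [Perm.mul_apply, swap_apply_def]; grind +splitImp [Inv]
  · simp [swap_apply_of_ne_of_ne h1 h2]
  · rw [← card_support_swap hab, ← Perm.Disjoint.card_support_mul, mul_assoc, swap_mul_self, mul_one]
    intro t
    simp only [Perm.mul_apply, swap_apply_def]; grind +splitImp

/-- `x` is supported on `A` -/
def Sup (A : Finset α) (x : Perm α) : Prop := ∀ t, t ∉ A → x t = t

/-- a common neighbour -/
def Sol (A : Finset α) (x y : Perm α) : Prop :=
  ∃ z : Perm α, Inv z ∧ Sup A z ∧ Odd (orderOf (x * z)) ∧ Odd (orderOf (y * z))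

theorem Sol.symm {A : Finset α} {x y : Perm α} (h : Sol A x y) : Sol A y x :=
  let ⟨z, h1, h2, h3, h4⟩ := h; ⟨z, h1, h2, h4, h3⟩

/-- a component which is a `4`-cycle -/
def C4 (x y : Perm α) (a : α) : Prop := x a ≠ a ∧ y a ≠ a ∧ x a ≠ y a ∧ x (y a) = y (x a)

def Exc (A : Finset α) (x y : Perm α) : Prop :=
  ∃ a, C4 x y a ∧ ∀ t, t ∈ A ↔ t = a ∨ t = x a ∨ t = y a ∨ t = x (y a)

theorem Exc.symm {A : Finset α} {x y : Perm α} (h : Exc A x y) : Exc A y x := by
  obtain ⟨a, h1, h2⟩ := h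
  exact ⟨a, by grind +splitImp [C4], by grind +splitImp [C4]⟩

/-- insertion of a `4`-cycle, seen from one side -/
theorem side4 {x x' z z' : Perm α} (hz' : Inv z') (h : Odd (orderOf (x' * z')))
    {p q r s v w : α} (hn : [p, q, r, s, v].Nodup) (hx : Inv x) (h1 : x p = q) (h2 : x r = s)
    (h3 : x' p = p ∧ x' q = q ∧ x' r = r ∧ x' s = s)
    (h4 : ∀ t, t ≠ p → t ≠ q → t ≠ r → t ≠ s → x' t = x t)
    (h5 : z' p = p ∧ z' q = q ∧ z' r = r ∧ z' s = s) (hw : z' v = w)
    (h6 : z v = p ∧ z p = v ∧ z q = s ∧ z s = q) (h7 : if v = w then z r = r else z w = r ∧ z r = w)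
    (h8 : ∀ t, t ≠ p → t ≠ q → t ≠ r → t ≠ s → t ≠ v → t ≠ w → z t = z' t) :
    Odd (orderOf (x * z)) := by
  simp only [List.nodup_cons, List.mem_cons, List.not_mem_nil, not_or] at hn
  unfold Inv at *
  have := hz' v
  split_ifs at h7 with hvw
  · refine ins4 h (v := v) (a := q) (b := r) (c := s) (d := p) ?_ ?_ ?_ ?_ ?_ ?_ ?_ ?_ ?_ ?_
      fun t => (have := hz' t; ?_) <;>
      simp only [Perm.mul_apply, List.nodup_cons, List.mem_cons, List.not_mem_nil, not_or,
        List.nodup_nil] <;> grind +splitImp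
  · refine ins2 h (v := v) (a := q) (b := r) (w := w) (c := s) (d := p)
      ?_ ?_ ?_ ?_ ?_ ?_ ?_ ?_ ?_ ?_ ?_ fun t => (have := hz' t; ?_) <;>
      simp only [Perm.mul_apply, List.nodup_cons, List.mem_cons, List.not_mem_nil, not_or,
        List.nodup_nil] <;> grind +splitImp

theorem sol44 {A : Finset α} {x y : Perm α} (hx : Inv x) (hy : Inv y) (hxA : Sup A x)
    (hyA : Sup A y) {a b c d e f g h : α} (hn : [a, b, c, d, e, f, g, h].Nodup)
    (hA : ∀ t, t ∈ A ↔ t ∈ [a, b, c, d, e, f, g, h])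
    (h1 : x a = b ∧ x c = d ∧ x e = f ∧ x g = h) (h2 : y b = c ∧ y d = a ∧ y f = g ∧ y h = e) :
    Sol A x y := by
  simp only [List.nodup_cons, List.mem_cons, List.not_mem_nil, not_or] at hn hA
  obtain ⟨z1, i1, _, _, _, -⟩ := add_edge (z := 1) (fun _ => rfl) (a := a) (b := b) rfl rfl (by grind +splitImp)
  simp only [Perm.one_apply] at *
  obtain ⟨z2, i2, _, _, _, -⟩ := add_edge i1 (a := f) (b := g) (by grind +splitImp) (by grind +splitImp) (by grind +splitImp)
  obtain ⟨z3, i3, _, _, _, -⟩ := add_edge i2 (a := e) (b := c) (by grind +splitImp) (by grind +splitImp) (by grind +splitImp)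
  obtain ⟨z, i4, _, _, _, -⟩ := add_edge i3 (a := h) (b := d) (by grind +splitImp) (by grind +splitImp) (by grind +splitImp)
  unfold Inv Sup at *
  refine ⟨z, i4, by grind +splitImp [Sup], ?_, ?_⟩
  · refine ins2 (g := 1) (by simp) (v := c) (a := f) (b := h) (w := d) (c := g) (d := e)
      rfl rfl rfl rfl ?_ ?_ ?_ ?_ ?_ ?_ ?_ ?_ <;>
      simp only [Perm.mul_apply, Perm.one_apply, List.nodup_cons, List.mem_cons, List.not_mem_nil,
        not_or, List.nodup_nil] <;> grind +splitImp
  · refine ins2 (g := 1) (by simp) (v := a) (a := c) (b := h) (w := b) (c := d) (d := e)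
      rfl rfl rfl rfl ?_ ?_ ?_ ?_ ?_ ?_ ?_ ?_ <;>
      simp only [Perm.mul_apply, Perm.one_apply, List.nodup_cons, List.mem_cons, List.not_mem_nil,
        not_or, List.nodup_nil] <;> grind +splitImp

theorem sol8 {A : Finset α} {x y : Perm α} (hx : Inv x) (hy : Inv y) (hxA : Sup A x)
    (hyA : Sup A y) {a b c d e f g h : α} (hn : [a, b, c, d, e, f, g, h].Nodup)
    (hA : ∀ t, t ∈ A ↔ t ∈ [a, b, c, d, e, f, g, h])
    (h1 : x a = b ∧ x c = d ∧ x e = f ∧ x g = h) (h2 : y b = c ∧ y d = e ∧ y f = g ∧ y h = a) :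
    Sol A x y := by
  simp only [List.nodup_cons, List.mem_cons, List.not_mem_nil, not_or] at hn hA
  obtain ⟨z1, i1, _, _, _, -⟩ := add_edge (z := 1) (fun _ => rfl) (a := g) (b := h) rfl rfl (by grind +splitImp)
  simp only [Perm.one_apply] at *
  obtain ⟨z2, i2, _, _, _, -⟩ := add_edge i1 (a := b) (b := c) (by grind +splitImp) (by grind +splitImp) (by grind +splitImp)
  obtain ⟨z3, i3, _, _, _, -⟩ := add_edge i2 (a := e) (b := a) (by grind +splitImp) (by grind +splitImp) (by grind +splitImp)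
  obtain ⟨z, i4, _, _, _, -⟩ := add_edge i3 (a := d) (b := f) (by grind +splitImp) (by grind +splitImp) (by grind +splitImp)
  unfold Inv Sup at *
  refine ⟨z, i4, by grind +splitImp [Sup], ?_, ?_⟩
  · refine ins2 (g := 1) (by simp) (v := a) (a := f) (b := c) (w := b) (c := d) (d := e)
      rfl rfl rfl rfl ?_ ?_ ?_ ?_ ?_ ?_ ?_ ?_ <;>
      simp only [Perm.mul_apply, Perm.one_apply, List.nodup_cons, List.mem_cons, List.not_mem_nil,
        not_or, List.nodup_nil] <;> grind +splitImp
  · refine ins2 (g := 1) (by simp) (v := a) (a := d) (b := g) (w := e) (c := h) (d := f)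
      rfl rfl rfl rfl ?_ ?_ ?_ ?_ ?_ ?_ ?_ ?_ <;>
      simp only [Perm.mul_apply, Perm.one_apply, List.nodup_cons, List.mem_cons, List.not_mem_nil,
        not_or, List.nodup_nil] <;> grind +splitImp

theorem C4.nodup {x y : Perm α} (hx : Inv x) (hy : Inv y) {a : α} (h : C4 x y a) :
    [a, x a, x (y a), y a].Nodup := by
  have := hx a
  have := hy a
  have := hx (y a)
  have := hy (x a)
  simp only [List.nodup_cons, List.mem_cons, List.not_mem_nil, not_or, List.nodup_nil]
  grind +splitImp [C4]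

theorem card_sdiff_lt {A S : Finset α} {a : α} (ha : a ∈ A) (hS : a ∈ S) : (A \ S).card < A.card :=
  Finset.card_lt_card ⟨Finset.sdiff_subset, fun h => (Finset.mem_sdiff.1 (h ha)).2 hS⟩

theorem Exc.at {A : Finset α} {x y : Perm α} (hx : Inv x) (hy : Inv y) (h : Exc A x y) {u : α}
    (hu : u ∈ A) : C4 x y u ∧ ∀ t, t ∈ A ↔ t = u ∨ t = x u ∨ t = y u ∨ t = x (y u) := by
  obtain ⟨e, he, he'⟩ := h
  have := hx e
  have := hy e
  have := hx (y e)
  have := hy (x e)
  rcases (he' u).1 hu with rfl | rfl | rfl | rfl <;> grind +splitImp [C4]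

/-- the induction hypothesis -/
def IH (A : Finset α) : Prop :=
  ∀ (A' : Finset α) (x' y' : Perm α), A'.card < A.card → Inv x' → Inv y' → Sup A' x' →
    Sup A' y' → x'.support.card = y'.support.card → Exc A' x' y' ∨ Sol A' x' y'

theorem step_c4 {A : Finset α} {x y : Perm α}
    (ih : IH A)
    (hx : Inv x) (hy : Inv y) (hxA : Sup A x) (hyA : Sup A y)
    (hc : x.support.card = y.support.card) {a : α} (ha : C4 x y a) : Exc A x y ∨ Sol A x y := by
  have hn := ha.nodup hx hy
  obtain ⟨q, hq⟩ : ∃ q, x a = q := ⟨_, rfl⟩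
  obtain ⟨s, hs⟩ : ∃ s, y a = s := ⟨_, rfl⟩
  obtain ⟨r, hr⟩ : ∃ r, x s = r := ⟨_, rfl⟩
  have hr' : y q = r := by rw [← hq, ← ha.2.2.2, hs, hr]
  have hr2 : x r = s := by rw [← hr, hx]
  have hq2 : x q = a := by rw [← hq, hx]
  have hr3 : y r = q := by rw [← hr', hy]
  have hs2 : y s = a := by rw [← hs, hy]
  rw [hq, hs, hr] at hn
  simp only [List.nodup_cons, List.mem_cons, List.not_mem_nil, not_or] at hn
  have hA : a ∈ A ∧ q ∈ A ∧ r ∈ A ∧ s ∈ A := by grind +splitImp [Sup]
  by_cases hv : ∃ v ∈ A, v ∉ ({a, q, r, s} : Finset α)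
  swap
  · exact Or.inl ⟨a, ha, by grind +splitImp⟩
  obtain ⟨v, hvA, hv⟩ := hv
  right
  obtain ⟨x1, i1, _, _, _, c1⟩ := del_edge hx hq (by grind +splitImp)
  obtain ⟨x', i2, _, _, _, c2⟩ := del_edge i1 (a := r) (b := s) (by grind +splitImp) (by grind +splitImp)
  obtain ⟨y1, i3, _, _, _, c3⟩ := del_edge hy hs (by grind +splitImp)
  obtain ⟨y', i4, _, _, _, c4⟩ := del_edge i3 (a := r) (b := q) (by grind +splitImp) (by grind +splitImp)
  rcases ih (A \ {a, q, r, s}) x' y' (card_sdiff_lt hA.1 (by simp)) i2 i4 (by grind +splitImp [Sup])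
    (by grind +splitImp [Sup]) (by omega) with ⟨b, hb, hb'⟩ | ⟨z', j1, j2, j3, j4⟩
  · have hn' := hb.nodup i2 i4
    have h1 := (hb' b).2 (by simp)
    have h2 := (hb' (x' b)).2 (by simp)
    have h3 := (hb' (y' b)).2 (by simp)
    have h4 := (hb' (x' (y' b))).2 (by simp)
    have := i2 (y' b)
    have := i4 b
    simp only [List.nodup_cons, List.mem_cons, List.not_mem_nil, not_or] at hn'
    refine sol44 hx hy hxA hyA (a := a) (b := q) (c := r) (d := s) (e := b) (f := x' b)
      (g := x' (y' b)) (h := y' b) ?_ (fun t => (have := hb' t; ?_)) ?_ ?_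
    · simp only [List.nodup_cons, List.mem_cons, List.not_mem_nil, not_or, List.nodup_nil]
      grind +splitImp
    · simp only [List.mem_cons, List.not_mem_nil, Finset.mem_sdiff, Finset.mem_insert,
        Finset.mem_singleton] at this ⊢
      constructor
      · intro h; grind
      · rintro (rfl | rfl | rfl | rfl | rfl | rfl | rfl | rfl | h) <;> grind
    · grind +splitImp
    · grind +splitImp [C4]
  · obtain ⟨w, hw⟩ : ∃ w, z' v = w := ⟨_, rfl⟩
    have hw' : z' w = v := by rw [← hw, j1]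
    have h5 : z' a = a ∧ z' q = q ∧ z' r = r ∧ z' s = s := by grind +splitImp [Sup]
    have hwA : w ∈ A \ {a, q, r, s} := by grind +splitImp [Sup]
    have : ∃ z : Perm α, Inv z ∧ (z v = a ∧ z a = v ∧ z q = s ∧ z s = q) ∧
        (if v = w then z r = r else z w = r ∧ z r = w) ∧
        ∀ t, t ≠ a → t ≠ q → t ≠ r → t ≠ s → t ≠ v → t ≠ w → z t = z' t := by
      obtain ⟨z1, k1, _, _, _, -⟩ := add_edge j1 (a := q) (b := s) (by grind +splitImp) (by grind +splitImp) (by grind +splitImp)
      by_cases hvw : v = w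
      · obtain ⟨z, k2, _, _, _, -⟩ := add_edge k1 (a := v) (b := a) (by grind +splitImp) (by grind +splitImp) (by grind +splitImp)
        exact ⟨z, k2, by grind +splitImp, by grind +splitImp, by grind +splitImp⟩
      · obtain ⟨z2, k2, _, _, _, -⟩ := del_edge k1 (a := v) (b := w) (by grind +splitImp) hvw
        obtain ⟨z3, k3, _, _, _, -⟩ := add_edge k2 (a := v) (b := a) (by grind +splitImp) (by grind +splitImp) (by grind +splitImp)
        obtain ⟨z, k4, _, _, _, -⟩ := add_edge k3 (a := w) (b := r) (by grind +splitImp) (by grind +splitImp) (by grind +splitImp)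
        exact ⟨z, k4, by grind +splitImp, by grind +splitImp, by grind +splitImp⟩
    obtain ⟨z, k1, k2, k3, k4⟩ := this
    refine ⟨z, k1, by grind +splitImp [Sup], ?_, ?_⟩
    · refine side4 j1 j3 (p := a) (q := q) (r := r) (s := s) (v := v) (w := w) ?_ hx hq hr2
        (by grind +splitImp) (by grind +splitImp) h5 hw k2 k3 k4
      simp only [List.nodup_cons, List.mem_cons, List.not_mem_nil, not_or, List.nodup_nil]
      grind +splitImp
    · refine side4 j1 j4 (p := a) (q := s) (r := r) (s := q) (v := v) (w := w) ?_ hy hs hr3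
        (by grind +splitImp) (by grind +splitImp) (by grind +splitImp) hw (by grind +splitImp) k3 (by grind +splitImp)
      simp only [List.nodup_cons, List.mem_cons, List.not_mem_nil, not_or, List.nodup_nil]
      grind +splitImp

theorem step_end {A : Finset α} {x y : Perm α}
    (ih : IH A)
    (hx : Inv x) (hy : Inv y) (hxA : Sup A x) (hyA : Sup A y)
    (hc : x.support.card = y.support.card) {a : α} (h1 : y a = a) (h2 : x a ≠ a)
    (h3 : y (x a) ≠ x a) : Sol A x y := by
  obtain ⟨b, hb⟩ : ∃ b, x a = b := ⟨_, rfl⟩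
  obtain ⟨w, hw⟩ : ∃ w, y b = w := ⟨_, rfl⟩
  have hb' : x b = a := by rw [← hb, hx]
  have hw' : y w = b := by rw [← hw, hy]
  rw [hb] at h2 h3
  obtain ⟨x', i1, _, _, _, c1⟩ := del_edge hx hb (by grind +splitImp)
  obtain ⟨y', i2, _, _, _, c2⟩ := del_edge hy hw (by grind +splitImp)
  have hA : a ∈ A ∧ b ∈ A ∧ w ∈ A := by grind +splitImp [Sup]
  rcases ih (A \ {a, b}) x' y' (card_sdiff_lt hA.1 (by simp)) i1 i2 (by grind +splitImp [Sup])
    (by grind +splitImp [Sup]) (by omega) with ⟨c, hc, hc'⟩ | ⟨z', j1, j2, j3, j4⟩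
  · have := (Exc.at i1 i2 ⟨c, hc, hc'⟩ (u := w) (by grind +splitImp)).1
    grind [C4]
  · have h5 : z' a = a ∧ z' b = b := by grind +splitImp [Sup]
    obtain ⟨z, k1, _, _, _, -⟩ := add_edge j1 h5.1 h5.2 (by grind +splitImp)
    refine ⟨z, k1, by grind +splitImp [Sup], ?_, ?_⟩
    · convert j3 using 2
      ext t
      have := j1 t
      simp only [Perm.mul_apply]
      grind +splitImp
    · have := j1 w
      refine ins j4 (v := z' w) (a := b) (b := a) ?_ ?_ ?_ ?_ ?_ ?_ ?_
        fun t => (have := j1 t; ?_) <;> (try simp only [Perm.mul_apply]) <;> grind +splitImp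

theorem c4_of_exc {A S : Finset α} {x y x' y' : Perm α} (h : Exc (A \ S) x' y')
    (h1 : ∀ t, t ∉ S → x' t = x t) (h2 : ∀ t, t ∉ S → y' t = y t) : ∃ a, C4 x y a := by
  obtain ⟨a, ha, ha'⟩ := h
  have := (ha' a).2 (by simp)
  have := (ha' (x' a)).2 (by simp)
  have := (ha' (y' a)).2 (by simp)
  exact ⟨a, by grind +splitImp [C4]⟩

theorem step_dbl {A : Finset α} {x y : Perm α} (ih : IH A)
    (hx : Inv x) (hy : Inv y) (hxA : Sup A x) (hyA : Sup A y)
    (hc : x.support.card = y.support.card) {a : α} (ha : a ∈ A) (h5 : x a = y a) :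
    (∃ a, C4 x y a) ∨ Sol A x y := by
  by_cases h6 : x a = a
  · rcases ih (A \ {a}) x y (card_sdiff_lt ha (by simp)) hx hy (by grind +splitImp [Sup])
      (by grind +splitImp [Sup]) hc with h | ⟨z, j1, j2, j3, j4⟩
    · exact Or.inl (c4_of_exc h (fun _ _ => rfl) fun _ _ => rfl)
    · exact Or.inr ⟨z, j1, by grind +splitImp [Sup], j3, j4⟩
  · obtain ⟨b, hb⟩ : ∃ b, x a = b := ⟨_, rfl⟩
    have hb' : x b = a := by rw [← hb, hx]
    have hb2 : y b = a := by rw [← hb, h5, hy]
    obtain ⟨x', i1, _, _, _, c1⟩ := del_edge hx hb (by grind +splitImp)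
    obtain ⟨y', i2, _, _, _, c2⟩ := del_edge hy (h5 ▸ hb) (by grind +splitImp)
    rcases ih (A \ {a, b}) x' y' (card_sdiff_lt ha (by simp)) i1 i2 (by grind +splitImp [Sup])
      (by grind +splitImp [Sup]) (by omega) with h | ⟨z', j1, j2, j3, j4⟩
    · exact Or.inl (c4_of_exc h (by grind +splitImp) (by grind +splitImp))
    · have h5 : z' a = a ∧ z' b = b := by grind +splitImp [Sup]
      obtain ⟨z, k1, _, _, _, -⟩ := add_edge j1 h5.1 h5.2 (by grind +splitImp)
      refine Or.inr ⟨z, k1, by grind +splitImp [Sup], ?_, ?_⟩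
      · convert j3 using 2
        ext t
        have := j1 t
        simp only [Perm.mul_apply]
        grind +splitImp
      · convert j4 using 2
        ext t
        have := j1 t
        simp only [Perm.mul_apply]
        grind +splitImp

theorem step_pair {A : Finset α} {x y : Perm α} (ih : IH A)
    (hx : Inv x) (hy : Inv y) (hxA : Sup A x) (hyA : Sup A y)
    (hc : x.support.card = y.support.card) {a b c d : α} (hb : x a = b) (hab : a ≠ b)
    (ha2 : y a = a) (hb2 : y b = b) (hd : y c = d) (hcd : c ≠ d) (hc2 : x c = c) (hd2 : x d = d) :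
    (∃ a, C4 x y a) ∨ Sol A x y := by
  have hb' : x b = a := by rw [← hb, hx]
  have hd' : y d = c := by rw [← hd, hy]
  obtain ⟨x', i1, _, _, _, c1⟩ := del_edge hx hb hab
  obtain ⟨y', i2, _, _, _, c2⟩ := del_edge hy hd hcd
  have hA : a ∈ A ∧ b ∈ A ∧ c ∈ A ∧ d ∈ A := by grind +splitImp [Sup]
  rcases ih (A \ {a, b, c, d}) x' y' (card_sdiff_lt hA.1 (by simp)) i1 i2 (by grind +splitImp [Sup])
    (by grind +splitImp [Sup]) (by omega) with h | ⟨z', j1, j2, j3, j4⟩
  · exact Or.inl (c4_of_exc h (by grind +splitImp) (by grind +splitImp))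
  · have h5 : z' a = a ∧ z' b = b ∧ z' c = c ∧ z' d = d := by grind +splitImp [Sup]
    obtain ⟨z, k1, _, _, _, -⟩ := add_edge j1 h5.2.1 h5.2.2.1 (by grind +splitImp)
    refine Or.inr ⟨z, k1, by grind +splitImp [Sup], ?_, ?_⟩
    · refine ins j3 (v := a) (a := b) (b := c) ?_ ?_ ?_ ?_ ?_ ?_ ?_
        fun t => (have := j1 t; ?_) <;> (try simp only [Perm.mul_apply]) <;> grind +splitImp
    · refine ins j4 (v := d) (a := c) (b := b) ?_ ?_ ?_ ?_ ?_ ?_ ?_
        fun t => (have := j1 t; ?_) <;> (try simp only [Perm.mul_apply]) <;> grind +splitImp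

theorem step_long {A : Finset α} {x y : Perm α} (ih : IH A)
    (hx : Inv x) (hy : Inv y) (hxA : Sup A x) (hyA : Sup A y)
    (hc : x.support.card = y.support.card) {a b c d u w : α} (hb : x a = b) (hc' : y b = c)
    (hd : x c = d) (hu : y a = u) (hw : y d = w) (hn : [a, b, c, d, u, w].Nodup) : Sol A x y := by
  have hb' : x b = a := by rw [← hb, hx]
  have hc2 : y c = b := by rw [← hc', hy]
  have hd' : x d = c := by rw [← hd, hx]
  have hu' : y u = a := by rw [← hu, hy]
  have hw' : y w = d := by rw [← hw, hy]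
  simp only [List.nodup_cons, List.mem_cons, List.not_mem_nil, not_or] at hn
  obtain ⟨x', i2, e1, e2, c2⟩ : ∃ x' : Perm α, Inv x' ∧ (x' a = a ∧ x' b = b ∧ x' c = c ∧ x' d = d) ∧
      (∀ t, t ≠ a → t ≠ b → t ≠ c → t ≠ d → x' t = x t) ∧
      x.support.card = x'.support.card + 4 := by
    obtain ⟨x1, i1, _, _, _, c1⟩ := del_edge hx hb (by grind +splitImp)
    obtain ⟨x', i2, _, _, _, c2⟩ := del_edge i1 (a := c) (b := d) (by grind +splitImp)
      (by grind +splitImp)
    exact ⟨x', i2, by grind +splitImp, by grind +splitImp, by omega⟩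
  obtain ⟨y', i6, e3, e4, c6⟩ : ∃ y' : Perm α, Inv y' ∧
      (y' a = a ∧ y' b = b ∧ y' c = c ∧ y' d = d ∧ y' u = w ∧ y' w = u) ∧
      (∀ t, t ≠ a → t ≠ b → t ≠ c → t ≠ d → t ≠ u → t ≠ w → y' t = y t) ∧
      y.support.card = y'.support.card + 4 := by
    obtain ⟨y1, i3, _, _, _, c3⟩ := del_edge hy hu (by grind +splitImp)
    obtain ⟨y2, i4, _, _, _, c4⟩ := del_edge i3 (a := b) (b := c) (by grind +splitImp)
      (by grind +splitImp)
    obtain ⟨y3, i5, _, _, _, c5⟩ := del_edge i4 (a := d) (b := w) (by grind +splitImp)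
      (by grind +splitImp)
    obtain ⟨y', i6, _, _, _, c6⟩ := add_edge i5 (a := u) (b := w) (by grind +splitImp)
      (by grind +splitImp) (by grind +splitImp)
    exact ⟨y', i6, by grind +splitImp, by grind +splitImp, by omega⟩
  have hA : a ∈ A ∧ b ∈ A ∧ c ∈ A ∧ d ∈ A ∧ u ∈ A ∧ w ∈ A := by grind +splitImp [Sup]
  rcases ih (A \ {a, b, c, d}) x' y' (card_sdiff_lt hA.1 (by simp)) i2 i6 (by grind +splitImp [Sup])
    (by grind +splitImp [Sup]) (by omega) with he | ⟨z', j1, j2, j3, j4⟩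
  · obtain ⟨he, he'⟩ := he.at i2 i6 (u := u) (by grind +splitImp)
    have hn' := he.nodup i2 i6
    have h2 := (he' (x' u)).2 (by simp)
    have h4 := (he' (x' (y' u))).2 (by simp)
    have := i2 u
    have := i6 (x' u)
    simp only [List.nodup_cons, List.mem_cons, List.not_mem_nil, not_or] at hn'
    refine sol8 hx hy hxA hyA (a := a) (b := b) (c := c) (d := d) (e := w) (f := x' w)
      (g := x' u) (h := u) ?_ (fun t => (have := he' t; ?_)) ?_ ?_
    · simp only [List.nodup_cons, List.mem_cons, List.not_mem_nil, not_or, List.nodup_nil]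
      grind +splitImp
    · simp only [List.mem_cons, List.not_mem_nil, Finset.mem_sdiff, Finset.mem_insert,
        Finset.mem_singleton] at this ⊢
      constructor
      · intro h; grind
      · rintro (rfl | rfl | rfl | rfl | rfl | rfl | rfl | rfl | h) <;> grind
    · grind +splitImp
    · grind +splitImp [C4]
  · have h5 : z' a = a ∧ z' b = b ∧ z' c = c ∧ z' d = d := by grind +splitImp [Sup]
    obtain ⟨z, k2, e5, e6⟩ : ∃ z : Perm α, Inv z ∧ (z a = b ∧ z b = a ∧ z c = d ∧ z d = c) ∧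
        ∀ t, t ≠ a → t ≠ b → t ≠ c → t ≠ d → z t = z' t := by
      obtain ⟨z1, k1, _, _, _, -⟩ := add_edge j1 h5.1 h5.2.1 (by grind +splitImp)
      obtain ⟨z, k2, _, _, _, -⟩ := add_edge k1 (a := c) (b := d) (by grind +splitImp)
        (by grind +splitImp) (by grind +splitImp)
      exact ⟨z, k2, by grind +splitImp, by grind +splitImp⟩
    refine ⟨z, k2, by grind +splitImp [Sup], ?_, ?_⟩
    · convert j3 using 2
      ext t
      have := j1 t
      simp only [Perm.mul_apply]
      grind +splitImp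
    · have := j1 u
      have := j1 w
      refine ins2 j4 (v := z' u) (a := a) (b := c) (w := z' w) (c := d) (d := b)
        ?_ ?_ ?_ ?_ ?_ ?_ ?_ ?_ ?_ ?_ ?_ fun t => (have := j1 t; ?_) <;>
        simp only [Perm.mul_apply, List.nodup_cons, List.mem_cons, List.not_mem_nil, not_or,
          List.nodup_nil] <;> grind +splitImp

theorem nodup_long {x y : Perm α} (hx : Inv x) (hy : Inv y) (h8 : ∀ t, x t = t ↔ y t = t) {a : α}
    (h4 : ¬ C4 x y a) (h5 : x a ≠ y a) :
    [a, x a, y (x a), x (y (x a)), y a, y (x (y (x a)))].Nodup := by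
  have := h8 a
  have := h8 (x a)
  have := h8 (y (x a))
  have := h8 (x (y (x a)))
  have := hx a
  have := hy a
  have := hy (x a)
  have := hx (y (x a))
  have := hy (x (y (x a)))
  clear h8
  simp only [List.nodup_cons, List.mem_cons, List.not_mem_nil, not_or, List.nodup_nil]
  refine ⟨⟨?_, ?_, ?_, ?_, ?_, ?_⟩, ⟨?_, ?_, ?_, ?_, ?_⟩, ⟨?_, ?_, ?_, ?_⟩, ⟨?_, ?_, ?_⟩, ⟨?_, ?_⟩,
    ?_⟩ <;> grind [C4]

theorem key : ∀ (N : ℕ) (A : Finset α) (x y : Perm α), A.card = N → Inv x → Inv y → Sup A x →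
    Sup A y → x.support.card = y.support.card → Exc A x y ∨ Sol A x y := by
  intro N
  induction N using Nat.strong_induction_on with | _ N ih => ?_
  rintro A x y rfl hx hy hxA hyA hc
  replace ih : IH A := fun A' x' y' h => ih _ h A' x' y' rfl
  by_cases h4 : ∃ a, C4 x y a
  · obtain ⟨a, ha⟩ := h4
    exact step_c4 ih hx hy hxA hyA hc ha
  right
  by_cases h1 : ∃ a, y a = a ∧ x a ≠ a ∧ y (x a) ≠ x a
  · obtain ⟨a, h1, h2, h3⟩ := h1
    exact step_end ih hx hy hxA hyA hc h1 h2 h3
  by_cases h2 : ∃ a, x a = a ∧ y a ≠ a ∧ x (y a) ≠ y a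
  · obtain ⟨a, h1, h2, h3⟩ := h2
    exact (step_end ih hy hx hyA hxA hc.symm h1 h2 h3).symm
  rcases A.eq_empty_or_nonempty with rfl | ⟨a, ha⟩
  · obtain rfl : x = 1 := Equiv.ext fun t => hxA t (by simp)
    obtain rfl : y = 1 := Equiv.ext fun t => hyA t (by simp)
    exact ⟨1, hx, hxA, by simp, by simp⟩
  by_cases h5 : x a = y a
  · exact (step_dbl ih hx hy hxA hyA hc ha h5).resolve_left h4
  by_cases h7 : x.support = y.support
  · exact step_long ih hx hy hxA hyA hc rfl rfl rfl rfl rfl (nodup_long hx hy (fun t => by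
      rw [← not_iff_not, ← Ne, ← Ne, ← mem_support, ← mem_support, h7]) (fun h => h4 ⟨a, h⟩) h5)
  · obtain ⟨a, ha1, ha2⟩ : ∃ a, a ∈ x.support ∧ a ∉ y.support := by
      by_contra! h
      exact h7 (Finset.eq_of_subset_of_card_le h hc.ge)
    obtain ⟨c, hc1, hc2⟩ : ∃ a, a ∈ y.support ∧ a ∉ x.support := by
      by_contra! h
      exact h7 (Finset.eq_of_subset_of_card_le h hc.le).symm
    simp only [mem_support, not_not] at ha1 ha2 hc1 hc2
    push Not at h1 h2
    exact (step_pair ih hx hy hxA hyA hc rfl ha1.symm ha2 (h1 a ha2 ha1) rfl hc1.symm hc2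
      (h2 c hc2 hc1)).resolve_left h4

theorem isConj_of_odd {G : Type*} [Group G] {x z : G} (hx : x * x = 1) (hz : z * z = 1)
    (h : Odd (orderOf (x * z))) : IsConj x z := by
  obtain ⟨k, hk⟩ := h
  have h1 : x * (x * z) * x⁻¹ = (x * z)⁻¹ := by
    rw [← mul_assoc, hx, one_mul, mul_inv_rev, inv_eq_of_mul_eq_one_right hz]
  have h2 : x * (x * z) ^ k = ((x * z) ^ k)⁻¹ * x := by
    rw [← inv_pow, ← h1, conj_pow, inv_mul_cancel_right]
  have h3 : (x * z) ^ k * (x * z) ^ k * (x * z) = 1 := by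
    rw [← pow_add, ← pow_succ, ← two_mul, ← hk, pow_orderOf_eq_one]
  refine isConj_iff.2 ⟨(x * z) ^ k, ?_⟩
  have h4 : x * ((x * z) ^ k)⁻¹ = (x * z) ^ k * x := by
    rw [mul_inv_eq_iff_eq_mul, mul_assoc, h2, mul_inv_cancel_left]
  rw [mul_assoc, h4, ← mul_assoc, eq_inv_of_mul_eq_one_left h3, mul_inv_rev, inv_mul_cancel_right,
    inv_eq_of_mul_eq_one_right hz]

theorem main (hn : 5 ≤ Fintype.card α) (t : Perm α) (ht : orderOf t = 2) :
    (SimpleGraph.fromRel fun x y : {x : Perm α // IsConj t x} =>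
        Odd (orderOf (x.1 * y.1))).Connected ∧
      (SimpleGraph.fromRel fun x y : {x : Perm α // IsConj t x} =>
        Odd (orderOf (x.1 * y.1))).diam = 2 := by
  have ht2 : t * t = 1 := by rw [← sq, ← ht, pow_orderOf_eq_one]
  have hsq : ∀ x : {x : Perm α // IsConj t x}, x.1 * x.1 = 1 := by
    rintro ⟨x, hx⟩
    obtain ⟨g, rfl⟩ := isConj_iff.1 hx
    rw [conj_mul, ht2]; simp
  have hinv : ∀ x : {x : Perm α // IsConj t x}, Inv x.1 := fun x a =>
    congrFun (congrArg DFunLike.coe (hsq x)) a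
  have hcard : ∀ x : {x : Perm α // IsConj t x}, x.1.support.card = t.support.card := by
    rintro ⟨x, hx⟩
    obtain ⟨g, rfl⟩ := isConj_iff.1 hx
    exact card_support_conj
  have hle : (SimpleGraph.fromRel fun x y : {x : Perm α // IsConj t x} =>
        Odd (orderOf (x.1 * y.1))).ediam ≤ 2 := by
    refine SimpleGraph.ediam_le_of_edist_le fun x y => ?_
    rcases key _ Finset.univ x.1 y.1 rfl (hinv x) (hinv y) (fun t h => absurd (Finset.mem_univ t) h)
      (fun t h => absurd (Finset.mem_univ t) h) (by rw [hcard, hcard]) with ⟨a, -, ha⟩ | ⟨z, h1, -, h2, h3⟩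
    · have : (Finset.univ : Finset α) ⊆ {a, x.1 a, y.1 a, x.1 (y.1 a)} := fun t h => by
        simpa using (ha t).1 h
      have := (Finset.card_le_card this).trans Finset.card_le_four
      rw [Finset.card_univ] at this
      omega
    · let z' : {x : Perm α // IsConj t x} := ⟨z, x.2.trans (isConj_of_odd (hsq x) (Equiv.ext h1) h2)⟩
      refine (SimpleGraph.edist_triangle (v := z')).trans ?_
      rw [← one_add_one_eq_two]
      refine add_le_add ?_ ?_
      · rw [SimpleGraph.edist_le_one_iff_adj_or_eq, SimpleGraph.fromRel_adj]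
        exact or_iff_not_imp_right.2 fun h => ⟨h, Or.inl h2⟩
      · rw [SimpleGraph.edist_le_one_iff_adj_or_eq, SimpleGraph.fromRel_adj]
        exact or_iff_not_imp_right.2 fun h => ⟨h, Or.inr h3⟩
  have : Nonempty {x : Perm α // IsConj t x} := ⟨⟨t, IsConj.refl t⟩⟩
  refine ⟨SimpleGraph.connected_of_ediam_ne_top (ne_top_of_le_ne_top (by decide) hle), ?_⟩
  have hti : Inv t := hinv ⟨t, IsConj.refl t⟩
  obtain ⟨y, hy, hne, hcomm⟩ : ∃ y, IsConj t y ∧ t ≠ y ∧ Commute t y := by
    obtain ⟨a, ha⟩ : ∃ a, t a ≠ a := by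
      by_contra! h
      rw [show t = 1 from Equiv.ext h] at ht
      simp at ht
    have := hti a
    by_cases h : ∃ c, c ≠ a ∧ c ≠ t a ∧ t c ≠ c
    · obtain ⟨c, h1, h2, h3⟩ := h
      have := hti c
      refine ⟨swap (t a) c * t * (swap (t a) c)⁻¹, isConj_iff.2 ⟨_, rfl⟩, fun e => ?_,
        Equiv.ext fun s => ?_⟩
      · have := congrFun (congrArg DFunLike.coe e) a
        simp only [Perm.mul_apply, swap_inv, swap_apply_def] at this
        grind +splitImp
      · have := hti s
        simp only [Perm.mul_apply, swap_inv, swap_apply_def]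
        grind +splitImp
    · obtain ⟨c, hc, d, hd, hcd⟩ := Finset.one_lt_card.1
        (show 1 < ({a, t a}ᶜ : Finset α).card by
          rw [Finset.card_compl]
          have := Finset.card_le_two (a := a) (b := t a)
          omega)
      simp only [Finset.mem_compl, Finset.mem_insert, Finset.mem_singleton, not_or] at hc hd
      refine ⟨swap a c * swap (t a) d * t * (swap a c * swap (t a) d)⁻¹, isConj_iff.2 ⟨_, rfl⟩,
        fun e => ?_, Equiv.ext fun s => ?_⟩
      · have := congrFun (congrArg DFunLike.coe e) a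
        simp only [Perm.mul_apply, mul_inv_rev, swap_inv, swap_apply_def] at this
        grind +splitImp
      · simp only [Perm.mul_apply, mul_inv_rev, swap_inv, swap_apply_def]
        grind +splitImp
  have hge : 2 ≤ (SimpleGraph.fromRel fun x y : {x : Perm α // IsConj t x} =>
        Odd (orderOf (x.1 * y.1))).edist ⟨t, IsConj.refl t⟩ ⟨y, hy⟩ := by
    by_contra hlt
    have := Order.le_of_lt_add_one (x := _) (y := (1 : ℕ∞)) (by rw [one_add_one_eq_two]; exact not_le.1 hlt)
    rw [SimpleGraph.edist_le_one_iff_adj_or_eq, SimpleGraph.fromRel_adj] at this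
    have hy2 : y * y = 1 := hsq ⟨y, hy⟩
    have h2 : orderOf (t * y) = 2 := orderOf_eq_prime
      (by rw [hcomm.mul_pow, sq, sq, ht2, hy2, one_mul])
      (fun e => hne (by rw [eq_inv_of_mul_eq_one_left e, inv_eq_of_mul_eq_one_right hy2]))
    rcases this with ⟨-, h | h⟩ | h
    · rw [h2] at h; exact absurd h (by decide)
    · rw [← hcomm.eq, h2] at h; exact absurd h (by decide)
    · exact hne (congrArg Subtype.val h)
  rw [SimpleGraph.diam, le_antisymm hle (hge.trans SimpleGraph.edist_le_ediam)]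
  rfl

end CL.Ord.LocFus
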